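import Cfsg.Agent.H81.MacW.Frat
import Cfsg.Agent.H24.PGroupBasic

/-!
A 2-group of automorphisms of an elementary abelian group of order eight has sectional rank two.
-/

set_option autoImplicit false
set_option linter.unusedSectionVars false

namespace Cfsg.Agent.H81.SelfEight

open Subgroup
open Cfsg.Agent.H81.MacW (sqSub sq_mem_sqSub comm_mem_sqSub card_split)

variable {S : Type*} [Group S] [Finite S]

theorem flag_bound (hP : IsPGroup 2 S) (W : Subgroup S) [hWn : W.Normal]
    (hWc : ∀ x ∈ W, ∀ y ∈ W, x * y = y * x) (hW2 : ∀ x ∈ W, x * x = 1) (h8 : Nat.card W = 8)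
    {Q : Type*} [Group Q] [Finite Q] (f : S →* Q) (hf : f.ker = centralizer (W : Set S)) (H : Subgroup S) :
    Nat.card (H.map f) ≤ 4 * Nat.card ((sqSub H).map f) := by
  classical
  haveI : Fact (Nat.Prime 2) := ⟨Nat.prime_two⟩
  have hinv : ∀ w ∈ W, w⁻¹ = w := fun w hw => inv_eq_of_mul_eq_one_right (hW2 w hw)
  -- an invariant flag
  have hne : (⊥ : Subgroup S) ≠ W := fun h => by rw [← h, card_bot] at h8; omega
  obtain ⟨K, hKn, -, hKW, hKcard, hcomm⟩ :=
    Cfsg.Agent.H24.exists_normal_between (p := 2) hP bot_le hne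
  rw [card_bot, mul_one] at hKcard
  haveI := hKn
  have hKne : K ≠ W := fun h => by rw [h] at hKcard; omega
  obtain ⟨P2, hP2n, hKP, hPW, hPcard, hcommP⟩ :=
    Cfsg.Agent.H24.exists_normal_between (p := 2) hP hKW hKne
  rw [hKcard] at hPcard
  obtain ⟨p, hp, hpK⟩ : ∃ v ∈ P2, v ∉ K := by
    by_contra hh
    push Not at hh
    have := card_le_of_le (show P2 ≤ K from hh)
    omega
  obtain ⟨q, hq, hqP⟩ : ∃ v ∈ W, v ∉ P2 := by
    by_contra hh
    push Not at hh
    have := card_le_of_le (show W ≤ P2 from hh)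
    omega
  have hKfix : ∀ g : S, ∀ k ∈ K, g * k * g⁻¹ = k := fun g k hk => by
    have h := hcomm (commutator_mem_commutator (mem_top g) hk)
    rwa [mem_bot, commutatorElement_def, mul_inv_eq_one] at h
  have hgenP : ∀ v ∈ P2, v ∈ K ∨ v * p ∈ K := by
    have hi : (K.subgroupOf P2).index = 2 := by
      have h := index_mul_card (K.subgroupOf P2)
      rw [Nat.card_congr (subgroupOfEquivOfLe hKP).toEquiv, hKcard, hPcard] at h
      omega
    intro v hv
    by_cases hvK : v ∈ K
    · exact Or.inl hvK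
    · refine Or.inr ?_
      have := (mul_mem_iff_of_index_two hi (a := (⟨v, hv⟩ : P2)) (b := ⟨p, hp⟩)).2
        (by simp [mem_subgroupOf, hvK, hpK])
      simpa [mem_subgroupOf] using this
  have hgenW : ∀ v ∈ W, v ∈ P2 ∨ v * q ∈ P2 := by
    have hi : (P2.subgroupOf W).index = 2 := by
      have h := index_mul_card (P2.subgroupOf W)
      rw [Nat.card_congr (subgroupOfEquivOfLe hPW).toEquiv, hPcard, h8] at h
      omega
    intro v hv
    by_cases hvK : v ∈ P2
    · exact Or.inl hvK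
    · refine Or.inr ?_
      have := (mul_mem_iff_of_index_two hi (a := (⟨v, hv⟩ : W)) (b := ⟨q, hq⟩)).2
        (by simp [mem_subgroupOf, hvK, hqP])
      simpa [mem_subgroupOf] using this
  have hmove : ∀ g : S, ∀ v ∈ W, g * v * g⁻¹ * v ∈ P2 := by
    intro g v hv
    have hqq : g * q * g⁻¹ * q ∈ P2 := by
      rcases hgenW _ (hWn.conj_mem q hq g) with h | h
      · exfalso
        have := hP2n.conj_mem _ h g⁻¹
        rw [inv_inv, show g⁻¹ * (g * q * g⁻¹) * g = q by group] at this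
        exact hqP this
      · exact h
    rcases hgenW v hv with h | h
    · exact mul_mem (hP2n.conj_mem v h g) h
    · have e : v = v * q * q := by rw [mul_assoc, hW2 q hq, mul_one]
      have e2 : g * v * g⁻¹ * v = g * (v * q) * g⁻¹ * (g * q * g⁻¹ * q * (v * q)) := by
        nth_rewrite 1 [e]
        rw [hWc v hv q hq, mul_assoc _ q (q * v), ← mul_assoc q q v, hW2 q hq, one_mul]
        group
      rw [e2]
      exact mul_mem (hP2n.conj_mem _ h g) (mul_mem hqq h)
  -- the subgroup fixing `P2` pointwise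
  set Hp := H ⊓ centralizer (P2 : Set S) with hHp
  have hext : ∀ x y : S, (∀ v ∈ P2, x * v * x⁻¹ = y * v * y⁻¹) → x * q * x⁻¹ = y * q * y⁻¹ →
      x⁻¹ * y ∈ f.ker := by
    intro x y hxy hq'
    rw [hf]
    refine mem_centralizer_iff.2 fun w hw => ?_
    have key : x * w * x⁻¹ = y * w * y⁻¹ := by
      rcases hgenW w hw with h | h
      · exact hxy w h
      · have e : w = w * q * q := by rw [mul_assoc, hW2 q hq, mul_one]
        rw [e, show x * (w * q * q) * x⁻¹ = x * (w * q) * x⁻¹ * (x * q * x⁻¹) by group,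
          show y * (w * q * q) * y⁻¹ = y * (w * q) * y⁻¹ * (y * q * y⁻¹) by group, hxy _ h, hq']
    calc w * (x⁻¹ * y) = x⁻¹ * (x * w * x⁻¹) * y := by group
      _ = x⁻¹ * (y * w * y⁻¹) * y := by rw [key]
      _ = x⁻¹ * y * w := by group
  have hfixP : ∀ x : S, x * p * x⁻¹ = p → ∀ v ∈ P2, x * v * x⁻¹ = v := by
    intro x hx v hv
    rcases hgenP v hv with h | h
    · exact hKfix x v h
    · have e : v = v * p * p := by rw [mul_assoc, hW2 p (hPW hp), mul_one]
      rw [e, show x * (v * p * p) * x⁻¹ = x * (v * p) * x⁻¹ * (x * p * x⁻¹) by group, hKfix x _ h, hx]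
  have hpc : ∀ x : S, x * p * x⁻¹ = p ∨ ∀ y : S, y * p * y⁻¹ ≠ p → x * p * x⁻¹ = y * p * y⁻¹ := by
    intro x
    by_cases hx : x * p * x⁻¹ = p
    · exact Or.inl hx
    refine Or.inr fun y hy => ?_
    -- both lie in the coset `K * p` and differ from `p`
    have key : ∀ y : S, y * p * y⁻¹ * p ∈ K := fun y => by
      rcases hgenP _ (hP2n.conj_mem p hp y) with h | h
      · exfalso
        have := hKn.conj_mem _ h y⁻¹
        rw [inv_inv, show y⁻¹ * (y * p * y⁻¹) * y = p by group] at this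
        exact hpK this
      · exact h
    have hk1 : ∀ k ∈ K, k ≠ 1 → ∀ k' ∈ K, k' ≠ 1 → k = k' := by
      intro k hk hk1 k' hk' hk'1
      by_contra hne'
      let l : Fin 3 → K := ![1, ⟨k, hk⟩, ⟨k', hk'⟩]
      have hl : Function.Injective l := by
        intro i j h
        fin_cases i <;> fin_cases j <;>
          simp [l, Subtype.ext_iff, hk1, hk'1, hne', Ne.symm hk1, Ne.symm hk'1, Ne.symm hne'] at h ⊢
      have := Nat.card_le_card_of_injective l hl
      rw [Nat.card_fin] at this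
      omega
    have e := hk1 _ (key x) (fun h => hx (by rw [eq_inv_of_mul_eq_one_left h, hinv p (hPW hp)]))
      _ (key y) (fun h => hy (by rw [eq_inv_of_mul_eq_one_left h, hinv p (hPW hp)]))
    exact mul_right_cancel e
  have hHp4 : ∀ T : Subgroup S, (∀ t ∈ T, ∀ v ∈ P2, t * v * t⁻¹ = v) → Nat.card (T.map f) ≤ 4 := by
    intro T hT
    have hsel : ∀ r : T.map f, ∃ x, x ∈ T ∧ f x = r := fun r => r.2
    choose x hxT hxr using hsel
    have := Nat.card_le_card_of_injective (fun r : T.map f => (⟨x r * q * (x r)⁻¹ * q, hmove _ q hq⟩ : P2))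
      fun r r' h => by
        have e := mul_right_cancel (congrArg Subtype.val h)
        have hk := hext (x r) (x r') (fun v hv => by rw [hT _ (hxT r) v hv, hT _ (hxT r') v hv]) e
        exact Subtype.ext (by
          rw [← hxr r, ← hxr r', ← inv_mul_eq_one, ← map_inv, ← map_mul]; exact hk)
    omega
  have hHpfix : ∀ t ∈ Hp, ∀ v ∈ P2, t * v * t⁻¹ = v := fun t ht v hv => by
    rw [← mem_centralizer_iff.1 ht.2 v hv, mul_inv_cancel_right]
  by_cases hH : H ≤ centralizer (P2 : Set S)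
  · have := hHp4 H fun t ht v hv => hHpfix t ⟨ht, hH ht⟩ v hv
    have : 1 ≤ Nat.card ((sqSub H).map f) := Nat.card_pos
    omega
  obtain ⟨h0, hh0, hh0P⟩ := SetLike.not_le_iff_exists.1 hH
  have hh0p : h0 * p * h0⁻¹ ≠ p := fun h => hh0P (mem_centralizer_iff.2 fun v hv =>
    (mul_inv_eq_iff_eq_mul.1 (hfixP h0 h v hv)).symm)
  -- two cosets
  have hcov : ∀ x ∈ H, x ∈ Hp ∨ h0⁻¹ * x ∈ Hp := by
    intro x hx
    rcases hpc x with h | h
    · exact Or.inl ⟨hx, mem_centralizer_iff.2 fun v hv => (mul_inv_eq_iff_eq_mul.1 (hfixP x h v hv)).symm⟩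
    · refine Or.inr ⟨H.mul_mem (H.inv_mem hh0) hx, mem_centralizer_iff.2 fun v hv =>
        (mul_inv_eq_iff_eq_mul.1 (hfixP _ ?_ v hv)).symm⟩
      rw [show h0⁻¹ * x * p * (h0⁻¹ * x)⁻¹ = h0⁻¹ * (x * p * x⁻¹) * h0 by group, h h0 hh0p]
      group
  have hcard2 : Nat.card (H.map f) ≤ 2 * Nat.card (Hp.map f) := by
    let g : Bool × Hp.map f → H.map f := fun r => match r with
      | (false, r) => ⟨r, by obtain ⟨t, ht, e⟩ := r.2; exact ⟨t, ht.1, e⟩⟩
      | (true, r) => ⟨f h0 * r, by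
          obtain ⟨t, ht, e⟩ := r.2; exact ⟨h0 * t, H.mul_mem hh0 ht.1, by rw [map_mul, e]⟩⟩
    have hg : Function.Surjective g := by
      rintro ⟨r, x, hx, rfl⟩
      rcases hcov x hx with h | h
      · exact ⟨(false, ⟨f x, x, h, rfl⟩), rfl⟩
      · exact ⟨(true, ⟨f (h0⁻¹ * x), _, h, rfl⟩), Subtype.ext
          (show f h0 * f (h0⁻¹ * x) = f x by rw [← map_mul, mul_inv_cancel_left])⟩
    have := Nat.card_le_card_of_injective _ (Function.injective_surjInv hg)
    rwa [Nat.card_prod, Nat.card_eq_fintype_card (α := Bool), Fintype.card_bool] at this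
  have h4 := hHp4 Hp hHpfix
  by_contra hbig
  -- otherwise all squares act trivially and all displacements of `q` occur
  have hs1 : Nat.card ((sqSub H).map f) = 1 := by
    have : 1 ≤ Nat.card ((sqSub H).map f) := Nat.card_pos
    omega
  have hsq : ∀ x ∈ H, f (x * x) = 1 := fun x hx => by
    have : f (x * x) ∈ (sqSub H).map f := ⟨x * x, by rw [← pow_two]; exact sq_mem_sqSub hx, rfl⟩
    rwa [Subgroup.card_eq_one.1 hs1, mem_bot] at this
  have hsurj : ∃ t ∈ Hp, t * q * t⁻¹ * q = p := by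
    by_contra hh
    push Not at hh
    have hsel : ∀ r : Hp.map f, ∃ x, x ∈ Hp ∧ f x = r := fun r => r.2
    choose x hxT hxr using hsel
    let g : Hp.map f → ((P2 : Set S) \ {p} : Set S) := fun r =>
      ⟨x r * q * (x r)⁻¹ * q, hmove _ q hq, hh _ (hxT r)⟩
    have hg : Function.Injective g := fun r r' h => by
      have e := mul_right_cancel (congrArg Subtype.val h)
      have hk := hext (x r) (x r') (fun v hv => by rw [hHpfix _ (hxT r) v hv, hHpfix _ (hxT r') v hv]) e
      exact Subtype.ext (by rw [← hxr r, ← hxr r', ← inv_mul_eq_one, ← map_inv, ← map_mul]; exact hk)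
    have h3 := Nat.card_le_card_of_injective g hg
    have hlt : Nat.card ((P2 : Set S) \ {p} : Set S) < Nat.card P2 := by
      rw [show Nat.card P2 = Nat.card (P2 : Set S) from rfl, Nat.card_coe_set_eq, Nat.card_coe_set_eq]
      exact Set.ncard_sdiff_singleton_lt_of_mem hp
    obtain ⟨n, hn⟩ := IsPGroup.iff_card.1 ((hP.to_subgroup Hp).map f)
    rw [hn] at h3 hcard2
    rcases n with _ | _ | n
    · omega
    · omega
    · rw [pow_succ, pow_succ] at h3
      have := Nat.one_le_two_pow (n := n)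
      omega
  obtain ⟨t, ht, htq⟩ := hsurj
  -- `h0` commutes with `t` modulo the kernel
  have hcommht : (t * h0)⁻¹ * (h0 * t) ∈ f.ker := by
    rw [MonoidHom.mem_ker, map_mul, map_inv, inv_mul_eq_one, map_mul, map_mul]
    have e1 := hsq h0 hh0
    have e2 := hsq t ht.1
    have e3 := hsq _ (H.mul_mem hh0 ht.1)
    rw [map_mul] at e1 e2 e3
    rw [map_mul] at e3
    calc f t * f h0 = (f h0 * f h0) * (f t * f h0) * (f t * f t) := by rw [e1, e2, one_mul, mul_one]
      _ = f h0 * (f h0 * f t * (f h0 * f t)) * f t := by group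
      _ = f h0 * f t := by rw [e3, mul_one]
  rw [hf, mem_centralizer_iff] at hcommht
  have e : h0 * t * (h0⁻¹ * q * h0) * (h0 * t)⁻¹ = t * h0 * (h0⁻¹ * q * h0) * (t * h0)⁻¹ := by
    have hh := hcommht _ (by have := hWn.conj_mem q hq h0⁻¹; rwa [inv_inv] at this)
    calc h0 * t * (h0⁻¹ * q * h0) * (h0 * t)⁻¹
        = t * h0 * (((t * h0)⁻¹ * (h0 * t)) * (h0⁻¹ * q * h0)) * (h0 * t)⁻¹ := by group
      _ = t * h0 * ((h0⁻¹ * q * h0) * ((t * h0)⁻¹ * (h0 * t))) * (h0 * t)⁻¹ := by rw [← hh]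
      _ = t * h0 * (h0⁻¹ * q * h0) * (t * h0)⁻¹ := by group
  have hee : h0⁻¹ * q * h0⁻¹⁻¹ * q ∈ P2 := hmove h0⁻¹ q hq
  rw [inv_inv] at hee
  set v := h0⁻¹ * q * h0 * q with hv
  have ev : h0⁻¹ * q * h0 = v * q := by rw [hv, mul_assoc (h0⁻¹ * q * h0) q q, hW2 q hq, mul_one]
  have htq' : t * q * t⁻¹ = p * q := by rw [← htq, mul_assoc _ q q, hW2 q hq, mul_one]
  have l1 : h0 * t * (h0⁻¹ * q * h0) * (h0 * t)⁻¹ = h0 * p * h0⁻¹ * q := by
    calc h0 * t * (h0⁻¹ * q * h0) * (h0 * t)⁻¹ = h0 * (t * (v * q) * t⁻¹) * h0⁻¹ := by rw [ev]; group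
      _ = h0 * (v * (p * q)) * h0⁻¹ := by
          rw [show t * (v * q) * t⁻¹ = t * v * t⁻¹ * (t * q * t⁻¹) by group, hHpfix t ht v hee, htq']
      _ = h0 * (p * (v * q)) * h0⁻¹ := by
          rw [show v * (p * q) = p * (v * q) by rw [← mul_assoc, hWc v (hPW hee) p (hPW hp), mul_assoc]]
      _ = h0 * p * h0⁻¹ * q := by rw [← ev]; group
  have l2 : t * h0 * (h0⁻¹ * q * h0) * (t * h0)⁻¹ = p * q := by
    rw [← htq']; group
  exact hh0p (mul_right_cancel (l1.symm.trans (e.trans l2)))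

end Cfsg.Agent.H81.SelfEight
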