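import Cfsg.Agent.H81.SelfEight.Basic
import Cfsg.Agent.H81.SelfEight.Flag

/-!
The case `|W| = 8`.
-/

set_option autoImplicit false
set_option linter.unusedSectionVars false

namespace Cfsg.Agent.H81.SelfEight.Data

open Subgroup
open Cfsg.Agent.H81.MacW (sqSub sq_mem_sqSub comm_mem_sqSub card_split card_pow_two)

/-- Five different elements generated by three. -/
theorem five_le {G : Type*} [Group G] [Finite G] (K : Subgroup G) {x y z : G} (hx : x ∈ K) (hy : y ∈ K)
    (hz : z ∈ K) (x1 : x ≠ 1) (y1 : y ≠ 1) (z1 : z ≠ 1) (xy : x ≠ y) (xz : x ≠ z) (yz : y ≠ z)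
    (p1 : x * y ≠ 1) (pz : x * y ≠ z) : 5 ≤ Nat.card K := by
  let l : Fin 5 → K := ![1, ⟨x, hx⟩, ⟨y, hy⟩, ⟨z, hz⟩, ⟨x * y, mul_mem hx hy⟩]
  have hl : Function.Injective l := by
    intro i j e
    fin_cases i <;> fin_cases j <;>
      simp [l, Subtype.ext_iff, x1, y1, z1, xy, xz, yz, p1, pz, Ne.symm x1, Ne.symm y1, Ne.symm z1,
        Ne.symm xy, Ne.symm xz, Ne.symm yz, Ne.symm p1, Ne.symm pz] at e ⊢
  simpa using Nat.card_le_card_of_injective l hl

variable {S : Type*} [Group S] [Finite S] (d : Data S)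

/-- `uu`: the displacement of `a` on `W`; a fourth generator `w3`. -/
theorem exists_disp (h8 : Nat.card d.W = 8) :
    ∃ w3 uu : S, w3 ∈ d.W ∧ w3 ∉ d.U ∧ uu ∈ d.U ∧ uu ≠ 1 ∧ d.a * w3 * d.a = w3 * uu ∧
      (∀ w ∈ d.W, w ∈ d.U ∨ w * w3 ∈ d.U) := by
  have hU4 : Nat.card d.U = 4 := d.hU
  obtain ⟨w3, hw3, hw3U⟩ : ∃ v ∈ d.W, v ∉ d.U := by
    by_contra hh
    push Not at hh
    have := card_le_of_le (show d.W ≤ d.U from hh)
    omega
  have hgen : ∀ w ∈ d.W, w ∈ d.U ∨ w * w3 ∈ d.U := by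
    have hi : (d.U.subgroupOf d.W).index = 2 := by
      have h := index_mul_card (d.U.subgroupOf d.W)
      rw [Nat.card_congr (subgroupOfEquivOfLe (show d.U ≤ d.W from inf_le_left)).toEquiv, hU4, h8] at h
      omega
    intro v hv
    by_cases hvK : v ∈ d.U
    · exact Or.inl hvK
    · refine Or.inr ?_
      have h := (mul_mem_iff_of_index_two hi (a := (⟨v, hv⟩ : d.W)) (b := ⟨w3, hw3⟩)).2
        (by rw [mem_subgroupOf, mem_subgroupOf]; simp only [hvK, hw3U])
      exact mem_subgroupOf.1 h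
  have haw : d.a * w3 * d.a ∈ d.W := by
    have := d.conj_W d.a hw3; rwa [d.inv_a] at this
  refine ⟨w3, w3 * (d.a * w3 * d.a), hw3, hw3U, ?_, ?_, ?_, hgen⟩
  · rcases hgen _ haw with h | h
    · exfalso
      refine hw3U (d.mem_U.2 ⟨hw3, ?_⟩)
      have e := (d.mem_U.1 h).2
      calc w3 * d.a = d.a * (d.a * w3 * d.a) := by
            rw [show d.a * (d.a * w3 * d.a) = (d.a * d.a) * w3 * d.a by group, d.ha, one_mul]
        _ = d.a * ((d.a * w3 * d.a) * d.a) * d.a := by
            rw [show d.a * ((d.a * w3 * d.a) * d.a) * d.a = d.a * (d.a * w3 * d.a) * (d.a * d.a) by group,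
              d.ha, mul_one]
        _ = d.a * (d.a * (d.a * w3 * d.a)) * d.a := by rw [e]
        _ = (d.a * d.a) * d.a * w3 * (d.a * d.a) := by group
        _ = d.a * w3 := by rw [d.ha, one_mul, mul_one]
    · rwa [d.hWc _ hw3 _ haw]
  · intro h
    refine hw3U (d.mem_U.2 ⟨hw3, ?_⟩)
    have h2 := eq_inv_of_mul_eq_one_right h
    rw [d.inv_W hw3] at h2
    calc w3 * d.a = d.a * w3 * d.a * d.a := by rw [h2]
      _ = d.a * w3 := by rw [mul_assoc (d.a * w3), d.ha, mul_one]
  · rw [← mul_assoc, d.hW2 w3 hw3, one_mul]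

/-- Elements acting alike on `U` and `w3` differ by an element of `L`. -/
theorem ext_act {w3 : S} (hgen : ∀ w ∈ d.W, w ∈ d.U ∨ w * w3 ∈ d.U) (h3 : w3 ∈ d.W) {x y : S}
    (hU : ∀ u ∈ d.U, x * u * x⁻¹ = y * u * y⁻¹) (hw : x * w3 * x⁻¹ = y * w3 * y⁻¹) :
    x⁻¹ * y ∈ d.L := by
  refine d.mem_L.2 fun w hwW => ?_
  have key : x * w * x⁻¹ = y * w * y⁻¹ := by
    rcases hgen w hwW with h | h
    · exact hU w h
    · have e : w = w * w3 * w3 := by rw [mul_assoc, d.hW2 w3 h3, mul_one]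
      rw [e, show x * (w * w3 * w3) * x⁻¹ = x * (w * w3) * x⁻¹ * (x * w3 * x⁻¹) by group,
        show y * (w * w3 * w3) * y⁻¹ = y * (w * w3) * y⁻¹ * (y * w3 * y⁻¹) by group, hU _ h, hw]
  calc w * (x⁻¹ * y) = x⁻¹ * (x * w * x⁻¹) * y := by group
    _ = x⁻¹ * (y * w * y⁻¹) * y := by rw [key]
    _ = x⁻¹ * y * w := by group

/-- The element `c` of `L` above a central involution of `S/W`, when `L ≠ W`. -/
theorem exists_c {w3 uu : S} (h3 : w3 ∈ d.W) (h3e : d.a * w3 * d.a = w3 * uu) (hne : ¬ d.L ≤ d.W) :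
    ∃ c : S, c ∈ d.L ∧ c ∉ d.W ∧ (∀ g : S, d.qW g * d.qW c = d.qW c * d.qW g) ∧
      c * c ∈ d.U ∧ c * c ≠ 1 ∧ (∀ g : S, g * (c * c) * g⁻¹ = c * c) ∧
      c * d.a * c⁻¹ * d.a ∈ d.U ∧ c * d.a * c⁻¹ * d.a ≠ 1 ∧ c * d.a * c⁻¹ * d.a ≠ uu := by
  haveI : Fact (Nat.Prime 2) := ⟨Nat.prime_two⟩
  have hne' : d.W ≠ d.L := fun h => hne (le_of_eq h.symm)
  obtain ⟨K, hKn, hWK, hKL, hKcard, hcomm⟩ :=
    Cfsg.Agent.H24.exists_normal_between (p := 2) d.hP d.W_le_L hne'
  obtain ⟨c, hcK, hcW⟩ : ∃ x ∈ K, x ∉ d.W := by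
    by_contra hh
    push Not at hh
    rw [le_antisymm hh hWK] at hKcard
    have : 0 < Nat.card d.W := Nat.card_pos
    omega
  have hcL := hKL hcK
  have hi : (d.W.subgroupOf K).index = 2 := by
    have h := index_mul_card (d.W.subgroupOf K)
    rw [Nat.card_congr (subgroupOfEquivOfLe hWK).toEquiv, hKcard] at h
    exact Nat.eq_of_mul_eq_mul_right Nat.card_pos h
  have hc2W : c * c ∈ d.W := by
    have := mul_self_mem_of_index_two hi ⟨c, hcK⟩
    simpa [mem_subgroupOf] using this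
  have hcw : ∀ w ∈ d.W, (c * w) * (c * w) = c * c := by
    intro w hw
    rw [mul_assoc, ← mul_assoc w c w, d.mem_L.1 hcL w hw, mul_assoc c w w, d.hW2 w hw, mul_one]
  have hcent : ∀ g : S, ∃ w ∈ d.W, g * c * g⁻¹ = c * w := by
    intro g
    have h := hcomm (commutator_mem_commutator (mem_top g) hcK)
    rw [commutatorElement_def] at h
    refine ⟨c⁻¹ * (g * c * g⁻¹), ?_, by group⟩
    have := d.hWn.conj_mem _ h c⁻¹
    rwa [inv_inv, show c⁻¹ * (g * c * g⁻¹ * c⁻¹) * c = c⁻¹ * (g * c * g⁻¹) by group] at this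
  have hqc : ∀ g : S, d.qW g * d.qW c = d.qW c * d.qW g := by
    intro g
    obtain ⟨w, hw, e⟩ := hcent g
    rw [← map_mul, ← map_mul, show g * c = g * c * g⁻¹ * g by group, e]
    simp only [map_mul, d.qW_one.2 hw, mul_one]
  have hfix : ∀ g : S, g * (c * c) * g⁻¹ = c * c := by
    intro g
    obtain ⟨w, hw, e⟩ := hcent g
    rw [show g * (c * c) * g⁻¹ = g * c * g⁻¹ * (g * c * g⁻¹) by group, e, hcw w hw]
  have hU : c * c ∈ d.U := d.mem_U.2 ⟨hc2W, (mul_inv_eq_iff_eq_mul.1 (hfix d.a)).symm⟩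
  have hδ := d.delta_of_comm (hqc d.a).symm
  have hne1 : c * c ≠ 1 := by
    intro h1
    have hcomK : ∀ x ∈ K, x ∈ d.W ∨ c⁻¹ * x ∈ d.W := fun x hx => by
      by_cases hxW : x ∈ d.W
      · exact Or.inl hxW
      · refine Or.inr ?_
        have h := (mul_mem_iff_of_index_two hi (a := (⟨c, hcK⟩ : K)⁻¹) (b := ⟨x, hx⟩)).2
          (by rw [inv_mem_iff, mem_subgroupOf, mem_subgroupOf]; simp only [hcW, hxW])
        exact mem_subgroupOf.1 h
    have hsq : ∀ x ∈ K, x ^ 2 = 1 := by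
      intro x hx
      rw [pow_two]
      rcases hcomK x hx with h | h
      · exact d.hW2 x h
      · have e := hcw _ h
        rwa [mul_inv_cancel_left, h1] at e
    have hKc : IsMulCommutative K := ⟨⟨fun x y => Subtype.ext (by
      show (x : S) * y = y * x
      have e := hsq _ (mul_mem x.2 y.2)
      rw [pow_two] at e
      have ex : (x : S)⁻¹ = x := inv_eq_of_mul_eq_one_right (by rw [← pow_two]; exact hsq _ x.2)
      have ey : (y : S)⁻¹ = y := inv_eq_of_mul_eq_one_right (by rw [← pow_two]; exact hsq _ y.2)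
      calc (x : S) * y = ((x : S) * y)⁻¹ := (inv_eq_of_mul_eq_one_right e).symm
        _ = (y : S) * x := by rw [mul_inv_rev, ex, ey])⟩⟩
    exact hcW (d.hmax K hKn hKc hsq hWK ▸ hcK)
  have hbad : ∀ w ∈ d.W, c * d.a * c⁻¹ * d.a = w * (d.a * w * d.a) → False := by
    intro w hw h
    have hx : (w * c) * d.a = d.a * (w * c) := by
      have e1 : c * d.a * c⁻¹ = w * d.a * w := by
        calc c * d.a * c⁻¹ = c * d.a * c⁻¹ * (d.a * d.a) := by rw [d.ha, mul_one]
          _ = c * d.a * c⁻¹ * d.a * d.a := by group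
          _ = w * (d.a * w * d.a) * d.a := by rw [h]
          _ = w * d.a * w * (d.a * d.a) := by group
          _ = w * d.a * w := by rw [d.ha, mul_one]
      calc w * c * d.a = w * (c * d.a * c⁻¹) * c := by group
        _ = w * (w * d.a * w) * c := by rw [e1]
        _ = (w * w) * d.a * (w * c) := by group
        _ = d.a * (w * c) := by rw [d.hW2 w hw, one_mul]
    rcases d.fix_a (mul_mem (d.L_le_X (d.W_le_L hw)) (d.L_le_X hcL)) hx with h' | h'
    · exact hcW ((d.W.mul_mem_cancel_left hw).1 h'.1)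
    · refine d.a_not_L ?_
      have := d.L.mul_mem (d.L.inv_mem (d.L.mul_mem (d.W_le_L hw) hcL)) (d.W_le_L h'.1)
      rwa [inv_mul_cancel_left] at this
  exact ⟨c, hcL, hcW, hqc, hU, hne1, hfix, hδ,
    fun h => hbad 1 (one_mem _) (by rw [h, mul_one, d.ha, one_mul]),
    fun h => hbad w3 h3 (by rw [h, h3e, ← mul_assoc, d.hW2 w3 h3, one_mul])⟩

/-- When `|L/W| ≥ 4`, the square of `c` is not the displacement of `a`. -/
theorem sq_ne_disp {w3 uu c : S} (h3 : w3 ∈ d.W) (huu : uu ∈ d.U) (h3e : d.a * w3 * d.a = w3 * uu)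
    (hgen : ∀ w ∈ d.W, w ∈ d.U ∨ w * w3 ∈ d.U) (hcL : c ∈ d.L) (hcW : c ∉ d.W)
    (hqc : ∀ g : S, d.qW g * d.qW c = d.qW c * d.qW g) (hc2 : c * c ∈ d.U)
    (hδ : c * d.a * c⁻¹ * d.a ∈ d.U) (hδ1 : c * d.a * c⁻¹ * d.a ≠ 1)
    (hδu : c * d.a * c⁻¹ * d.a ≠ uu)
    (hbig : ∃ x ∈ d.L, x ∉ d.W ∧ c⁻¹ * x ∉ d.W) : c * c ≠ uu := by
  haveI : Fact (Nat.Prime 2) := ⟨Nat.prime_two⟩
  obtain ⟨K', hK'⟩ : ∃ K' : Subgroup S, ∀ x, x ∈ K' ↔ x ∈ d.W ∨ c⁻¹ * x ∈ d.W := by
    refine ⟨{ carrier := {x | x ∈ d.W ∨ c⁻¹ * x ∈ d.W}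
              one_mem' := Or.inl (one_mem _)
              mul_mem' := ?_
              inv_mem' := ?_ }, fun x => Iff.rfl⟩
    · rintro x y (hx | hx) (hy | hy)
      · exact Or.inl (mul_mem hx hy)
      · refine Or.inr ?_
        rw [show c⁻¹ * (x * y) = c⁻¹ * (x * c) * (c⁻¹ * y) by group, d.mem_L.1 hcL x hx,
          inv_mul_cancel_left]
        exact mul_mem hx hy
      · refine Or.inr ?_
        rw [← mul_assoc]; exact mul_mem hx hy
      · refine Or.inl ?_
        have e : x * y = c * (c⁻¹ * x * c) * (c⁻¹ * y) := by group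
        rw [e, d.mem_L.1 hcL _ hx, ← mul_assoc c c]
        exact mul_mem (mul_mem hc2.1 hx) hy
    · rintro x (hx | hx)
      · exact Or.inl (inv_mem hx)
      · refine Or.inr ?_
        have h2 := d.conj_W c⁻¹ (inv_mem hx)
        rw [inv_inv] at h2
        have h3 := mul_mem (d.W.inv_mem hc2.1) (inv_mem hx)
        have e : c⁻¹ * x⁻¹ = c⁻¹ * (c⁻¹ * x)⁻¹ * c * (c * c)⁻¹ := by group
        show c⁻¹ * x⁻¹ ∈ d.W
        rw [e]; exact mul_mem h2 (inv_mem hc2.1)
  haveI hK'n : K'.Normal := ⟨fun x hx g => by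
    rcases (hK' x).1 hx with h | h
    · exact (hK' _).2 (Or.inl (d.conj_W g h))
    · refine (hK' _).2 (Or.inr (d.qW_one.1 ?_))
      have hx' : d.qW x = d.qW c := (d.qW_eq.2 h).symm
      rw [map_mul, map_mul, map_mul, map_inv, map_inv, hx', hqc g, mul_inv_cancel_right, inv_mul_cancel]⟩
  have hWK : d.W ≤ K' := fun w hw => (hK' w).2 (Or.inl hw)
  have hK'L : K' ≤ d.L := fun x hx => by
    rcases (hK' x).1 hx with h | h
    · exact d.W_le_L h
    · have := mul_mem hcL (d.W_le_L h); rwa [mul_inv_cancel_left] at this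
  have hne : K' ≠ d.L := fun h => by
    obtain ⟨x, hx, h1, h2⟩ := hbig
    rw [← h] at hx
    rcases (hK' x).1 hx with e | e
    · exact h1 e
    · exact h2 e
  obtain ⟨K2, -, hK'2, hK2L, hK2card, hcomm⟩ :=
    Cfsg.Agent.H24.exists_normal_between (p := 2) d.hP hK'L hne
  obtain ⟨r, hrK, hr⟩ : ∃ x ∈ K2, x ∉ K' := by
    by_contra hh
    push Not at hh
    rw [le_antisymm hh hK'2] at hK2card
    have : 0 < Nat.card K' := Nat.card_pos
    omega
  have hrL := hK2L hrK
  have hr' : r⁻¹ * (d.a * r * d.a) ∈ K' := by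
    have h := hcomm (commutator_mem_commutator (mem_top d.a) hrK)
    rw [commutatorElement_def, d.inv_a] at h
    have := hK'n.conj_mem _ h r⁻¹
    rwa [inv_inv, show r⁻¹ * (d.a * r * d.a * r⁻¹) * r = r⁻¹ * (d.a * r * d.a) by group] at this
  intro hcu
  rcases (hK' _).1 hr' with h | h
  · -- `r` would be fixed by `a` modulo `W`
    have hM : r * d.a * r⁻¹ * d.a ∈ d.U := d.delta_of_comm (by
      have e := d.qW_eq.2 (show r⁻¹ * (d.a * r * d.a) ∈ d.W from h)
      rw [map_mul, map_mul] at e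
      calc d.qW r * d.qW d.a = d.qW d.a * d.qW r * d.qW d.a * d.qW d.a := by rw [← e]
        _ = d.qW d.a * d.qW r := by rw [mul_assoc (d.qW d.a * d.qW r), d.qW_a_sq, mul_one])
    -- four elements of the centraliser of `a` in the image of `X`
    have hX : ∀ x : S, x ∈ d.L → d.qW x ∈ d.Xb := fun x hx => ⟨x, d.L_le_X hx, rfl⟩
    have hcomr : d.qW r * d.qW d.a = d.qW d.a * d.qW r := by
      have e := d.qW_eq.2 (show r⁻¹ * (d.a * r * d.a) ∈ d.W from h)
      rw [map_mul, map_mul] at e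
      calc d.qW r * d.qW d.a = d.qW d.a * d.qW r * d.qW d.a * d.qW d.a := by rw [← e]
        _ = d.qW d.a * d.qW r := by rw [mul_assoc (d.qW d.a * d.qW r), d.qW_a_sq, mul_one]
    have hmk : ∀ x : S, (hx : x ∈ d.L) → d.qW x * d.qW d.a = d.qW d.a * d.qW x →
        (⟨d.qW x, hX x hx⟩ : d.Xb) ∈ centralizer ({d.ab} : Set d.Xb) := fun x hx e =>
      mem_centralizer_singleton_iff.2 (Subtype.ext e)
    let C5 := centralizer ({d.ab} : Set d.Xb)
    have n1 : d.qW c ≠ 1 := fun e => hcW (d.qW_one.1 e)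
    have n2 : d.qW r ≠ 1 := fun e => hr (hWK (d.qW_one.1 e))
    have n3 : d.qW r ≠ d.qW c := fun e => hr ((hK' r).2 (Or.inr (d.qW_eq.1 e.symm)))
    have n4 : ∀ x ∈ d.L, d.qW x ≠ d.qW d.a := fun x hx e => d.a_not_L (by
      have := mul_mem hx (d.W_le_L (d.qW_eq.1 e)); rwa [mul_inv_cancel_left] at this)
    have n5 : d.qW d.a * d.qW c ≠ 1 := fun e => n4 c hcL (by
      have h1 := eq_inv_of_mul_eq_one_right e
      rw [h1]
      exact inv_eq_of_mul_eq_one_right d.qW_a_sq)
    have n6 : d.qW d.a * d.qW c ≠ d.qW r := fun e => n4 (r * c⁻¹) (mul_mem hrL (inv_mem hcL)) (by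
      rw [map_mul, map_inv, ← e, mul_inv_cancel_right])
    have h5 := five_le ((centralizer ({d.ab} : Set d.Xb)).map d.Xb.subtype)
      (x := d.qW d.a) (y := d.qW c) (z := d.qW r)
      ⟨d.ab, mem_centralizer_singleton_iff.2 rfl, rfl⟩ ⟨_, hmk c hcL (hqc d.a).symm, rfl⟩
      ⟨_, hmk r hrL hcomr, rfl⟩ d.qW_a_ne n1 n2 (n4 c hcL).symm (n4 r hrL).symm n3.symm n5 n6
    rw [card_map_of_injective d.Xb.subtype_injective] at h5
    have h4 := d.card_cent_Xb
    omega
  · -- `a r a = r c w`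
    set w := c⁻¹ * (r⁻¹ * (d.a * r * d.a)) with hw
    have e1 : d.a * r * d.a = r * c * w := by rw [hw]; group
    have e2 : r = r * (c * w * (d.a * c * d.a * (d.a * w * d.a))) := by
      calc r = (d.a * d.a) * r * (d.a * d.a) := by rw [d.ha, one_mul, mul_one]
        _ = d.a * (d.a * r * d.a) * d.a := by group
        _ = d.a * (r * c * w) * d.a := by rw [e1]
        _ = d.a * r * (d.a * d.a) * c * (d.a * d.a) * w * d.a := by rw [d.ha, mul_one, mul_one]; group
        _ = (d.a * r * d.a) * (d.a * c * d.a * (d.a * w * d.a)) := by group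
        _ = r * c * w * (d.a * c * d.a * (d.a * w * d.a)) := by rw [e1]
        _ = _ := by group
    have hδinv : d.a * c * d.a = (c * d.a * c⁻¹ * d.a) * c := by
      have hh := inv_eq_of_mul_eq_one_right (d.hW2 _ hδ.1)
      calc d.a * c * d.a = d.a * c * d.a * c⁻¹ * c := by group
        _ = (c * d.a * c⁻¹ * d.a)⁻¹ * c := by rw [mul_inv_rev, mul_inv_rev, mul_inv_rev, inv_inv, d.inv_a]; group
        _ = _ := by rw [hh]
    set δ := c * d.a * c⁻¹ * d.a with hδdef
    have h1 := mul_eq_left.1 e2.symm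
    rw [hδinv] at h1
    have hawa : d.a * w * d.a ∈ d.W := by have := d.conj_W d.a h; rwa [d.inv_a] at this
    have h2 : c * c * δ * (w * (d.a * w * d.a)) = 1 := by
      calc c * c * δ * (w * (d.a * w * d.a)) = c * (c * (δ * w)) * (d.a * w * d.a) := by group
        _ = c * ((δ * w) * c) * (d.a * w * d.a) := by rw [← d.mem_L.1 hcL _ (mul_mem hδ.1 h)]
        _ = c * (δ * (w * c)) * (d.a * w * d.a) := by group
        _ = c * (w * (δ * c)) * (d.a * w * d.a) := by
              rw [← mul_assoc δ w c, d.hWc δ hδ.1 w h, mul_assoc w δ c]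
        _ = 1 := by rw [← h1]; group
    clear_value w
    have hwd : w * (d.a * w * d.a) = 1 ∨ w * (d.a * w * d.a) = uu := by
      rcases hgen w h with h' | h'
      · left
        rw [← (d.mem_U.1 h').2, mul_assoc w d.a d.a, d.ha, mul_one, d.hW2 w h]
      · right
        have e := (d.mem_U.1 h').2
        have e3 : d.a * w * d.a = (w * w3) * (w3 * uu) := by
          calc d.a * w * d.a = d.a * (w * w3) * (w3 * d.a) := by
                rw [show d.a * (w * w3) * (w3 * d.a) = d.a * w * (w3 * w3) * d.a by group,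
                  d.hW2 w3 h3, mul_one]
            _ = (w * w3) * (d.a * w3 * d.a) := by rw [← e]; group
            _ = _ := by rw [h3e]
        rw [e3, show w * (w * w3 * (w3 * uu)) = (w * w) * (w3 * w3) * uu by group, d.hW2 w h, d.hW2 w3 h3,
          one_mul, one_mul]
    rw [hcu] at h2
    rcases hwd with e | e <;> rw [e] at h2
    · rw [mul_one] at h2
      exact hδu ((inv_eq_of_mul_eq_one_right h2).symm.trans (d.inv_W huu.1))
    · rw [d.hWc _ huu.1 _ hδ.1, mul_assoc, d.hW2 uu huu.1, mul_one] at h2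
      exact hδ1 h2

/-- If `c²` is not the displacement and `U` is moved, then `L/W` is generated by the square of any
element acting as `a (g a g⁻¹)`. -/
theorem L_generated {w3 uu ω g : S} (h3 : w3 ∈ d.W) (h3U : w3 ∉ d.U) (huu : uu ∈ d.U) (huu1 : uu ≠ 1)
    (h3e : d.a * w3 * d.a = w3 * uu) (hgen : ∀ w ∈ d.W, w ∈ d.U ∨ w * w3 ∈ d.U) (hω : ω ∈ d.U)
    (hω1 : ω ≠ 1) (hωfix : ∀ g : S, g * ω * g⁻¹ = ω) (hωu : ω ≠ uu) (hg : g ∉ d.X)
    (hLW : ¬ d.L ≤ d.W) :
    (∀ x : S, ∀ v ∈ d.U, x * v * x⁻¹ ∈ d.U) ∧ g * uu * g⁻¹ = uu * ω ∧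
      ∀ x : S, (∀ v ∈ d.U, x * v * x⁻¹ = v) → x * w3 * x⁻¹ = w3 * ω →
        d.L.map d.qW = zpowers (d.qW (x ^ 2)) := by
  classical
  have hU4 : Nat.card d.U = 4 := d.hU
  have hall : ∀ v ∈ d.U, v = 1 ∨ v = ω ∨ v = uu ∨ v = ω * uu := by
    intro v hv
    by_contra hh
    simp only [not_or] at hh
    obtain ⟨h1, h2, h4, h5⟩ := hh
    have n1 : ω * uu ≠ 1 := fun h => hωu (mul_right_cancel (h.trans (d.hW2 uu huu.1).symm))
    have n2 : ω * uu ≠ ω := fun h => huu1 (mul_eq_left.1 h)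
    have n3 : ω * uu ≠ uu := fun h => hω1 (mul_eq_right.1 h)
    let l : Fin 5 → d.U := ![1, ⟨ω, hω⟩, ⟨uu, huu⟩, ⟨ω * uu, mul_mem hω huu⟩, ⟨v, hv⟩]
    have hl : Function.Injective l := by
      intro i j h
      fin_cases i <;> fin_cases j <;>
        simp [l, Subtype.ext_iff, hω1, huu1, hωu, h1, h2, h4, h5, n1, n2, n3, Ne.symm hω1, Ne.symm huu1,
          Ne.symm hωu, Ne.symm h1, Ne.symm h2, Ne.symm h4, Ne.symm h5, Ne.symm n1, Ne.symm n2,
          Ne.symm n3] at h ⊢
    have := Nat.card_le_card_of_injective l hl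
    rw [Nat.card_fin] at this
    omega
  have haU : ∀ v ∈ d.U, d.a * v * d.a⁻¹ = v := fun v hv => d.X_fix d.a_mem_X hv
  have hnormU : ∀ x : S, ∀ v ∈ d.U, x * v * x⁻¹ ∈ d.U := by
    intro x
    have hv : x * uu * x⁻¹ ∈ d.U := by
      by_contra hvU
      set v := x * uu * x⁻¹ with hv
      have hvW : v ∈ d.W := d.conj_W x huu.1
      set b := x * d.a * x⁻¹ with hb
      have hbfix : ∀ e ∈ d.U, b * (x * e * x⁻¹) * b⁻¹ = x * e * x⁻¹ := fun e he => by
        rw [hb, show x * d.a * x⁻¹ * (x * e * x⁻¹) * (x * d.a * x⁻¹)⁻¹ = x * (d.a * e * d.a⁻¹) * x⁻¹ by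
          group, haU e he]
      have hbv : b * v * b⁻¹ = v := hbfix uu huu
      -- `uu` is outside the conjugate of `U`
      have hout : (x⁻¹ * uu * x) * w3 ∈ d.U := by
        have hW' : x⁻¹ * uu * x ∈ d.W := by have := d.conj_W x⁻¹ huu.1; rwa [inv_inv] at this
        refine (hgen _ hW').resolve_left fun h => ?_
        rcases hall _ h with e | e | e | e
        · refine huu1 ?_
          calc uu = x * (x⁻¹ * uu * x) * x⁻¹ := by group
            _ = 1 := by rw [e]; group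
        · refine hωu ?_
          calc ω = x * ω * x⁻¹ := (hωfix x).symm
            _ = x * (x⁻¹ * uu * x) * x⁻¹ := by rw [e]
            _ = uu := by group
        · refine hvU ?_
          have : v = uu := by
            calc v = x * uu * x⁻¹ := rfl
              _ = x * (x⁻¹ * uu * x) * x⁻¹ := by rw [e]
              _ = uu := by group
          rw [this]; exact huu
        · refine hvU ?_
          have : v = ω * uu := by
            have h2 : x * (ω * uu) * x⁻¹ = uu := by rw [← e]; group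
            rw [show x * (ω * uu) * x⁻¹ = x * ω * x⁻¹ * v by rw [hv]; group, hωfix] at h2
            calc v = (ω * ω) * v := by rw [d.hW2 ω hω.1, one_mul]
              _ = ω * (ω * v) := by group
              _ = ω * uu := by rw [h2]
          rw [this]; exact mul_mem hω huu
      have e1 : d.a * (x⁻¹ * uu * x) * d.a = x⁻¹ * uu * x * uu := by
        set y := x⁻¹ * uu * x with hy
        have hy2 := d.W.mul_mem ((d.mem_U.1 hout).1) h3
        calc d.a * y * d.a = d.a * (y * w3) * (w3 * d.a) := by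
              rw [show d.a * (y * w3) * (w3 * d.a) = d.a * y * (w3 * w3) * d.a by group, d.hW2 w3 h3,
                mul_one]
          _ = (y * w3) * (d.a * w3 * d.a) := by rw [← (d.mem_U.1 hout).2]; group
          _ = (y * w3) * (w3 * uu) := by rw [h3e]
          _ = y * (w3 * w3) * uu := by group
          _ = y * uu := by rw [d.hW2 w3 h3, mul_one]
      have hbu : b * uu * b⁻¹ = uu * v := by
        rw [hb, mul_inv_rev, mul_inv_rev, inv_inv, d.inv_a,
          show x * d.a * x⁻¹ * uu * (x * (d.a * x⁻¹)) = x * (d.a * (x⁻¹ * uu * x) * d.a) * x⁻¹ by group,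
          e1, hv]
        group
      have hav : d.a * v * d.a⁻¹ = v * uu := by
        rw [d.inv_a]
        have hh := (hgen v hvW).resolve_left hvU
        calc d.a * v * d.a = d.a * (v * w3) * (w3 * d.a) := by
              rw [show d.a * (v * w3) * (w3 * d.a) = d.a * v * (w3 * w3) * d.a by group, d.hW2 w3 h3,
                mul_one]
          _ = (v * w3) * (d.a * w3 * d.a) := by rw [← (d.mem_U.1 hh).2]; group
          _ = (v * w3) * (w3 * uu) := by rw [h3e]
          _ = v * (w3 * w3) * uu := by group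
          _ = v * uu := by rw [d.hW2 w3 h3, mul_one]
      -- a three-cycle
      set t := d.a * b with ht
      have t1 : t * uu * t⁻¹ = v := by
        rw [ht, show d.a * b * uu * (d.a * b)⁻¹ = d.a * (b * uu * b⁻¹) * d.a⁻¹ by group, hbu,
          show d.a * (uu * v) * d.a⁻¹ = d.a * uu * d.a⁻¹ * (d.a * v * d.a⁻¹) by group, haU uu huu, hav,
          ← mul_assoc, d.hWc uu huu.1 v hvW, mul_assoc, d.hW2 uu huu.1, mul_one]
      have t2 : t * v * t⁻¹ = v * uu := by
        rw [ht, show d.a * b * v * (d.a * b)⁻¹ = d.a * (b * v * b⁻¹) * d.a⁻¹ by group, hbv, hav]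
      have t3 : t * (v * uu) * t⁻¹ = uu := by
        rw [show t * (v * uu) * t⁻¹ = t * v * t⁻¹ * (t * uu * t⁻¹) by group, t1, t2,
          d.hWc _ (mul_mem hvW huu.1) v hvW, ← mul_assoc, d.hW2 v hvW, one_mul]
      let cyc : ℕ → S := fun n => if n % 3 = 0 then uu else if n % 3 = 1 then v else v * uu
      have hstep : ∀ n, t ^ n * uu * (t ^ n)⁻¹ = cyc n := by
        intro n
        induction n with
        | zero => simp [cyc]
        | succ n ih =>
          rw [pow_succ', show t * t ^ n * uu * (t * t ^ n)⁻¹ = t * (t ^ n * uu * (t ^ n)⁻¹) * t⁻¹ by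
            group, ih]
          have hc : n % 3 = 0 ∨ n % 3 = 1 ∨ n % 3 = 2 := by omega
          rcases hc with h | h | h
          · have h' : (n + 1) % 3 = 1 := by omega
            simp [cyc, h, h', t1]
          · have h' : (n + 1) % 3 = 2 := by omega
            simp [cyc, h, h', t2]
          · have h' : (n + 1) % 3 = 0 := by omega
            simp [cyc, h, h', t3]
      obtain ⟨k, hk⟩ := d.hP t
      have hh := hstep (2 ^ k)
      rw [hk, one_mul, inv_one, mul_one] at hh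
      have h30 : 2 ^ k % 3 ≠ 0 := fun h =>
        absurd ((Nat.Prime.dvd_of_dvd_pow Nat.prime_three (Nat.dvd_of_mod_eq_zero h))) (by norm_num)
      by_cases h31 : 2 ^ k % 3 = 1
      · simp only [cyc, h31] at hh
        exact hvU (by rw [show v = uu by simpa using hh.symm]; exact huu)
      · simp only [cyc, h30, h31, if_false] at hh
        have : v = 1 := mul_eq_right.1 hh.symm
        exact hvU (this ▸ one_mem _)
    intro e he
    rcases hall e he with rfl | rfl | rfl | rfl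
    · simp
    · rw [hωfix]; exact hω
    · exact hv
    · rw [show x * (ω * uu) * x⁻¹ = x * ω * x⁻¹ * (x * uu * x⁻¹) by group, hωfix]
      exact mul_mem hω hv
  have hgu : g * uu * g⁻¹ = uu * ω := by
    rcases hall _ (hnormU g uu huu) with h | h | h | h
    · rw [mul_inv_eq_one, mul_eq_left] at h; exact absurd h huu1
    · rw [← hωfix g] at h
      exact absurd (mul_left_cancel (mul_right_cancel h)).symm hωu
    · exfalso
      refine hg (d.mem_X.2 fun e he => (mul_inv_eq_iff_eq_mul.1 ?_).symm)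
      rcases hall e he with rfl | rfl | rfl | rfl
      · simp
      · exact hωfix g
      · exact h
      · rw [show g * (ω * uu) * g⁻¹ = g * ω * g⁻¹ * (g * uu * g⁻¹) by group, hωfix, h]
    · rw [h, d.hWc _ hω.1 _ huu.1]
  refine ⟨hnormU, hgu, fun x hxU hxw => ?_⟩
  -- the conjugate involution
  set b := g * d.a * g⁻¹ with hb
  have hbU : ∀ v ∈ d.U, b * v * b⁻¹ = v := by
    intro v hv
    have hv' : g⁻¹ * v * g ∈ d.U := by
      have := hnormU g⁻¹ v hv
      rwa [inv_inv] at this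
    calc b * v * b⁻¹ = g * (d.a * (g⁻¹ * v * g) * d.a⁻¹) * g⁻¹ := by rw [hb]; group
      _ = g * (g⁻¹ * v * g) * g⁻¹ := by rw [haU _ hv']
      _ = v := by group
  have hbX : b ∈ d.X := d.mem_X.2 fun v hv => (mul_inv_eq_iff_eq_mul.1 (hbU v hv)).symm
  have hb2 : b * b = 1 := by
    rw [hb, show g * d.a * g⁻¹ * (g * d.a * g⁻¹) = g * (d.a * d.a) * g⁻¹ by group, d.ha, mul_one,
      mul_inv_cancel]
  have hbw : b * w3 * b⁻¹ = w3 * (uu * ω) := by
    set y := g⁻¹ * w3 * g with hy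
    have hyW : y ∈ d.W := by have := d.conj_W g⁻¹ h3; rwa [inv_inv] at this
    have hy3 : y * w3 ∈ d.U := (hgen y hyW).resolve_left fun h => h3U (by
      have := hnormU g y h
      rwa [hy, show g * (g⁻¹ * w3 * g) * g⁻¹ = w3 by group] at this)
    have e1 : d.a * y * d.a⁻¹ = y * uu := by
      rw [d.inv_a]
      calc d.a * y * d.a = d.a * (y * w3) * (w3 * d.a) := by
            rw [show d.a * (y * w3) * (w3 * d.a) = d.a * y * (w3 * w3) * d.a by group, d.hW2 w3 h3,
              mul_one]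
        _ = (y * w3) * (d.a * w3 * d.a) := by rw [← (d.mem_U.1 hy3).2]; group
        _ = (y * w3) * (w3 * uu) := by rw [h3e]
        _ = y * (w3 * w3) * uu := by group
        _ = y * uu := by rw [d.hW2 w3 h3, mul_one]
    calc b * w3 * b⁻¹ = g * (d.a * y * d.a⁻¹) * g⁻¹ := by rw [hb, hy]; group
      _ = g * (y * uu) * g⁻¹ := by rw [e1]
      _ = g * y * g⁻¹ * (g * uu * g⁻¹) := by group
      _ = w3 * (uu * ω) := by rw [hgu, hy]; group
  have haw : d.a * w3 * d.a⁻¹ = w3 * uu := by rw [d.inv_a]; exact h3e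
  have habw : d.a * b * w3 * (d.a * b)⁻¹ = w3 * ω := by
    calc d.a * b * w3 * (d.a * b)⁻¹ = d.a * (b * w3 * b⁻¹) * d.a⁻¹ := by group
      _ = d.a * w3 * d.a⁻¹ * (d.a * (uu * ω) * d.a⁻¹) := by rw [hbw]; group
      _ = w3 * uu * (uu * ω) := by rw [haw, haU _ (mul_mem huu hω)]
      _ = w3 * ω := by rw [mul_assoc, ← mul_assoc uu uu, d.hW2 uu huu.1, one_mul]
  have habU : ∀ v ∈ d.U, d.a * b * v * (d.a * b)⁻¹ = v := fun v hv => by
    rw [show d.a * b * v * (d.a * b)⁻¹ = d.a * (b * v * b⁻¹) * d.a⁻¹ by group, hbU v hv, haU v hv]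
  have hxab : (d.a * b)⁻¹ * x ∈ d.L :=
    d.ext_act hgen h3 (fun v hv => by rw [habU v hv, hxU v hv]) (by rw [habw, hxw])
  -- not in `L`
  have hbL : b ∉ d.L := fun h => by
    have := d.L_fix h h3
    rw [hbw, mul_eq_left] at this
    exact hωu ((inv_eq_of_mul_eq_one_right this).symm.trans (d.inv_W huu.1))
  have habL : d.a * b ∉ d.L := fun h => by
    have := d.L_fix h h3
    rw [habw, mul_eq_left] at this
    exact hω1 this
  -- the subgroup `L/W` of the image of `X`
  set N : Subgroup d.Xb := (d.L.map d.qW).subgroupOf d.Xb with hN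
  haveI : N.Normal := ⟨fun q hq y => by
    obtain ⟨l, hl, el⟩ := mem_subgroupOf.1 hq
    obtain ⟨z, -, ez⟩ := y.2
    refine mem_subgroupOf.2 ⟨z * l * z⁻¹, d.L_normal.conj_mem l hl z, ?_⟩
    rw [map_mul, map_mul, map_inv, el, ez]; rfl⟩
  have hmemN : ∀ y : S, (hy : y ∈ d.X) → ((⟨d.qW y, y, hy, rfl⟩ : d.Xb) ∈ N ↔ y ∈ d.L) := by
    intro y hy
    refine ⟨fun h => ?_, fun h => mem_subgroupOf.2 ⟨y, h, rfl⟩⟩
    obtain ⟨l, hl, el⟩ := mem_subgroupOf.1 h
    have := mul_mem hl (d.W_le_L (d.qW_eq.1 el))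
    rwa [mul_inv_cancel_left] at this
  have hN4 : N.index = 4 := by
    -- `x ↦ ` displacement of `w3`
    have hdisp : ∀ y : d.X, w3 * ((y : S) * w3 * (y : S)⁻¹) ∈ d.U := fun y => by
      rcases hgen _ (d.conj_W y h3) with h | h
      · exfalso
        refine h3U ?_
        have := hnormU (y : S)⁻¹ _ h
        rwa [show (y : S)⁻¹ * ((y : S) * w3 * (y : S)⁻¹) * (y : S)⁻¹⁻¹ = w3 by group] at this
      · rwa [d.hWc _ h3 _ (d.conj_W y h3)]
    let τ : d.X →* d.U :=
      { toFun := fun y => ⟨_, hdisp y⟩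
        map_one' := by ext; simp [d.hW2 w3 h3]
        map_mul' := fun y z => by
          refine Subtype.ext ?_
          show w3 * ((y : S) * z * w3 * ((y : S) * z)⁻¹) = _
          have e : (z : S) * w3 * (z : S)⁻¹ = w3 * (w3 * ((z : S) * w3 * (z : S)⁻¹)) := by
            rw [← mul_assoc, d.hW2 w3 h3, one_mul]
          calc w3 * ((y : S) * z * w3 * ((y : S) * z)⁻¹)
              = w3 * ((y : S) * ((z : S) * w3 * (z : S)⁻¹) * (y : S)⁻¹) := by group
            _ = w3 * ((y : S) * w3 * (y : S)⁻¹) *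
                ((y : S) * (w3 * ((z : S) * w3 * (z : S)⁻¹)) * (y : S)⁻¹) := by
                  rw [e]
                  conv_rhs => rw [show w3 * (w3 * (w3 * ((z : S) * w3 * (z : S)⁻¹)))
                    = w3 * ((z : S) * w3 * (z : S)⁻¹) by rw [← mul_assoc w3 w3, d.hW2 w3 h3, one_mul]]
                  group
            _ = w3 * ((y : S) * w3 * (y : S)⁻¹) * (w3 * ((z : S) * w3 * (z : S)⁻¹)) := by
                  rw [d.X_fix y.2 (hdisp z)] }
    have hker : τ.ker = d.L.subgroupOf d.X := by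
      ext y
      rw [MonoidHom.mem_ker, mem_subgroupOf, Subtype.ext_iff]
      show w3 * ((y : S) * w3 * (y : S)⁻¹) = 1 ↔ _
      constructor
      · intro h
        refine inv_mul_cancel_left (1 : S) (y : S) ▸ ?_
        have h2 : (y : S) * w3 * (y : S)⁻¹ = w3 := by
          rw [eq_inv_of_mul_eq_one_right h, d.inv_W h3]
        simpa using d.ext_act hgen h3 (x := 1) (y := (y : S))
          (fun v hv => by simp [d.X_fix y.2 hv]) (by simpa using h2.symm)
      · intro h
        rw [d.L_fix h h3, d.hW2 w3 h3]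
    have htop : τ.range = ⊤ := by
      refine eq_top_iff.2 fun v _ => ?_
      have hv' : ∀ (y : S) (hy : y ∈ d.X) (q : S), y * w3 * y⁻¹ = w3 * q → (v : S) = q → v ∈ τ.range :=
        fun y hy q e eq' => ⟨⟨y, hy⟩, Subtype.ext (show w3 * (y * w3 * y⁻¹) = (v : S) by
          rw [e, ← mul_assoc, d.hW2 w3 h3, one_mul, eq'])⟩
      rcases hall v v.2 with h | h | h | h
      · exact hv' 1 (one_mem _) 1 (by simp) h
      · exact hv' _ (mul_mem d.a_mem_X hbX) ω habw h
      · exact hv' _ d.a_mem_X uu haw h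
      · exact hv' _ hbX _ hbw (by rw [h, d.hWc _ hω.1 _ huu.1])
    -- transport
    let ρ : d.X →* d.Xb := d.qW.subgroupMap d.X
    have hρ : Function.Surjective ρ := d.qW.subgroupMap_surjective d.X
    have hcomap : N.comap ρ = τ.ker := by
      rw [hker]; ext y
      rw [mem_comap, mem_subgroupOf (K := d.X)]
      exact hmemN y y.2
    rw [← Subgroup.index_comap_of_surjective N hρ, hcomap, Subgroup.index_ker, htop, card_top, hU4]
  have hNbot : N ≠ ⊥ := by
    intro h
    obtain ⟨l, hl, hlW⟩ := SetLike.not_le_iff_exists.1 hLW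
    have : (⟨d.qW l, l, d.L_le_X hl, rfl⟩ : d.Xb) ∈ N := (hmemN l (d.L_le_X hl)).2 hl
    rw [h, mem_bot] at this
    exact hlW (d.qW_one.1 (congrArg Subtype.val this))
  have hxX : x ∈ d.X := d.mem_X.2 fun v hv => (mul_inv_eq_iff_eq_mul.1 (hxU v hv)).symm
  have h := product_generates d.Xb_pgroup (t := d.ab) (s := ⟨d.qW b, b, hbX, rfl⟩) d.ab_sq
    (Subtype.ext (by show d.qW b * d.qW b = 1; rw [← map_mul, hb2, map_one])) d.card_cent_Xb N hN4 hNbot
    (fun h => d.a_not_L ((hmemN d.a d.a_mem_X).1 h)) (fun h => hbL ((hmemN b hbX).1 h))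
    (fun h => habL ((hmemN _ (mul_mem d.a_mem_X hbX)).1 (by
      convert h using 1
      exact Subtype.ext (map_mul d.qW d.a b))))
    (x := ⟨d.qW x, x, hxX, rfl⟩) (by
      have e := (hmemN _ (mul_mem (inv_mem (mul_mem d.a_mem_X hbX)) hxX)).2 hxab
      convert e using 1
      refine Subtype.ext ?_
      simp [-QuotientGroup.mk'_apply])
  have h' := congrArg (Subgroup.map d.Xb.subtype) h
  rw [hN, map_subgroupOf_eq_of_le (map_mono d.L_le_X), MonoidHom.map_zpowers] at h'
  rw [h', map_pow, map_pow]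
  rfl

/-- The bound when `|W| = 8`. -/
theorem bound8 (h8 : Nat.card d.W = 8) (H : Subgroup S) :
    Nat.card H ≤ 2 ^ 4 * Nat.card (sqSub H) := by
  classical
  haveI : Fact (Nat.Prime 2) := ⟨Nat.prime_two⟩
  obtain ⟨w3, uu, h3, h3U, huu, huu1, h3e, hgen⟩ := d.exists_disp h8
  have hkerW : d.qW.ker = d.W := QuotientGroup.ker_mk' d.W
  have hkerL : d.qL.ker = d.L := QuotientGroup.ker_mk' d.L
  have hflag : Nat.card (H.map d.qL) ≤ 4 * Nat.card ((sqSub H).map d.qL) :=
    flag_bound d.hP d.W d.hWc d.hW2 h8 d.qL hkerL H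
  have hD : Nat.card (H ⊓ d.W : Subgroup S) ≤ 8 := h8 ▸ card_le_of_le inf_le_right
  have hposW : 1 ≤ Nat.card (sqSub H ⊓ d.W : Subgroup S) := Nat.card_pos
  -- `4` suffices below `W` unless `W ≤ H` and nothing moves
  have hD4 : ∀ x ∈ H, x ∉ d.L →
      Nat.card (H ⊓ d.W : Subgroup S) ≤ 4 * Nat.card (sqSub H ⊓ d.W : Subgroup S) := by
    intro x hx hxL
    by_cases hW : d.W ≤ H
    · have := d.two_le_of_moved hW hx hxL
      omega
    · have hlt : Nat.card (H ⊓ d.W : Subgroup S) < 8 := by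
        by_contra hh
        exact hW (inf_eq_right.1 (eq_of_le_of_card_ge inf_le_right (by omega)))
      obtain ⟨n, hn⟩ := card_pow_two d.hP (H ⊓ d.W)
      rw [hn] at hlt ⊢
      rcases n with _ | _ | _ | n
      · omega
      · omega
      · omega
      · exfalso
        rw [pow_succ, pow_succ, pow_succ] at hlt
        have := Nat.one_le_two_pow (n := n)
        omega
  by_cases hHL : H ≤ d.L
  · by_cases hbig : 2 * Nat.card ((sqSub H).map d.qW) < Nat.card (H.map d.qW)
    · refine bound_of d.qW hkerW H 4 4 le_rfl ?_ (d.X_sq_bound (hHL.trans d.L_le_X))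
      have hLW : ¬ d.L ≤ d.W := by
        intro h
        have : H.map d.qW = ⊥ := by
          rw [eq_bot_iff]
          rintro _ ⟨x, hx, rfl⟩
          exact mem_bot.2 (d.qW_one.2 (h (hHL hx)))
        rw [this, card_bot] at hbig
        have : 1 ≤ Nat.card ((sqSub H).map d.qW) := Nat.card_pos
        omega
      obtain ⟨c, hcL, hcW, hqc, hc2, hc1, -, -, -, -⟩ := d.exists_c h3 h3e hLW
      obtain ⟨g, hg, hgc⟩ := d.X_central_mem (hHL.trans d.L_le_X) hbig (d.L_le_X hcL)
        (fun y _ => hqc y) hc2.1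
      by_cases hW : d.W ≤ H
      · have hcH : c ∈ H := by
          have := H.mul_mem hg (H.inv_mem (hW hgc))
          rwa [mul_inv_rev, inv_inv, mul_inv_cancel_left] at this
        have := two_le_card (K := sqSub H ⊓ d.W) (x := c * c)
          ⟨by rw [← pow_two]; exact sq_mem_sqSub hcH, hc2.1⟩ hc1
        omega
      · have hlt : Nat.card (H ⊓ d.W : Subgroup S) < 8 := by
          by_contra hh
          exact hW (inf_eq_right.1 (eq_of_le_of_card_ge inf_le_right (by omega)))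
        obtain ⟨n, hn⟩ := card_pow_two d.hP (H ⊓ d.W)
        rw [hn] at hlt ⊢
        rcases n with _ | _ | _ | n
        · omega
        · omega
        · omega
        · exfalso
          rw [pow_succ, pow_succ, pow_succ] at hlt
          have := Nat.one_le_two_pow (n := n)
          omega
    · exact bound_of d.qW hkerW H 8 2 le_rfl (by omega) (le_of_not_gt hbig)
  obtain ⟨h0, hh0, hh0L⟩ := SetLike.not_le_iff_exists.1 hHL
  by_cases hHX : H ≤ d.X
  · exact bound_of d.qW hkerW H 4 4 le_rfl (hD4 h0 hh0 hh0L) (d.X_sq_bound hHX)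
  obtain ⟨g0, hg0, hg0X⟩ := SetLike.not_le_iff_exists.1 hHX
  set K := H ⊓ d.L with hK
  set M := sqSub H ⊓ d.L with hM
  have hKW : K ⊓ d.W = H ⊓ d.W := by rw [hK, inf_assoc, inf_eq_right.2 d.W_le_L]
  have hMW : M ⊓ d.W = sqSub H ⊓ d.W := by rw [hM, inf_assoc, inf_eq_right.2 d.W_le_L]
  have hsK := card_split d.qW K
  have hsM := card_split d.qW M
  rw [hkerW, hKW] at hsK
  rw [hkerW, hMW] at hsM
  have hposM : 1 ≤ Nat.card (M.map d.qW) := Nat.card_pos
  by_cases hKsub : K ≤ d.W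
  · refine bound_of d.qL hkerL H 4 4 le_rfl ?_ hflag
    have e : K = H ⊓ d.W := le_antisymm (le_inf inf_le_left hKsub) (inf_le_inf_left H d.W_le_L)
    show Nat.card K ≤ 4 * Nat.card M
    rw [e]
    refine (hD4 h0 hh0 hh0L).trans (Nat.mul_le_mul_left _ ?_)
    exact card_le_of_le (inf_le_inf_left _ d.W_le_L)
  have hLW : ¬ d.L ≤ d.W := fun h => hKsub (inf_le_right.trans h)
  obtain ⟨c, hcL, hcW, hqc, hc2, hc1, hcfix, hδ, hδ1, hδu⟩ := d.exists_c h3 h3e hLW
  set ω := c * c with hω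
  -- `L/W` is cyclic
  haveI hcyc : IsCyclic (d.L.map d.qW) := by
    by_cases hbig : ∃ x ∈ d.L, x ∉ d.W ∧ c⁻¹ * x ∉ d.W
    · have hωu := d.sq_ne_disp h3 huu h3e hgen hcL hcW hqc hc2 hδ hδ1 hδu hbig
      obtain ⟨hnU, hgu, hgenL⟩ := d.L_generated h3 h3U huu huu1 h3e hgen hc2 hc1 hcfix hωu hg0X hLW
      -- a product of conjugates
      have hb : ∀ v ∈ d.U, (d.a * (g0 * d.a * g0⁻¹)) * v * (d.a * (g0 * d.a * g0⁻¹))⁻¹ = v := by
        intro v hv
        have hv' : g0⁻¹ * v * g0 ∈ d.U := by have := hnU g0⁻¹ v hv; rwa [inv_inv] at this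
        calc (d.a * (g0 * d.a * g0⁻¹)) * v * (d.a * (g0 * d.a * g0⁻¹))⁻¹
            = d.a * (g0 * (d.a * (g0⁻¹ * v * g0) * d.a⁻¹) * g0⁻¹) * d.a⁻¹ := by group
          _ = d.a * v * d.a⁻¹ := by rw [d.X_fix d.a_mem_X hv']; group
          _ = v := d.X_fix d.a_mem_X hv
      have hbw : (d.a * (g0 * d.a * g0⁻¹)) * w3 * (d.a * (g0 * d.a * g0⁻¹))⁻¹ = w3 * ω := by
        set y := g0⁻¹ * w3 * g0 with hy
        have hyW : y ∈ d.W := by have := d.conj_W g0⁻¹ h3; rwa [inv_inv] at this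
        have hy3 : y * w3 ∈ d.U := (hgen y hyW).resolve_left fun h => h3U (by
          have := hnU g0 y h
          rwa [hy, show g0 * (g0⁻¹ * w3 * g0) * g0⁻¹ = w3 by group] at this)
        have e1 : d.a * y * d.a = y * uu := by
          calc d.a * y * d.a = d.a * (y * w3) * (w3 * d.a) := by
                rw [show d.a * (y * w3) * (w3 * d.a) = d.a * y * (w3 * w3) * d.a by group, d.hW2 w3 h3,
                  mul_one]
            _ = (y * w3) * (d.a * w3 * d.a) := by rw [← (d.mem_U.1 hy3).2]; group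
            _ = (y * w3) * (w3 * uu) := by rw [h3e]
            _ = y * (w3 * w3) * uu := by group
            _ = y * uu := by rw [d.hW2 w3 h3, mul_one]
        calc (d.a * (g0 * d.a * g0⁻¹)) * w3 * (d.a * (g0 * d.a * g0⁻¹))⁻¹
            = d.a * (g0 * (d.a * y * d.a) * g0⁻¹) * d.a := by
              simp only [mul_inv_rev, inv_inv, d.inv_a, hy]; group
          _ = d.a * (g0 * y * g0⁻¹ * (g0 * uu * g0⁻¹)) * d.a := by rw [e1]; group
          _ = d.a * (w3 * (uu * ω)) * d.a := by rw [hgu, hy]; group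
          _ = d.a * w3 * d.a * (d.a⁻¹ * (uu * ω) * d.a) := by group
          _ = w3 * ω := by
            rw [h3e, d.inv_a, ← (d.mem_U.1 (mul_mem huu hc2)).2, mul_assoc (uu * ω), d.ha, mul_one,
              mul_assoc, ← mul_assoc uu uu, d.hW2 uu huu.1, one_mul]
      rw [hgenL _ hb hbw]
      exact Subgroup.isCyclic_zpowers _
    · push Not at hbig
      have heq : d.L.map d.qW = zpowers (d.qW c) := by
        refine le_antisymm ?_ (zpowers_le.2 ⟨c, hcL, rfl⟩)
        rintro _ ⟨x, hx, rfl⟩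
        by_cases hxW : x ∈ d.W
        · rw [d.qW_one.2 hxW]; exact one_mem _
        · rw [← d.qW_eq.2 (hbig x hx hxW)]; exact mem_zpowers _
      rw [heq]
      exact Subgroup.isCyclic_zpowers _
  haveI : IsCyclic (K.map d.qW) :=
    isCyclic_of_injective (Subgroup.inclusion (map_mono (inf_le_right : K ≤ d.L)))
      (Subgroup.inclusion_injective _)
  have hK2 : Nat.card (K.map d.qW) ≤ 2 * Nat.card (M.map d.qW) := card_cyclic_le _ fun q hq => by
    obtain ⟨x, hx, rfl⟩ := hq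
    exact ⟨x ^ 2, ⟨sq_mem_sqSub hx.1, pow_mem hx.2 2⟩, map_pow _ _ _⟩
  -- `ω` is a square in `K`
  obtain ⟨gK, hgK, hgKc⟩ : ∃ g ∈ K, c⁻¹ * g ∈ d.W := by
    haveI : Fintype (d.L.map d.qW) := Fintype.ofFinite _
    have hne : K.map d.qW ≠ ⊥ := fun h => hKsub fun x hx => d.qW_one.1 (mem_bot.1 (h ▸ ⟨x, hx, rfl⟩))
    obtain ⟨n, hn⟩ := IsPGroup.iff_card.1 ((d.hP.to_quotient d.W).to_subgroup (K.map d.qW))
    have h2 : 2 ∣ Nat.card (K.map d.qW) := by
      rcases n with _ | n
      · exact absurd (Subgroup.card_eq_one.1 (by simpa using hn)) hne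
      · exact ⟨2 ^ n, by rw [hn, pow_succ']⟩
    obtain ⟨q, hq⟩ := exists_prime_orderOf_dvd_card' 2 h2
    obtain ⟨g, hg, hgq⟩ := q.2
    refine ⟨g, hg, d.qW_eq.1 ?_⟩
    rw [hgq]
    by_contra hne'
    have h1 := IsCyclic.card_pow_eq_one_le (α := d.L.map d.qW) (n := 2) (by norm_num)
    have hqL : (q : S ⧸ d.W) ∈ d.L.map d.qW := map_mono (inf_le_right : K ≤ d.L) q.2
    have h3' : ({1, ⟨d.qW c, c, hcL, rfl⟩, ⟨q, hqL⟩} : Finset (d.L.map d.qW)) ⊆
        Finset.univ.filter fun v : d.L.map d.qW => v ^ 2 = 1 := by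
      intro v hv
      refine Finset.mem_filter.2 ⟨Finset.mem_univ _, ?_⟩
      simp only [Finset.mem_insert, Finset.mem_singleton] at hv
      rcases hv with rfl | rfl | rfl
      · simp
      · refine Subtype.ext ?_
        show (d.qW c) ^ 2 = 1
        rw [pow_two, ← map_mul]; exact d.qW_one.2 hc2.1
      · refine Subtype.ext ?_
        show (q : S ⧸ d.W) ^ 2 = 1
        exact congrArg Subtype.val (hq ▸ pow_orderOf_eq_one q : q ^ 2 = 1)
    have h4 := Finset.card_le_card h3'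
    rw [Finset.card_eq_three.2 ⟨1, ⟨d.qW c, c, hcL, rfl⟩, ⟨q, hqL⟩,
      fun e => hcW (d.qW_one.1 (congrArg Subtype.val e).symm),
      fun e => by
        have : q = 1 := Subtype.ext (congrArg Subtype.val e).symm
        rw [this, orderOf_one] at hq; omega,
      fun e => hne' (congrArg Subtype.val e), rfl⟩] at h4
    omega
  have hgKsq : gK * gK = ω := by
    have e : gK = c * (c⁻¹ * gK) := (mul_inv_cancel_left _ _).symm
    rw [e, mul_assoc, ← mul_assoc (c⁻¹ * gK) c, d.mem_L.1 hcL _ hgKc, mul_assoc c (c⁻¹ * gK),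
      d.hW2 _ hgKc, mul_one]
  have hωM : ω ∈ sqSub H ⊓ d.W := ⟨by rw [← hgKsq, ← pow_two]; exact sq_mem_sqSub hgK.1, hc2.1⟩
  have hω2 := two_le_card hωM hc1
  have hK8 : Nat.card K ≤ 8 * Nat.card M := by
    rw [hsK, hsM]
    calc Nat.card (H ⊓ d.W : Subgroup S) * Nat.card (K.map d.qW)
        ≤ 8 * (2 * Nat.card (M.map d.qW)) := Nat.mul_le_mul hD hK2
      _ = 8 * (2 * Nat.card (M.map d.qW)) := rfl
      _ ≤ 8 * (Nat.card (sqSub H ⊓ d.W : Subgroup S) * Nat.card (M.map d.qW)) :=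
          Nat.mul_le_mul_left _ (Nat.mul_le_mul_right _ hω2)
  by_cases hsmall : Nat.card (H.map d.qL) ≤ 2 * Nat.card ((sqSub H).map d.qL)
  · exact bound_of d.qL hkerL H 8 2 le_rfl hK8 hsmall
  refine bound_of d.qL hkerL H 4 4 le_rfl ?_ hflag
  show Nat.card K ≤ 4 * Nat.card M
  rw [hsK, hsM]
  by_cases hDW : d.W ≤ H
  swap
  · have hlt : Nat.card (H ⊓ d.W : Subgroup S) ≤ 4 := by
      have hlt : Nat.card (H ⊓ d.W : Subgroup S) < 8 := by
        by_contra hh
        exact hDW (inf_eq_right.1 (eq_of_le_of_card_ge inf_le_right (by omega)))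
      obtain ⟨n, hn⟩ := card_pow_two d.hP (H ⊓ d.W)
      rw [hn] at hlt ⊢
      rcases n with _ | _ | _ | n
      · omega
      · omega
      · omega
      · rw [pow_succ, pow_succ, pow_succ] at hlt
        have := Nat.one_le_two_pow (n := n)
        omega
    calc Nat.card (H ⊓ d.W : Subgroup S) * Nat.card (K.map d.qW)
        ≤ 4 * (2 * Nat.card (M.map d.qW)) := Nat.mul_le_mul hlt hK2
      _ ≤ _ := Nat.mul_le_mul_left _ (Nat.mul_le_mul_right _ hω2)
  by_cases h4 : 4 ≤ Nat.card (sqSub H ⊓ d.W : Subgroup S)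
  · calc Nat.card (H ⊓ d.W : Subgroup S) * Nat.card (K.map d.qW)
        ≤ 8 * (2 * Nat.card (M.map d.qW)) := Nat.mul_le_mul hD hK2
      _ = 4 * (4 * Nat.card (M.map d.qW)) := by ring
      _ ≤ _ := Nat.mul_le_mul_left _ (Nat.mul_le_mul_right _ h4)
  -- only `ω` appears among the displacements
  have hsmallM : ∀ v ∈ sqSub H ⊓ d.W, v = 1 ∨ v = ω := by
    intro v hv
    by_contra hh
    rw [not_or] at hh
    let l : Fin 3 → (sqSub H ⊓ d.W : Subgroup S) := ![1, ⟨ω, hωM⟩, ⟨v, hv⟩]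
    have hl : Function.Injective l := by
      intro i j h
      fin_cases i <;> fin_cases j <;>
        simp [l, Subtype.ext_iff, hc1, hh.1, hh.2, Ne.symm hc1, Ne.symm hh.1, Ne.symm hh.2] at h ⊢
    have h3' := Nat.card_le_card_of_injective l hl
    rw [Nat.card_fin] at h3'
    obtain ⟨n, hn⟩ := card_pow_two d.hP (sqSub H ⊓ d.W)
    rw [hn] at h4 h3'
    rcases n with _ | _ | n
    · omega
    · omega
    · rw [pow_succ, pow_succ] at h4
      have := Nat.one_le_two_pow (n := n)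
      omega
  have hdispH : ∀ x ∈ H, ∀ w ∈ d.W, x * w * x⁻¹ = w ∨ x * w * x⁻¹ = w * ω := by
    intro x hx w hw
    rcases hsmallM _ (d.move_mem (hDW hw) hw hx) with e | e
    · left
      rw [eq_inv_of_mul_eq_one_left e, d.inv_W hw]
    · right
      calc x * w * x⁻¹ = x * w * x⁻¹ * (w * w) := by rw [d.hW2 w hw, mul_one]
        _ = (x * w * x⁻¹ * w) * w := by group
        _ = w * ω := by rw [e, d.hWc _ hc2.1 _ hw]
  -- a basis `ω, p` of `U`
  obtain ⟨p, hp, hp1, hpω, hU⟩ : ∃ p ∈ d.U, p ≠ 1 ∧ p ≠ ω ∧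
      ∀ v ∈ d.U, v = 1 ∨ v = ω ∨ v = p ∨ v = ω * p := by
    have hU4 : Nat.card d.U = 4 := d.hU
    obtain ⟨p, hp, hp1, hpω⟩ : ∃ p ∈ d.U, p ≠ 1 ∧ p ≠ ω := by
      by_contra hh
      simp only [not_exists, not_and, not_not] at hh
      have hsub : (d.U : Set S) ⊆ ({1, ω} : Set S) := fun v hv => by
        by_cases h1 : v = 1
        · exact Or.inl h1
        · exact Or.inr (hh v hv h1)
      have := Set.ncard_le_ncard hsub (Set.toFinite _)
      rw [← Nat.card_coe_set_eq] at this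
      have h2 := this.trans ((Set.ncard_insert_le _ _).trans (by simp : ({ω} : Set S).ncard + 1 ≤ 2))
      change Nat.card d.U ≤ 2 at h2
      omega
    refine ⟨p, hp, hp1, hpω, fun v hv => ?_⟩
    by_contra hh
    simp only [not_or] at hh
    obtain ⟨h1, h2, h4', h5⟩ := hh
    have n1 : ω * p ≠ 1 := fun h => hpω (mul_left_cancel (h.trans (d.hW2 ω hc2.1).symm))
    have n2 : ω * p ≠ ω := fun h => hp1 (mul_eq_left.1 h)
    have n3 : ω * p ≠ p := fun h => hc1 (mul_eq_right.1 h)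
    let l : Fin 5 → d.U := ![1, ⟨ω, hc2⟩, ⟨p, hp⟩, ⟨ω * p, mul_mem hc2 hp⟩, ⟨v, hv⟩]
    have hl : Function.Injective l := by
      intro i j h
      fin_cases i <;> fin_cases j <;>
        simp [l, Subtype.ext_iff, hc1, hp1, hpω, h1, h2, h4', h5, n1, n2, n3, Ne.symm hc1, Ne.symm hp1,
          Ne.symm hpω, Ne.symm h1, Ne.symm h2, Ne.symm h4', Ne.symm h5, Ne.symm n1, Ne.symm n2,
          Ne.symm n3] at h ⊢
    have := Nat.card_le_card_of_injective l hl
    rw [Nat.card_fin] at this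
    omega
  have hUfix : ∀ x : S, x * p * x⁻¹ = p → ∀ v ∈ d.U, x * v * x⁻¹ = v := by
    intro x hx v hv
    rcases hU v hv with rfl | rfl | rfl | rfl
    · simp
    · exact hcfix x
    · exact hx
    · rw [show x * (ω * p) * x⁻¹ = x * ω * x⁻¹ * (x * p * x⁻¹) by group, hcfix, hx]
  -- all four actions occur
  obtain ⟨x, hx, hxp, hxq⟩ : ∃ x ∈ H, x * p * x⁻¹ = p ∧ x * w3 * x⁻¹ = w3 * ω := by
    by_contra hh
    simp only [not_exists, not_and] at hh
    have hsel : ∀ r : H.map d.qL, ∃ x, x ∈ H ∧ d.qL x = r := fun r => r.2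
    choose y hyH hyr using hsel
    let φ : H.map d.qL → Bool × Bool := fun r =>
      (decide (y r * p * (y r)⁻¹ = p), decide (y r * w3 * (y r)⁻¹ = w3))
    have hφ : Function.Injective φ := by
      intro r r' e
      have hp' : y r * p * (y r)⁻¹ = y r' * p * (y r')⁻¹ := by
        have e1 := congrArg Prod.fst e
        simp only [φ, decide_eq_decide] at e1
        rcases hdispH _ (hyH r) p hp.1 with a1 | a1 <;> rcases hdispH _ (hyH r') p hp.1 with a2 | a2
        · rw [a1, a2]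
        · rw [a1, e1.1 a1]
        · rw [a2, e1.2 a2]
        · rw [a1, a2]
      have hw' : y r * w3 * (y r)⁻¹ = y r' * w3 * (y r')⁻¹ := by
        have e1 := congrArg Prod.snd e
        simp only [φ, decide_eq_decide] at e1
        rcases hdispH _ (hyH r) w3 h3 with a1 | a1 <;> rcases hdispH _ (hyH r') w3 h3 with a2 | a2
        · rw [a1, a2]
        · rw [a1, e1.1 a1]
        · rw [a2, e1.2 a2]
        · rw [a1, a2]
      have hmem := d.ext_act hgen h3 (fun v hv => by
        rcases hU v hv with rfl | rfl | rfl | rfl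
        · simp
        · rw [hcfix, hcfix]
        · exact hp'
        · rw [show y r * (ω * p) * (y r)⁻¹ = y r * ω * (y r)⁻¹ * (y r * p * (y r)⁻¹) by group,
            show y r' * (ω * p) * (y r')⁻¹ = y r' * ω * (y r')⁻¹ * (y r' * p * (y r')⁻¹) by group,
            hcfix, hcfix, hp']) hw'
      exact Subtype.ext (by rw [← hyr r, ← hyr r']; exact QuotientGroup.eq.2 hmem)
    have hne : ∀ r, φ r ≠ (true, false) := by
      intro r e
      have e1 := congrArg Prod.fst e
      have e2 := congrArg Prod.snd e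
      simp only [φ, decide_eq_true_eq, decide_eq_false_iff_not] at e1 e2
      rcases hdispH _ (hyH r) w3 h3 with a | a
      · exact e2 a
      · exact hh _ (hyH r) e1 a
    let φ' : H.map d.qL → {q : Bool × Bool // q ≠ (true, false)} := fun r => ⟨φ r, hne r⟩
    have h3' := Nat.card_le_card_of_injective φ' fun r r' e => hφ (congrArg Subtype.val e)
    have hc3 : Nat.card {q : Bool × Bool // q ≠ (true, false)} = 3 := by
      rw [Nat.card_eq_fintype_card]; rfl
    obtain ⟨n, hn⟩ := IsPGroup.iff_card.1 ((d.hP.to_quotient d.L).to_subgroup (H.map d.qL))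
    have : 1 ≤ Nat.card ((sqSub H).map d.qL) := Nat.card_pos
    rw [hc3, hn] at h3'
    rw [hn] at hsmall
    rcases n with _ | _ | n
    · omega
    · omega
    · rw [pow_succ, pow_succ] at h3'
      have := Nat.one_le_two_pow (n := n)
      omega
  have hxU := hUfix x hxp
  by_cases hωu : ω = uu
  · -- then some element of `H` acts as `a`
    exfalso
    have hmem : d.a⁻¹ * x ∈ d.L := d.ext_act hgen h3 (fun v hv => by rw [hxU v hv, d.X_fix d.a_mem_X hv])
      (by rw [hxq, d.inv_a, h3e, hωu])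
    set l := d.a⁻¹ * x with hl
    have hex : x = d.a * l := by rw [hl, mul_inv_cancel_left]
    have hlc : l * c = c * l := by
      haveI := hcyc
      obtain ⟨gq, hgq⟩ := IsCyclic.exists_generator (α := d.L.map d.qW)
      obtain ⟨gl, hgl, egl⟩ := gq.2
      have key : ∀ y ∈ d.L, ∃ (n : ℤ) (w : S), w ∈ d.W ∧ y = gl ^ n * w := by
        intro y hy
        obtain ⟨n, hn⟩ := hgq ⟨d.qW y, y, hy, rfl⟩
        refine ⟨n, (gl ^ n)⁻¹ * y, d.qW_eq.1 ?_, (mul_inv_cancel_left _ _).symm⟩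
        rw [map_zpow, egl, ← Subgroup.coe_zpow]
        exact congrArg Subtype.val hn
      obtain ⟨n, w, hw, en⟩ := key l hmem
      obtain ⟨m, w', hw', em⟩ := key c hcL
      have hz : ∀ k : ℤ, ∀ v ∈ d.W, v * gl ^ k = gl ^ k * v := fun k v hv =>
        d.mem_L.1 (zpow_mem hgl k) v hv
      rw [en, em]
      calc gl ^ n * w * (gl ^ m * w') = gl ^ n * (w * gl ^ m) * w' := by group
        _ = gl ^ n * gl ^ m * (w * w') := by rw [hz m w hw]; group
        _ = gl ^ m * gl ^ n * (w' * w) := by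
              rw [(Commute.zpow_zpow_self gl n m).eq, d.hWc w hw w' hw']
        _ = gl ^ m * (gl ^ n * w') * w := by group
        _ = gl ^ m * (w' * gl ^ n) * w := by rw [← hz n w' hw']
        _ = gl ^ m * w' * (gl ^ n * w) := by group
    have hcH : c ∈ H := by
      have := H.mul_mem hgK.1 (H.inv_mem (hDW hgKc))
      rwa [mul_inv_rev, inv_inv, mul_inv_cancel_left] at this
    have hcomm' : x * c * x⁻¹ * c⁻¹ = c * d.a * c⁻¹ * d.a := by
      have hh := inv_eq_of_mul_eq_one_right (d.hW2 _ hδ.1)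
      rw [← hh, hex, show d.a * l * c * (d.a * l)⁻¹ = d.a * (l * c * l⁻¹) * d.a⁻¹ by group, hlc,
        mul_inv_cancel_right, mul_inv_rev, mul_inv_rev, mul_inv_rev, inv_inv, d.inv_a]
      group
    have hcmem : x * c * x⁻¹ * c⁻¹ ∈ sqSub H ⊓ d.W := by
      refine ⟨?_, hcomm' ▸ hδ.1⟩
      have h := comm_mem_sqSub (H := H) (inv_mem hx) (inv_mem hcH)
      rwa [inv_inv, inv_inv] at h
    rw [hcomm'] at hcmem
    rcases hsmallM _ hcmem with e | e
    · exact hδ1 e
    · exact hδu (e.trans hωu)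
  · obtain ⟨-, -, hgenL⟩ := d.L_generated h3 h3U huu huu1 h3e hgen hc2 hc1 hcfix hωu hg0X hLW
    have hfull : K.map d.qW ≤ M.map d.qW := by
      refine (map_mono (inf_le_right : K ≤ d.L)).trans ?_
      have hxX : x ∈ d.X := d.mem_X.2 fun v hv => (mul_inv_eq_iff_eq_mul.1 (hxU v hv)).symm
      rw [hgenL x hxU hxq, zpowers_le]
      refine ⟨x ^ 2, ⟨sq_mem_sqSub hx, ?_⟩, rfl⟩
      have hm : d.qW (x ^ 2) ∈ d.L.map d.qW := by rw [hgenL x hxU hxq]; exact mem_zpowers _
      obtain ⟨l, hl, el⟩ := hm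
      have := mul_mem hl (d.W_le_L (d.qW_eq.1 el))
      rwa [mul_inv_cancel_left] at this
    calc Nat.card (H ⊓ d.W : Subgroup S) * Nat.card (K.map d.qW)
        ≤ 8 * Nat.card (M.map d.qW) := Nat.mul_le_mul hD (card_le_of_le hfull)
      _ = 4 * (2 * Nat.card (M.map d.qW)) := by ring
      _ ≤ _ := Nat.mul_le_mul_left _ (Nat.mul_le_mul_right _ hω2)

end Cfsg.Agent.H81.SelfEight.Data
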