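import Cfsg.Agent.H81.SelfEight.Sixteen
import Cfsg.Agent.H81.SelfEight.Eight
import Cfsg.Agent.H81.MacW.Main

/-!
Harada: a 2-group with a self-centralising elementary abelian subgroup of order eight has sectional
rank at most four.
-/

set_option autoImplicit false
set_option linter.unusedSectionVars false

namespace Cfsg.Agent.H81.SelfEight

open Subgroup
open Cfsg.Agent.H81.MacW (sqSub sq_mem_sqSub card_split card_pow_two sectional_of_sq comm_mem_sqSub)

variable {S : Type*} [Group S] [Finite S]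

/-- `W = A` normal: order of `H` bounded. -/
theorem bound_self (hP : IsPGroup 2 S) (W : Subgroup S) [hWn : W.Normal]
    (hWc : ∀ x ∈ W, ∀ y ∈ W, x * y = y * x) (hW2 : ∀ x ∈ W, x * x = 1) (h8 : Nat.card W = 8)
    (hC : centralizer (W : Set S) = W) (H : Subgroup S) :
    Nat.card H ≤ 2 ^ 4 * Nat.card (sqSub H) := by
  have hker : (QuotientGroup.mk' W).ker = centralizer (W : Set S) := by rw [hC, QuotientGroup.ker_mk']
  have hflag := flag_bound hP W hWc hW2 h8 (QuotientGroup.mk' W) hker H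
  have hD : Nat.card (H ⊓ W : Subgroup S) ≤ 8 := h8 ▸ card_le_of_le inf_le_right
  have h1 : 1 ≤ Nat.card (sqSub H ⊓ W : Subgroup S) := Nat.card_pos
  have h1' : 1 ≤ Nat.card (sqSub H) := Nat.card_pos
  by_cases htriv : H ≤ W
  · have := card_le_of_le htriv
    omega
  obtain ⟨x, hx, hxW⟩ := SetLike.not_le_iff_exists.1 htriv
  refine bound_of (QuotientGroup.mk' W) (QuotientGroup.ker_mk' W) H 4 4 le_rfl ?_ hflag
  by_cases hW : W ≤ H
  · obtain ⟨w, hw, hne⟩ : ∃ w ∈ W, w * x ≠ x * w := by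
      by_contra hh
      push Not at hh
      exact hxW (hC ▸ mem_centralizer_iff.2 hh)
    have hinv : w⁻¹ = w := inv_eq_of_mul_eq_one_right (hW2 w hw)
    have hm : x * w * x⁻¹ * w ∈ sqSub H ⊓ W := by
      refine ⟨?_, mul_mem (hWn.conj_mem w hw x) hw⟩
      have h := comm_mem_sqSub (H := H) (inv_mem hx) (inv_mem (hW hw))
      rw [inv_inv, inv_inv, hinv] at h
      exact h
    have := two_le_card hm fun h => hne (by
      rw [mul_eq_one_iff_eq_inv, hinv, mul_inv_eq_iff_eq_mul] at h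
      exact h.symm)
    omega
  · have hlt : Nat.card (H ⊓ W : Subgroup S) < 8 := by
      by_contra hh
      exact hW (inf_eq_right.1 (eq_of_le_of_card_ge inf_le_right (by omega)))
    obtain ⟨n, hn⟩ := card_pow_two hP (H ⊓ W)
    rw [hn] at hlt ⊢
    rcases n with _ | _ | _ | n
    · omega
    · omega
    · omega
    · exfalso
      rw [pow_succ, pow_succ, pow_succ] at hlt
      have := Nat.one_le_two_pow (n := n)
      omega

/-- Harada's theorem. -/
theorem sectional_rank_le_four (hP : IsPGroup 2 S) (A : Subgroup S)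
    (hA : Cfsg.IsElementaryAbelian 2 A) (hA8 : Nat.card A = 8) (hC : centralizer (A : Set S) = A) :
    Cfsg.SectionalPRankLE 2 4 S := by
  have hAc : ∀ x ∈ A, ∀ y ∈ A, x * y = y * x := fun x hx y hy =>
    congrArg Subtype.val (hA.1.is_comm.comm ⟨x, hx⟩ ⟨y, hy⟩)
  have hA2 : ∀ x ∈ A, x * x = 1 := fun x hx => by
    have := hA.2 x hx
    rwa [pow_two] at this
  by_cases h : ∀ B : Subgroup S, B.Normal → IsMulCommutative B → (∀ x ∈ B, x ^ 2 = 1) → Nat.card B ≤ 4
  · exact Cfsg.Agent.H81.MacW.macWilliams hP h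
  push Not at h
  obtain ⟨B0, hB0n, hB0c, hB02, hB04⟩ := h
  obtain ⟨W, ⟨hWn, hWc, hW2, hB0W⟩, hmax⟩ := Set.Finite.exists_maximal
    (s := {W : Subgroup S | W.Normal ∧ IsMulCommutative W ∧ (∀ x ∈ W, x ^ 2 = 1) ∧ B0 ≤ W})
    (Set.toFinite _) ⟨B0, hB0n, hB0c, hB02, le_rfl⟩
  haveI := hWn
  have hWc' : ∀ x ∈ W, ∀ y ∈ W, x * y = y * x := fun x hx y hy =>
    congrArg Subtype.val (hWc.is_comm.comm ⟨x, hx⟩ ⟨y, hy⟩)
  have hW2' : ∀ x ∈ W, x * x = 1 := fun x hx => by rw [← pow_two]; exact hW2 x hx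
  have hW4 : 4 < Nat.card W := lt_of_lt_of_le hB04 (card_le_of_le hB0W)
  refine sectional_of_sq 4 fun H => ?_
  by_cases hWA : W ≤ A
  · have hWA' : W = A := by
      refine eq_of_le_of_card_ge hWA ?_
      have h1 := card_le_of_le hWA
      obtain ⟨n, hn⟩ := card_pow_two hP W
      rw [hn] at hW4 h1 ⊢
      rcases n with _ | _ | _ | n
      · omega
      · omega
      · omega
      · rw [pow_succ, pow_succ, pow_succ] at hW4 h1 ⊢
        have := Nat.one_le_two_pow (n := n)
        omega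
    subst hWA'
    exact bound_self hP W hWc' hW2' hA8 hC H
  · obtain ⟨d⟩ := exists_data hP A hAc hA2 hA8 hC W hWn hWc' hW2' hW4
      (fun B hBn hBc hB2 hWB => le_antisymm (hmax ⟨hBn, hBc, hB2, hB0W.trans hWB⟩ hWB) hWB) hWA
    rcases d.hWcard with h | h
    · exact d.bound8 h H
    · exact d.bound16 h H

end Cfsg.Agent.H81.SelfEight
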