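import Cfsg.Agent.H81.MacW.Frat
import Cfsg.Agent.H24.MaxClass
import Cfsg.Agent.H24.PGroupBasic

/-!
2-groups with an involution whose centraliser has order at most four.
-/

set_option autoImplicit false
set_option linter.unusedSectionVars false

namespace Cfsg.Agent.H81.SelfEight

open Subgroup
open Cfsg.Agent.H81.MacW (sqSub sq_mem_sqSub)

variable {G : Type*} [Group G] [Finite G]

/-- `|G| ≤ 4`, or a cyclic subgroup of index two containing the centre, of order two. -/
theorem cyclic_data (hG : IsPGroup 2 G) {t : G} (ht : t * t = 1) (ht1 : t ≠ 1)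
    (hC : Nat.card (centralizer ({t} : Set G)) ≤ 4) :
    Nat.card G ≤ 4 ∨ ∃ C : Subgroup G, IsCyclic C ∧ C.index = 2 ∧ center G ≤ C ∧
      Nat.card (center G) = 2 ∧ t ∉ C := by
  haveI : Fact (Nat.Prime 2) := ⟨Nat.prime_two⟩
  by_cases h4 : Nat.card G ≤ 4
  · exact Or.inl h4
  right
  set A := centralizer ({t} : Set G) with hA
  have htA : t ∈ A := mem_centralizer_singleton_iff.2 rfl
  have hncen : t ∉ center G := fun h => by
    have : A = ⊤ := eq_top_iff.2 fun x _ => mem_centralizer_singleton_iff.2 (mem_center_iff.1 h x)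
    rw [this, card_top] at hC
    exact h4 hC
  haveI : Nontrivial G := ⟨⟨t, 1, ht1⟩⟩
  haveI := hG.center_nontrivial
  obtain ⟨z, hz⟩ := exists_ne (1 : center G)
  have hz1 : (z : G) ≠ 1 := fun h => hz (Subtype.ext h)
  have hzA : (z : G) ∈ A := mem_centralizer_singleton_iff.2 (mem_center_iff.1 z.2 t).symm
  have hzt : (z : G) ≠ t := fun h => hncen (h ▸ z.2)
  have hA4 : Nat.card A = 2 ^ 2 := by
    obtain ⟨n, hn⟩ := Cfsg.Agent.H81.MacW.card_pow_two hG A
    have h3 : 3 ≤ Nat.card A := by
      let g : Fin 3 → A := ![1, ⟨t, htA⟩, ⟨z, hzA⟩]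
      have hg : Function.Injective g := by
        intro i j h
        fin_cases i <;> fin_cases j <;>
          simp [g, Subtype.ext_iff, ht1, hz1, hzt, Ne.symm ht1, Ne.symm hz1, Ne.symm hzt] at h ⊢
      simpa using Nat.card_le_card_of_injective g hg
    rw [hn] at hC h3 ⊢
    rcases n with _ | _ | _ | n
    · norm_num at h3
    · norm_num at h3
    · rfl
    · rw [pow_succ, pow_succ, pow_succ] at hC
      have := Nat.one_le_two_pow (n := n)
      omega
  have hAc : IsMulCommutative A := ⟨⟨IsPGroup.commutative_of_card_eq_prime_sq hA4⟩⟩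
  have hself : centralizer (A : Set G) = A := by
    refine le_antisymm (fun x hx => mem_centralizer_singleton_iff.2
      (mem_centralizer_iff.1 hx t htA).symm) fun x hx => mem_centralizer_iff.2 fun y hy => ?_
    exact congrArg Subtype.val (hAc.is_comm.comm ⟨y, hy⟩ ⟨x, hx⟩)
  obtain ⟨k, hk⟩ := IsPGroup.iff_card.1 hG
  have hk3 : 3 ≤ k := by
    by_contra hh
    rw [hk] at h4
    have := Nat.pow_le_pow_right (show 0 < 2 by norm_num) (show k ≤ 2 by omega)
    omega
  have hclass := Cfsg.Agent.H24.class_eq_of_self_centralizing G 2 k hk A hA4 hself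
  have hidx := (Cfsg.Agent.H24.index_commutator_of_max_class G 2 k hk (by omega) hclass).1
  obtain ⟨⟨C, hCc, hCi⟩, -, hcen⟩ :=
    Cfsg.Agent.H24.two_group_commutator_index_four G k hk (by omega) hidx
  haveI := hCc
  have hna : ¬ IsMulCommutative G := fun h => hncen (mem_center_iff.2 fun g => h.is_comm.comm g t)
  obtain ⟨hzC, -⟩ := Cfsg.Agent.H24.card_abelian_index_two hna
    (C := C) inferInstance hCi
  refine ⟨C, hCc, hCi, hzC, hcen hk3, fun htC => hzt ?_⟩
  classical
  haveI : Fintype C := Fintype.ofFinite C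
  by_contra hne
  have h1 := IsCyclic.card_pow_eq_one_le (α := C) (n := 2) (by norm_num)
  have h2 : ({1, ⟨t, htC⟩, ⟨z, hzC z.2⟩} : Finset C) ⊆ Finset.univ.filter fun a : C => a ^ 2 = 1 := by
    intro a ha
    refine Finset.mem_filter.2 ⟨Finset.mem_univ _, ?_⟩
    simp only [Finset.mem_insert, Finset.mem_singleton] at ha
    rcases ha with rfl | rfl | rfl
    · simp
    · exact Subtype.ext (by simpa [pow_two] using ht)
    · have hz2 : z ^ 2 = 1 := by rw [← hcen hk3]; exact pow_card_eq_one'
      exact Subtype.ext (by simpa using congrArg Subtype.val hz2)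
  have h3 := Finset.card_le_card h2
  rw [Finset.card_eq_three.2 ⟨1, ⟨t, htC⟩, ⟨z, hzC z.2⟩, fun h => ht1 (congrArg Subtype.val h).symm,
    fun h => hz1 (congrArg Subtype.val h).symm, fun h => hne (congrArg Subtype.val h).symm, rfl⟩] at h3
  omega

/-- A subgroup of a cyclic group is at most twice the subgroup of its squares. -/
theorem card_cyclic_le (K : Subgroup G) [IsCyclic K] {M : Subgroup G} (hM : ∀ x ∈ K, x ^ 2 ∈ M) :
    Nat.card K ≤ 2 * Nat.card M := by
  obtain ⟨g, hg⟩ := IsCyclic.exists_generator (α := K)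
  have hsub : ∀ n : ℤ, ((g : G) ^ 2) ^ n ∈ M := fun n => zpow_mem (hM g g.2) n
  let f : Fin 2 × M → G := fun q => (g : G) ^ (q.1 : ℕ) * q.2
  have hcov : ∀ x : K, ∃ q, f q = x := by
    intro x
    obtain ⟨n, rfl⟩ := hg x
    refine ⟨(⟨(n % 2).toNat, by omega⟩, ⟨((g : G) ^ 2) ^ (n / 2), hsub _⟩), ?_⟩
    simp only [f, Subgroup.coe_zpow]
    rw [← zpow_natCast, ← zpow_natCast, ← zpow_mul, ← zpow_add]
    congr 1
    omega
  choose q hq using hcov
  have := Nat.card_le_card_of_injective q fun x y h => Subtype.ext (by rw [← hq x, h, hq y])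
  simpa using this

theorem sq_bound (hG : IsPGroup 2 G) {t : G} (ht : t * t = 1) (ht1 : t ≠ 1)
    (hC : Nat.card (centralizer ({t} : Set G)) ≤ 4) (K : Subgroup G) :
    Nat.card K ≤ 4 * Nat.card (sqSub K) := by
  rcases cyclic_data hG ht ht1 hC with h | ⟨C, hCc, hCi, -⟩
  · have := K.card_le_card_group
    have : 1 ≤ Nat.card (sqSub K) := Nat.card_pos
    omega
  haveI := hCc
  have hinf : Nat.card (K ⊓ C : Subgroup G) ≤ 2 * Nat.card (sqSub K) := by
    haveI : IsCyclic (K ⊓ C : Subgroup G) :=
      isCyclic_of_injective (Subgroup.inclusion (inf_le_right : K ⊓ C ≤ C)) (Subgroup.inclusion_injective _)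
    exact card_cyclic_le _ fun x hx => sq_mem_sqSub hx.1
  haveI : C.Normal := Subgroup.normal_of_index_eq_two hCi
  have h1 := ((K ⊓ C).subgroupOf K).card_mul_index
  rw [Nat.card_congr (Subgroup.subgroupOfEquivOfLe inf_le_left).toEquiv] at h1
  have h2 : ((K ⊓ C).subgroupOf K).index ≤ 2 := by
    show (K ⊓ C).relIndex K ≤ 2
    rw [Subgroup.inf_relIndex_left]
    exact Nat.le_of_dvd (by norm_num) (hCi ▸ Subgroup.relIndex_dvd_index_of_normal C K)
  have := Nat.mul_le_mul hinf h2
  omega

/-- A subgroup which is not nearly generated by a square contains every central involution. -/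
theorem central_mem (hG : IsPGroup 2 G) {t : G} (ht : t * t = 1) (ht1 : t ≠ 1)
    (hC : Nat.card (centralizer ({t} : Set G)) ≤ 4) {K : Subgroup G}
    (hK : 2 * Nat.card (sqSub K) < Nat.card K) {z : G} (hz : z ∈ center G) (hz2 : z * z = 1) : z ∈ K := by
  rcases cyclic_data hG ht ht1 hC with h | ⟨C, hCc, hCi, hzC, hcen, -⟩
  · have h1 : 1 ≤ Nat.card (sqSub K) := Nat.card_pos
    obtain ⟨n, hn⟩ := Cfsg.Agent.H81.MacW.card_pow_two hG K
    have hK4 : Nat.card G ≤ Nat.card K := by
      rw [hn] at hK ⊢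
      rcases n with _ | _ | n
      · omega
      · omega
      · rw [pow_succ, pow_succ]
        have := Nat.one_le_two_pow (n := n)
        omega
    rw [Subgroup.eq_top_of_le_card K hK4]
    exact mem_top z
  classical
  haveI := hCc
  haveI : Fintype C := Fintype.ofFinite C
  by_cases hbot : K ⊓ C = ⊥
  · exfalso
    have h1 : Nat.card K ≤ 2 := by
      let g : K → Fin 2 := fun x => if (x : G) ∈ C then 0 else 1
      have hg : Function.Injective g := by
        intro x y h
        have hh : ((x : G) ∈ C) ↔ ((y : G) ∈ C) := by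
          by_cases hx : (x : G) ∈ C <;> by_cases hy : (y : G) ∈ C <;> simp_all [g]
        have hmem : (x : G)⁻¹ * y ∈ K ⊓ C := ⟨K.mul_mem (K.inv_mem x.2) y.2,
          (Subgroup.mul_mem_iff_of_index_two hCi).2 (by rw [inv_mem_iff]; exact hh)⟩
        rw [hbot, mem_bot, inv_mul_eq_one] at hmem
        exact Subtype.ext hmem
      simpa using Nat.card_le_card_of_injective g hg
    have : 1 ≤ Nat.card (sqSub K) := Nat.card_pos
    omega
  by_cases hz1 : z = 1
  · rw [hz1]; exact one_mem K
  -- the involution of `K ⊓ C`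
  obtain ⟨w, hwK, hwC, hw2, hw1⟩ : ∃ w, w ∈ K ∧ w ∈ C ∧ w * w = 1 ∧ w ≠ 1 := by
    haveI : Fact (Nat.Prime 2) := ⟨Nat.prime_two⟩
    obtain ⟨n, hn⟩ := Cfsg.Agent.H81.MacW.card_pow_two hG (K ⊓ C)
    have hne : 2 ∣ Nat.card (K ⊓ C : Subgroup G) := by
      rcases n with _ | n
      · exact absurd (Subgroup.card_eq_one.1 (by simpa using hn)) hbot
      · exact ⟨2 ^ n, by rw [hn, pow_succ']⟩
    obtain ⟨w, hw⟩ := exists_prime_orderOf_dvd_card' 2 hne
    exact ⟨w, w.2.1, w.2.2, by
      have := congrArg Subtype.val (hw ▸ pow_orderOf_eq_one w : w ^ 2 = 1)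
      simpa [pow_two] using this,
      fun h => by
        have : w = 1 := Subtype.ext h
        rw [this, orderOf_one] at hw; omega⟩
  have h1 := IsCyclic.card_pow_eq_one_le (α := C) (n := 2) (by norm_num)
  by_contra hzK
  have h2 : ({1, ⟨w, hwC⟩, ⟨z, hzC hz⟩} : Finset C) ⊆ Finset.univ.filter fun a : C => a ^ 2 = 1 := by
    intro a ha
    refine Finset.mem_filter.2 ⟨Finset.mem_univ _, ?_⟩
    simp only [Finset.mem_insert, Finset.mem_singleton] at ha
    rcases ha with rfl | rfl | rfl
    · simp
    · exact Subtype.ext (by simpa [pow_two] using hw2)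
    · exact Subtype.ext (by simpa [pow_two] using hz2)
  have h3 := Finset.card_le_card h2
  rw [Finset.card_eq_three.2 ⟨1, ⟨w, hwC⟩, ⟨z, hzC hz⟩, fun h => hw1 (congrArg Subtype.val h).symm,
    fun h => hz1 (congrArg Subtype.val h).symm,
    fun h => hzK (by
      have e : w = z := congrArg Subtype.val h
      exact e ▸ hwK), rfl⟩] at h3
  omega

/-- Two involutions modulo a normal subgroup `N` of index four, different from each other:
`N` is generated by the square of any element of the coset of their product. -/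
theorem product_generates (hG : IsPGroup 2 G) {t s : G} (ht : t * t = 1) (hs : s * s = 1)
    (hC : Nat.card (centralizer ({t} : Set G)) ≤ 4) (N : Subgroup G) [N.Normal] (hN : N.index = 4)
    (hN1 : N ≠ ⊥) (htN : t ∉ N) (hsN : s ∉ N) (htsN : t * s ∉ N) {x : G} (hx : (t * s)⁻¹ * x ∈ N) :
    N = zpowers (x ^ 2) := by
  have ht1 : t ≠ 1 := fun h => htN (h ▸ one_mem N)
  have hcardG : 8 ≤ Nat.card G := by
    have h := N.card_mul_index
    rw [hN] at h
    have : 2 ≤ Nat.card N := (Subgroup.one_lt_card_iff_ne_bot N).2 hN1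
    omega
  rcases cyclic_data hG ht ht1 hC with h | ⟨C, hCc, hCi, hzC, hcen, htC⟩
  · omega
  haveI := hCc
  have hsC : s ∉ C := by
    intro hsC'
    -- `s` is the involution of `C`, hence central
    classical
    haveI : Fintype C := Fintype.ofFinite C
    obtain ⟨z, hz⟩ : ∃ z : center G, z ≠ 1 := by
      haveI : Nontrivial (center G) := Finite.one_lt_card_iff_nontrivial.1 (by omega)
      exact exists_ne 1
    have hz1 : (z : G) ≠ 1 := fun h => hz (Subtype.ext h)
    have h1 := IsCyclic.card_pow_eq_one_le (α := C) (n := 2) (by norm_num)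
    by_cases hzs : (z : G) = s
    · have hsc : s ∈ center G := hzs ▸ z.2
      -- then `C(t) = {1, t, s, t*s}` meets each coset, impossible in a group of order at least eight
      have hsub : ∀ g : G, g ∈ centralizer ({t} : Set G) → g = 1 ∨ g = t ∨ g = s ∨ g = t * s := by
        intro g hg
        have htA : t ∈ centralizer ({t} : Set G) := mem_centralizer_singleton_iff.2 rfl
        have hsA : s ∈ centralizer ({t} : Set G) :=
          mem_centralizer_singleton_iff.2 (mem_center_iff.1 hsc t).symm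
        by_contra hh
        simp only [not_or] at hh
        obtain ⟨g1, g2, g3, g4⟩ := hh
        let l : Fin 5 → centralizer ({t} : Set G) :=
          ![1, ⟨t, htA⟩, ⟨s, hsA⟩, ⟨t * s, mul_mem htA hsA⟩, ⟨g, hg⟩]
        have e1 : s ≠ 1 := fun h => hsN (h ▸ one_mem N)
        have e2 : t * s ≠ 1 := fun h => htsN (h ▸ one_mem N)
        have e3 : t ≠ s := fun h => e2 (by rw [← h, ht])
        have e4 : t * s ≠ t := fun h => e1 (mul_eq_left.1 h)
        have e5 : t * s ≠ s := fun h => ht1 (mul_eq_right.1 h)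
        have hl : Function.Injective l := by
          intro i j h
          fin_cases i <;> fin_cases j <;>
            simp [l, Subtype.ext_iff, e1, e2, e3, e4, e5, ht1, g1, g2, g3, g4, Ne.symm ht1, Ne.symm e1,
              Ne.symm e2, Ne.symm e3, Ne.symm e4, Ne.symm e5, Ne.symm g1, Ne.symm g2, Ne.symm g3,
              Ne.symm g4] at h ⊢
        have := Nat.card_le_card_of_injective l hl
        rw [Nat.card_fin] at this
        omega
      -- a central involution inside `N`
      haveI : Fact (Nat.Prime 2) := ⟨Nat.prime_two⟩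
      obtain ⟨w, hwN, hw1⟩ : ∃ w ∈ N, w ≠ 1 := (Subgroup.bot_or_exists_ne_one N).resolve_left hN1
      obtain ⟨K, -, -, hKN, hKcard, hcomm⟩ := Cfsg.Agent.H24.exists_normal_between (p := 2) hG
        (N := (⊥ : Subgroup G)) (M := N) bot_le (Ne.symm hN1)
      rw [Subgroup.card_bot, mul_one] at hKcard
      obtain ⟨v, hvK, hv1⟩ : ∃ v ∈ K, v ≠ 1 := (Subgroup.bot_or_exists_ne_one K).resolve_left
        fun h => by rw [h, Subgroup.card_bot] at hKcard; omega
      have hvc : v * t = t * v := by
        have h := hcomm (Subgroup.commutator_mem_commutator (Subgroup.mem_top t) hvK)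
        rw [Subgroup.mem_bot, commutatorElement_def, mul_inv_eq_one, mul_inv_eq_iff_eq_mul] at h
        exact h.symm
      rcases hsub v (mem_centralizer_singleton_iff.2 hvc) with h | h | h | h
      · exact hv1 h
      · exact htN (h ▸ hKN hvK)
      · exact hsN (h ▸ hKN hvK)
      · exact htsN (h ▸ hKN hvK)
    · have h2 : ({1, ⟨s, hsC'⟩, ⟨z, hzC z.2⟩} : Finset C) ⊆ Finset.univ.filter fun a : C => a ^ 2 = 1 := by
        intro a ha
        refine Finset.mem_filter.2 ⟨Finset.mem_univ _, ?_⟩
        simp only [Finset.mem_insert, Finset.mem_singleton] at ha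
        rcases ha with rfl | rfl | rfl
        · simp
        · exact Subtype.ext (by simpa [pow_two] using hs)
        · have hz2 : z ^ 2 = 1 := by rw [← hcen]; exact pow_card_eq_one'
          exact Subtype.ext (by simpa using congrArg Subtype.val hz2)
      have h3 := Finset.card_le_card h2
      rw [Finset.card_eq_three.2 ⟨1, ⟨s, hsC'⟩, ⟨z, hzC z.2⟩,
        fun h => hsN (by have e : (1 : G) = s := congrArg Subtype.val h; exact e ▸ one_mem N),
        fun h => hz1 (congrArg Subtype.val h).symm, fun h => hzs (congrArg Subtype.val h).symm, rfl⟩] at h3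
      omega
  have htsC : t * s ∈ C := (Subgroup.mul_mem_iff_of_index_two hCi).2 (by simp [htC, hsC])
  -- cosets
  have hq2 : ∀ g : G, g ^ 2 ∈ N → (QuotientGroup.mk' N g) * (QuotientGroup.mk' N g) = 1 := by
    intro g hg
    rw [← map_mul, ← pow_two, QuotientGroup.mk'_apply]
    exact (QuotientGroup.eq_one_iff _).2 hg
  obtain ⟨gC, hgC⟩ := IsCyclic.exists_generator (α := C)
  have hgen : ∀ c ∈ C, ∃ n : ℤ, (gC : G) ^ n = c := fun c hc => by
    obtain ⟨n, hn⟩ := hgC ⟨c, hc⟩
    exact ⟨n, congrArg Subtype.val hn⟩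
  have hts2 : (t * s) ^ 2 ∈ N := by
    have h4 : Nat.card (G ⧸ N) = 2 ^ 2 := by rw [← Subgroup.index_eq_card, hN]; rfl
    haveI : Fact (Nat.Prime 2) := ⟨Nat.prime_two⟩
    have hcomm := IsPGroup.commutative_of_card_eq_prime_sq h4
    rw [← QuotientGroup.eq_one_iff, ← QuotientGroup.mk'_apply, map_pow, map_mul, pow_two,
      mul_assoc, ← mul_assoc (QuotientGroup.mk' N s), hcomm (QuotientGroup.mk' N s),
      mul_assoc (QuotientGroup.mk' N t), ← mul_assoc, ← map_mul, ← map_mul, ht, hs, map_one,
      one_mul]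
  -- the image of `C` has order two
  have himg : ∀ c ∈ C, c ∈ N ∨ (t * s)⁻¹ * c ∈ N := by
    obtain ⟨m, hm⟩ := hgen _ htsC
    intro c hc
    obtain ⟨n, rfl⟩ := hgen c hc
    set q := QuotientGroup.mk' N (gC : G) with hq
    have hqm : q ^ m = QuotientGroup.mk' N (t * s) := by rw [hq, ← map_zpow, hm]
    have hq2' : q ^ 2 = 1 := by
      haveI : Fact (Nat.Prime 2) := ⟨Nat.prime_two⟩
      have h4 : Nat.card (G ⧸ N) = 4 := by rw [← Subgroup.index_eq_card, hN]
      have hord : orderOf q ∣ 4 := h4 ▸ orderOf_dvd_natCard q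
      have hle : orderOf q ≤ 4 := Nat.le_of_dvd (by norm_num) hord
      by_contra hne
      have h44 : orderOf q = 4 := by
        have hnd : ¬ orderOf q ∣ 2 := fun h => hne (orderOf_dvd_iff_pow_eq_one.1 h)
        interval_cases h : orderOf q <;> simp_all
      -- then `t` is a power of `q` of order two, equal to the image of `t*s`
      have htop : ∀ y : G ⧸ N, y ∈ zpowers q := by
        intro y
        have : zpowers q = ⊤ := Subgroup.eq_top_of_card_eq _ (by rw [Nat.card_zpowers, h44, h4])
        rw [this]; exact mem_top y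
      have hinv : ∀ y : G ⧸ N, y * y = 1 → y = 1 ∨ y = q ^ 2 := by
        intro y hy
        obtain ⟨i, rfl⟩ := htop y
        rw [← zpow_add, ← orderOf_dvd_iff_zpow_eq_one, h44] at hy
        have : i % 4 = 0 ∨ i % 4 = 2 := by omega
        rcases this with hi | hi
        · exact Or.inl (orderOf_dvd_iff_zpow_eq_one.1 (by rw [h44]; omega))
        · right
          have h' : q ^ (i - 2) = 1 := orderOf_dvd_iff_zpow_eq_one.1 (by rw [h44]; omega)
          rw [zpow_sub, mul_inv_eq_one] at h'
          exact_mod_cast h'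
      have a1 := (hinv (QuotientGroup.mk' N t) (by rw [← map_mul, ht, map_one])).resolve_left
        (fun h => htN ((QuotientGroup.eq_one_iff _).1 h))
      have a2 := (hinv (QuotientGroup.mk' N s) (by rw [← map_mul, hs, map_one])).resolve_left
        (fun h => hsN ((QuotientGroup.eq_one_iff _).1 h))
      refine htsN ((QuotientGroup.eq_one_iff _).1 ?_)
      show QuotientGroup.mk' N (t * s) = 1
      rw [map_mul, a1, a2, ← pow_add, ← orderOf_dvd_iff_pow_eq_one, h44]
    have hqn : ∀ i : ℤ, q ^ i = 1 ∨ q ^ i = q := by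
      intro i
      rcases Int.even_or_odd i with ⟨j, rfl⟩ | ⟨j, rfl⟩
      · left; rw [← two_mul, zpow_mul, zpow_two, ← pow_two, hq2', one_zpow]
      · right; rw [zpow_add, zpow_mul, zpow_two, ← pow_two, hq2', one_zpow, one_mul, zpow_one]
    rcases hqn n with h | h
    · left
      rw [← map_zpow] at h
      exact (QuotientGroup.eq_one_iff _).1 h
    · right
      refine (QuotientGroup.eq_one_iff _).1 ?_
      show QuotientGroup.mk' N ((t * s)⁻¹ * (gC : G) ^ n) = 1
      rcases hqn m with h' | h'
      · exact absurd ((QuotientGroup.eq_one_iff _).1 (hqm.symm.trans h')) htsN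
      · rw [map_mul, map_inv, map_zpow, h, ← hqm, h', inv_mul_cancel]
  have hNC : N ≤ C := by
    intro n hn
    by_contra hnC
    have hc : t * n ∈ C := (Subgroup.mul_mem_iff_of_index_two hCi).2 (by simp [htC, hnC])
    rcases himg _ hc with h | h
    · exact htN ((N.mul_mem_cancel_right hn).1 h)
    · refine hsN (inv_inv s ▸ N.inv_mem ?_)
      have : (t * s)⁻¹ * (t * n) = s⁻¹ * n := by group
      rw [this] at h
      exact (N.mul_mem_cancel_right hn).1 h
  have hxC : x ∈ C := by
    have := C.mul_mem htsC (hNC hx)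
    rwa [mul_inv_cancel_left] at this
  -- `C = ⟨x⟩` up to squares
  refine le_antisymm ?_ (zpowers_le.2 ?_)
  · intro n hn
    obtain ⟨i, hi⟩ := hgen x hxC
    obtain ⟨j, hj⟩ := hgen n (hNC hn)
    have hxN : x ∉ N := fun h => htsN (inv_inv (t * s) ▸ N.inv_mem ((N.mul_mem_cancel_right h).1 hx))
    have hgN : (gC : G) ∉ N := fun h => hxN (hi ▸ zpow_mem h i)
    have hg2 : (gC : G) ^ (2 : ℤ) ∈ N := by
      rcases himg _ gC.2 with h | h
      · exact absurd h hgN
      · have e : (QuotientGroup.mk' N) (gC : G) = QuotientGroup.mk' N (t * s) := by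
          simpa using (QuotientGroup.eq.2 h).symm
        rw [← QuotientGroup.eq_one_iff, ← QuotientGroup.mk'_apply, map_zpow, e, zpow_two, ← pow_two,
          ← map_pow, QuotientGroup.mk'_apply]
        exact (QuotientGroup.eq_one_iff _).2 hts2
    have hje : Even j := by
      rcases Int.even_or_odd j with h | ⟨l, rfl⟩
      · exact h
      · exfalso
        rw [← hj, zpow_add, zpow_one, zpow_mul] at hn
        exact hgN ((N.mul_mem_cancel_left (zpow_mem hg2 l)).1 hn)
    have hio : Odd i := by
      rcases Int.even_or_odd i with ⟨l, rfl⟩ | h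
      · exfalso
        rw [← two_mul, zpow_mul] at hi
        exact hxN (hi ▸ zpow_mem hg2 l)
      · exact h
    -- `gC` lies in `⟨x⟩`, as `i` is prime to the order
    obtain ⟨k, hk⟩ := hG gC
    have hcop : IsCoprime i ((2 : ℤ) ^ k) := by
      refine IsCoprime.pow_right ?_
      obtain ⟨l, rfl⟩ := hio
      exact ⟨1, -l, by ring⟩
    obtain ⟨a, b, hab⟩ := hcop
    obtain ⟨l, rfl⟩ := hje
    refine ⟨a * l, ?_⟩
    show (x ^ 2) ^ (a * l) = n
    rw [← hj, ← hi, ← zpow_natCast, ← zpow_mul, ← zpow_mul]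
    have e : i * (((2 : ℕ) : ℤ) * (a * l)) = (l + l) + (((2 : ℤ) ^ k) * (-(2 * b * l))) := by
      push_cast
      linear_combination (2 * l) * hab
    rw [e, zpow_add, zpow_mul]
    have hk' : (gC : G) ^ ((2 : ℤ) ^ k) = 1 := by
      have : (gC : G) ^ (((2 ^ k : ℕ)) : ℤ) = 1 := by rw [zpow_natCast]; exact hk
      exact_mod_cast this
    rw [hk', one_zpow, mul_one]
  · have e : QuotientGroup.mk' N x = QuotientGroup.mk' N (t * s) := by
      simpa using (QuotientGroup.eq.2 hx).symm
    rw [← QuotientGroup.eq_one_iff, ← QuotientGroup.mk'_apply, map_pow, e, ← map_pow,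
      QuotientGroup.mk'_apply]
    exact (QuotientGroup.eq_one_iff _).2 hts2

end Cfsg.Agent.H81.SelfEight
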