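import Cfsg.Agent.H81.SelfEight.Setup
import Cfsg.Agent.H81.SelfEight.MaxClass

/-!
Shared facts on the configuration: the central element, centralisers in the quotient by `W`.
-/

set_option autoImplicit false
set_option linter.unusedSectionVars false

namespace Cfsg.Agent.H81.SelfEight

open Subgroup
open Cfsg.Agent.H81.MacW (sqSub sq_mem_sqSub comm_mem_sqSub card_split card_pow_two)

variable {S : Type*} [Group S] [Finite S]

theorem sqSub_map {Q : Type*} [Group Q] (f : S →* Q) (H : Subgroup S) :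
    sqSub (H.map f) = (sqSub H).map f := by
  unfold Cfsg.Agent.H81.MacW.sqSub
  rw [MonoidHom.map_closure, Subgroup.coe_map, Set.image_image, Set.image_image]
  congr 1
  exact Set.image_congr fun x _ => (map_pow f x 2).symm

theorem sqSub_subgroupOf (X : Subgroup S) (K : Subgroup X) :
    Nat.card (sqSub K) = Nat.card (sqSub (K.map X.subtype)) := by
  rw [sqSub_map, card_map_of_injective X.subtype_injective]

/-- Combining the bounds along a homomorphism. -/
theorem bound_of {Q : Type*} [Group Q] (f : S →* Q) {N : Subgroup S} (hN : f.ker = N) (H : Subgroup S)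
    (a b : ℕ) (hab : a * b ≤ 16)
    (h1 : Nat.card (H ⊓ N : Subgroup S) ≤ a * Nat.card (sqSub H ⊓ N : Subgroup S))
    (h2 : Nat.card (H.map f) ≤ b * Nat.card ((sqSub H).map f)) :
    Nat.card H ≤ 2 ^ 4 * Nat.card (sqSub H) := by
  rw [card_split f H, card_split f (sqSub H), hN]
  refine (Nat.mul_le_mul h1 h2).trans ?_
  calc a * Nat.card (sqSub H ⊓ N : Subgroup S) * (b * Nat.card ((sqSub H).map f))
      = a * b * (Nat.card (sqSub H ⊓ N : Subgroup S) * Nat.card ((sqSub H).map f)) := by ring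
    _ ≤ 2 ^ 4 * _ := Nat.mul_le_mul_right _ hab

theorem two_le_card {K : Subgroup S} {x : S} (hx : x ∈ K) (hx1 : x ≠ 1) : 2 ≤ Nat.card K :=
  (Subgroup.one_lt_card_iff_ne_bot K).2 fun h => hx1 (mem_bot.1 (h ▸ hx))

namespace Data

variable (d : Data S)

/-- The fixed four-group. -/
abbrev U : Subgroup S := d.W ⊓ centralizer ({d.a} : Set S)

/-- The centraliser of `W`. -/
abbrev L : Subgroup S := centralizer (d.W : Set S)

/-- The centraliser of `U`. -/
abbrev X : Subgroup S := centralizer (d.U : Set S)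

instance W_normal : d.W.Normal := d.hWn

theorem conj_W (x : S) {w : S} (hw : w ∈ d.W) : x * w * x⁻¹ ∈ d.W := d.hWn.conj_mem w hw x

theorem inv_W {w : S} (hw : w ∈ d.W) : w⁻¹ = w := inv_eq_of_mul_eq_one_right (d.hW2 w hw)

theorem inv_a : d.a⁻¹ = d.a := inv_eq_of_mul_eq_one_right d.ha

theorem mem_U {w : S} : w ∈ d.U ↔ w ∈ d.W ∧ w * d.a = d.a * w := by
  rw [mem_inf, mem_centralizer_singleton_iff]

theorem mem_L {x : S} : x ∈ d.L ↔ ∀ w ∈ d.W, w * x = x * w := mem_centralizer_iff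

theorem mem_X {x : S} : x ∈ d.X ↔ ∀ u ∈ d.U, u * x = x * u := mem_centralizer_iff

theorem L_fix {x w : S} (hx : x ∈ d.L) (hw : w ∈ d.W) : x * w * x⁻¹ = w := by
  rw [← d.mem_L.1 hx w hw, mul_inv_cancel_right]

theorem X_fix {x w : S} (hx : x ∈ d.X) (hw : w ∈ d.U) : x * w * x⁻¹ = w := by
  rw [← d.mem_X.1 hx w hw, mul_inv_cancel_right]

theorem W_le_L : d.W ≤ d.L := fun w hw => d.mem_L.2 fun v hv => d.hWc v hv w hw

theorem L_le_X : d.L ≤ d.X := fun _ hx => d.mem_X.2 fun u hu => d.mem_L.1 hx u hu.1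

theorem a_mem_X : d.a ∈ d.X := d.mem_X.2 fun _ hu => (d.mem_U.1 hu).2

instance L_normal : d.L.Normal := ⟨fun x hx g => d.mem_L.2 fun w hw => by
  have h := d.mem_L.1 hx _ (d.conj_W g⁻¹ hw)
  rw [inv_inv] at h
  calc w * (g * x * g⁻¹) = g * (g⁻¹ * w * g * x) * g⁻¹ := by group
    _ = g * (x * (g⁻¹ * w * g)) * g⁻¹ := by rw [h]
    _ = g * x * g⁻¹ * w := by group⟩

theorem card_W_gt : 4 < Nat.card d.W := by rcases d.hWcard with h | h <;> omega

theorem a_not_L : d.a ∉ d.L := fun h => by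
  have hle : d.W ≤ d.U := fun w hw => d.mem_U.2 ⟨hw, d.mem_L.1 h w hw⟩
  have h1 := card_le_of_le hle
  have h2 := d.hU
  have h3 := d.card_W_gt
  change Nat.card d.U = 4 at h2
  omega

/-- The map to the quotient by `W`. -/
abbrev qW : S →* S ⧸ d.W := QuotientGroup.mk' d.W

/-- The map to the quotient by `L`. -/
abbrev qL : S →* S ⧸ d.L := QuotientGroup.mk' d.L

theorem qW_one {x : S} : d.qW x = 1 ↔ x ∈ d.W := QuotientGroup.eq_one_iff x

theorem qL_one {x : S} : d.qL x = 1 ↔ x ∈ d.L := QuotientGroup.eq_one_iff x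

theorem qW_eq {x y : S} : d.qW x = d.qW y ↔ x⁻¹ * y ∈ d.W := QuotientGroup.eq

theorem qW_a_ne : d.qW d.a ≠ 1 := fun h => d.a_not_L (d.W_le_L (d.qW_one.1 h))

theorem qW_a_sq : d.qW d.a * d.qW d.a = 1 := by rw [← map_mul, d.ha, map_one]

/-- `U = {1, z, u, z u}` with `z` central in `S`. -/
theorem exists_basis : ∃ z u : S, z ∈ d.U ∧ u ∈ d.U ∧ z ≠ 1 ∧ u ≠ 1 ∧ u ≠ z ∧
    (∀ g : S, g * z * g⁻¹ = z) ∧ ∀ v ∈ d.U, v = 1 ∨ v = z ∨ v = u ∨ v = z * u := by
  haveI : Fact (Nat.Prime 2) := ⟨Nat.prime_two⟩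
  have hne : (⊥ : Subgroup S) ≠ d.W := fun h => by
    have h3 := d.card_W_gt
    rw [← h, card_bot] at h3
    omega
  obtain ⟨K, -, -, hKW, hKcard, hcomm⟩ :=
    Cfsg.Agent.H24.exists_normal_between (p := 2) d.hP bot_le hne
  rw [card_bot, mul_one] at hKcard
  obtain ⟨z, hz, hz1⟩ : ∃ v ∈ K, v ≠ 1 := (Subgroup.bot_or_exists_ne_one K).resolve_left
    fun h => by rw [h, card_bot] at hKcard; omega
  have hfix : ∀ g : S, g * z * g⁻¹ = z := fun g => by
    have h := hcomm (commutator_mem_commutator (mem_top g) hz)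
    rwa [mem_bot, commutatorElement_def, mul_inv_eq_one] at h
  have hzU : z ∈ d.U := d.mem_U.2 ⟨hKW hz, (mul_inv_eq_iff_eq_mul.1 (hfix d.a)).symm⟩
  have hU4 : Nat.card d.U = 4 := d.hU
  obtain ⟨u, hu, hu1, huz⟩ : ∃ u ∈ d.U, u ≠ 1 ∧ u ≠ z := by
    by_contra hh
    simp only [not_exists, not_and, not_not] at hh
    have : d.U ≤ K := fun v hv => by
      by_cases h1 : v = 1
      · rw [h1]; exact one_mem K
      · rw [hh v hv h1]; exact hz
    have := card_le_of_le this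
    omega
  refine ⟨z, u, hzU, hu, hz1, hu1, huz, hfix, fun v hv => ?_⟩
  by_contra hh
  simp only [not_or] at hh
  obtain ⟨h1, h2, h3, h4⟩ := hh
  have n1 : z * u ≠ 1 := fun h => huz (mul_left_cancel (h.trans (d.hW2 z hzU.1).symm))
  have n2 : z * u ≠ z := fun h => hu1 (mul_eq_left.1 h)
  have n3 : z * u ≠ u := fun h => hz1 (mul_eq_right.1 h)
  let l : Fin 5 → d.U := ![1, ⟨z, hzU⟩, ⟨u, hu⟩, ⟨z * u, mul_mem hzU hu⟩, ⟨v, hv⟩]
  have hl : Function.Injective l := by
    intro i j h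
    fin_cases i <;> fin_cases j <;>
      simp [l, Subtype.ext_iff, hz1, hu1, huz, h1, h2, h3, h4, n1, n2, n3, Ne.symm hz1, Ne.symm hu1,
        Ne.symm huz, Ne.symm h1, Ne.symm h2, Ne.symm h3, Ne.symm h4, Ne.symm n1, Ne.symm n2,
        Ne.symm n3] at h ⊢
  have := Nat.card_le_card_of_injective l hl
  rw [Nat.card_fin] at this
  omega

/-- The displacement of `a` under conjugation. -/
theorem delta_mem {x : S} (h : x * d.a * x⁻¹ * d.a ∈ d.W) : x * d.a * x⁻¹ * d.a ∈ d.U := by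
  refine d.mem_U.2 ⟨h, ?_⟩
  set e := x * d.a * x⁻¹ * d.a with he
  have hy : (e * d.a) * (e * d.a) = 1 := by
    rw [he, show x * d.a * x⁻¹ * d.a * d.a = x * d.a * x⁻¹ * (d.a * d.a) by group, d.ha, mul_one,
      show x * d.a * x⁻¹ * (x * d.a * x⁻¹) = x * (d.a * d.a) * x⁻¹ by group, d.ha, mul_one, mul_inv_cancel]
  calc e * d.a = (e * d.a)⁻¹ := (inv_eq_of_mul_eq_one_right hy).symm
    _ = d.a * e := by rw [mul_inv_rev, d.inv_a, d.inv_W h]

theorem delta_of_comm {x : S} (h : d.qW x * d.qW d.a = d.qW d.a * d.qW x) :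
    x * d.a * x⁻¹ * d.a ∈ d.U := by
  refine d.delta_mem (d.qW_one.1 ?_)
  rw [map_mul, map_mul, map_mul, h, map_inv, mul_inv_cancel_right, d.qW_a_sq]

theorem delta_one {x : S} (h : x * d.a * x⁻¹ * d.a = 1) : x * d.a = d.a * x := by
  have := eq_inv_of_mul_eq_one_left h
  rw [d.inv_a, mul_inv_eq_iff_eq_mul] at this
  exact this

theorem fix_a {x : S} (hx : x ∈ d.X) (h : x * d.a = d.a * x) : x ∈ d.U ∨ x * d.a ∈ d.U :=
  d.hcent x h fun u hu => (d.mem_X.1 hx u hu).symm

/-- The image of `X` in the quotient by `W`. -/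
abbrev Xb : Subgroup (S ⧸ d.W) := d.X.map d.qW

/-- The image of `a` in the image of `X`. -/
abbrev ab : d.Xb := ⟨d.qW d.a, d.a, d.a_mem_X, rfl⟩

theorem ab_sq : d.ab * d.ab = 1 := Subtype.ext d.qW_a_sq

theorem ab_ne : d.ab ≠ 1 := fun h => d.qW_a_ne (congrArg Subtype.val h)

theorem Xb_pgroup : IsPGroup 2 d.Xb := (d.hP.to_quotient d.W).to_subgroup _

theorem card_cent_Xb : Nat.card (centralizer ({d.ab} : Set d.Xb)) ≤ 4 := by
  classical
  obtain ⟨z, u, hz, hu, -, -, -, -, hall⟩ := d.exists_basis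
  -- the preimage
  set M := d.X ⊓ (centralizer ({d.qW d.a} : Set (S ⧸ d.W))).comap d.qW with hM
  have hWM : d.W ≤ M := fun w hw => ⟨d.L_le_X (d.W_le_L hw), by
    show d.qW w ∈ centralizer ({d.qW d.a} : Set (S ⧸ d.W))
    rw [mem_centralizer_singleton_iff, d.qW_one.2 hw, one_mul, mul_one]⟩
  have hδ : ∀ x ∈ M, x * d.a * x⁻¹ * d.a ∈ d.U := fun x hx =>
    d.delta_of_comm (mem_centralizer_singleton_iff.1 (mem_comap.1 hx.2))
  let g : M →* d.U :=
    { toFun := fun x => ⟨(x : S) * d.a * (x : S)⁻¹ * d.a, hδ x x.2⟩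
      map_one' := by ext; simp [d.ha]
      map_mul' := fun x y => by
        refine Subtype.ext ?_
        show (x : S) * y * d.a * ((x : S) * y)⁻¹ * d.a
          = (x : S) * d.a * (x : S)⁻¹ * d.a * ((y : S) * d.a * (y : S)⁻¹ * d.a)
        have hy := hδ y y.2
        rw [d.hWc _ (hδ x x.2).1 _ hy.1]
        have hc := d.mem_X.1 x.2.1 _ hy
        calc (x : S) * y * d.a * ((x : S) * y)⁻¹ * d.a
            = (x : S) * ((y : S) * d.a * (y : S)⁻¹ * (d.a * d.a)) * (x : S)⁻¹ * d.a := by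
              rw [d.ha]; group
          _ = (x : S) * ((y : S) * d.a * (y : S)⁻¹ * d.a) * d.a * (x : S)⁻¹ * d.a := by group
          _ = ((y : S) * d.a * (y : S)⁻¹ * d.a) * (x : S) * d.a * (x : S)⁻¹ * d.a := by rw [← hc]
          _ = _ := by group }
  have hker : Nat.card g.ker ≤ 8 := by
    let f : g.ker → Bool × d.U := fun x =>
      if h : ((x : M) : S) ∈ d.U then (false, ⟨_, h⟩)
      else (true, ⟨((x : M) : S) * d.a, ((d.fix_a (x : M).2.1 (d.delta_one (congrArg Subtype.val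
        (MonoidHom.mem_ker.1 x.2)))).resolve_left h)⟩)
    have hf : Function.Injective f := by
      intro x y h
      by_cases hx : ((x : M) : S) ∈ d.U <;> by_cases hy : ((y : M) : S) ∈ d.U
      · simp only [f, dif_pos hx, dif_pos hy] at h
        exact Subtype.ext (Subtype.ext (congrArg (fun q : Bool × d.U => (q.2 : S)) h))
      · simp only [f, dif_pos hx, dif_neg hy] at h
        exact absurd (congrArg (fun q : Bool × d.U => q.1) h) (show false ≠ true by decide)
      · simp only [f, dif_neg hx, dif_pos hy] at h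
        exact absurd (congrArg (fun q : Bool × d.U => q.1) h) (show true ≠ false by decide)
      · simp only [f, dif_neg hx, dif_neg hy] at h
        exact Subtype.ext (Subtype.ext (mul_right_cancel (congrArg (fun q : Bool × d.U => (q.2 : S)) h)))
    have := Nat.card_le_card_of_injective f hf
    have hU4 : Nat.card d.U = 4 := d.hU
    rw [Nat.card_prod, Nat.card_eq_fintype_card (α := Bool), Fintype.card_bool, hU4] at this
    omega
  have hMcard : Nat.card M ≤ 32 := by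
    rw [card_eq_card_quotient_mul_card_subgroup g.ker,
      Nat.card_congr (QuotientGroup.quotientKerEquivRange g).toEquiv]
    have h1 := g.range.card_le_card_group
    have hU4 : Nat.card d.U = 4 := d.hU
    have := Nat.mul_le_mul h1 hker
    omega
  have hsplit := card_split d.qW M
  rw [QuotientGroup.ker_mk', inf_eq_right.2 hWM] at hsplit
  have hle : Nat.card (centralizer ({d.ab} : Set d.Xb)) ≤ Nat.card (M.map d.qW) := by
    refine Nat.card_le_card_of_injective (fun x => (⟨((x : d.Xb) : S ⧸ d.W), ?_⟩ : M.map d.qW))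
      (fun x y h => Subtype.ext (Subtype.ext (congrArg (fun q : M.map d.qW => (q : S ⧸ d.W)) h)))
    obtain ⟨y, hy, e⟩ := (x : d.Xb).2
    refine ⟨y, ⟨hy, ?_⟩, e⟩
    show d.qW y ∈ centralizer ({d.qW d.a} : Set (S ⧸ d.W))
    rw [mem_centralizer_singleton_iff, e]
    exact congrArg Subtype.val (mem_centralizer_singleton_iff.1 x.2)
  have h8 : 8 ≤ Nat.card d.W := by rcases d.hWcard with h | h <;> omega
  have := Nat.mul_le_mul_right (Nat.card (M.map d.qW)) h8
  omega

/-- Subgroups inside `X`: the bound above `W`. -/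
theorem X_sq_bound {H : Subgroup S} (hH : H ≤ d.X) :
    Nat.card (H.map d.qW) ≤ 4 * Nat.card ((sqSub H).map d.qW) := by
  have h := sq_bound d.Xb_pgroup d.ab_sq d.ab_ne d.card_cent_Xb ((H.map d.qW).subgroupOf d.Xb)
  rwa [sqSub_subgroupOf, map_subgroupOf_eq_of_le (map_mono hH), sqSub_map,
    Nat.card_congr (subgroupOfEquivOfLe (map_mono hH)).toEquiv] at h

theorem X_central_mem {H : Subgroup S} (hH : H ≤ d.X)
    (h2 : 2 * Nat.card ((sqSub H).map d.qW) < Nat.card (H.map d.qW)) {c : S} (hc : c ∈ d.X)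
    (hcc : ∀ g ∈ d.X, d.qW g * d.qW c = d.qW c * d.qW g) (hc2 : c * c ∈ d.W) :
    ∃ g ∈ H, c⁻¹ * g ∈ d.W := by
  have hcen : (⟨d.qW c, c, hc, rfl⟩ : d.Xb) ∈ center d.Xb := mem_center_iff.2 fun q => by
    obtain ⟨g, hg, e⟩ := q.2
    refine Subtype.ext ?_
    show (q : S ⧸ d.W) * d.qW c = d.qW c * q
    rw [← e]; exact hcc g hg
  have hsq : (⟨d.qW c, c, hc, rfl⟩ : d.Xb) * ⟨d.qW c, c, hc, rfl⟩ = 1 :=
    Subtype.ext (by show d.qW c * d.qW c = 1; rw [← map_mul]; exact d.qW_one.2 hc2)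
  have h := central_mem d.Xb_pgroup d.ab_sq d.ab_ne d.card_cent_Xb
    (K := (H.map d.qW).subgroupOf d.Xb) (by
      rwa [sqSub_subgroupOf, map_subgroupOf_eq_of_le (map_mono hH), sqSub_map,
        Nat.card_congr (subgroupOfEquivOfLe (map_mono hH)).toEquiv]) hcen hsq
  obtain ⟨g, hg, e⟩ := mem_subgroupOf.1 h
  exact ⟨g, hg, d.qW_eq.1 e.symm⟩

/-- A commutator with an element of `W`. -/
theorem move_mem {H : Subgroup S} {w x : S} (hw : w ∈ H) (hwW : w ∈ d.W) (hx : x ∈ H) :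
    x * w * x⁻¹ * w ∈ sqSub H ⊓ d.W := by
  refine ⟨?_, mul_mem (d.conj_W x hwW) hwW⟩
  have h := comm_mem_sqSub (H := H) (inv_mem hx) (inv_mem hw)
  rw [inv_inv, inv_inv] at h
  rw [d.inv_W hwW] at h
  exact h

theorem two_le_of_moved {H : Subgroup S} {x : S} (hW : d.W ≤ H) (hx : x ∈ H) (hxL : x ∉ d.L) :
    2 ≤ Nat.card (sqSub H ⊓ d.W : Subgroup S) := by
  obtain ⟨w, hw, hne⟩ : ∃ w ∈ d.W, w * x ≠ x * w := by
    by_contra hh
    push Not at hh
    exact hxL (d.mem_L.2 hh)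
  refine two_le_card (d.move_mem (hW hw) hw hx) fun h => hne ?_
  rw [mul_eq_one_iff_eq_inv, d.inv_W hw, mul_inv_eq_iff_eq_mul] at h
  exact h.symm

end Data

end Cfsg.Agent.H81.SelfEight
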