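import Cfsg.Agent.H81.MacW.Frat
import Cfsg.Agent.H24.PGroupBasic

/-!
An involution `a` acting on a maximal normal elementary abelian `W` with four fixed points, such
that `⟨C_W(a), a⟩` is self-centralising.
-/

set_option autoImplicit false
set_option linter.unusedSectionVars false

namespace Cfsg.Agent.H81.SelfEight

open Subgroup
open Cfsg.Agent.H81.MacW (sqSub sq_mem_sqSub comm_mem_sqSub card_split card_pow_two)

variable {S : Type*} [Group S] [Finite S]

/-- The configuration. -/
structure Data (S : Type*) [Group S] where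
  hP : IsPGroup 2 S
  W : Subgroup S
  hWn : W.Normal
  hWc : ∀ x ∈ W, ∀ y ∈ W, x * y = y * x
  hW2 : ∀ x ∈ W, x * x = 1
  hmax : ∀ B : Subgroup S, B.Normal → IsMulCommutative B → (∀ x ∈ B, x ^ 2 = 1) → W ≤ B → B = W
  a : S
  ha : a * a = 1
  hU : Nat.card (W ⊓ centralizer ({a} : Set S) : Subgroup S) = 4
  hWcard : Nat.card W = 8 ∨ Nat.card W = 16
  hcent : ∀ x : S, x * a = a * x →
    (∀ u ∈ W ⊓ centralizer ({a} : Set S), x * u = u * x) →
      x ∈ W ⊓ centralizer ({a} : Set S) ∨ x * a ∈ W ⊓ centralizer ({a} : Set S)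

/-- An involution normalising an elementary abelian subgroup fixes at least the square root. -/
theorem card_le_fix_sq (M : Subgroup S) (hMc : ∀ x ∈ M, ∀ y ∈ M, x * y = y * x)
    (hM2 : ∀ x ∈ M, x * x = 1) {t : S} (ht : t * t = 1) (hMt : ∀ x ∈ M, t * x * t⁻¹ ∈ M) :
    Nat.card M ≤ Nat.card (M ⊓ centralizer ({t} : Set S) : Subgroup S) *
      Nat.card (M ⊓ centralizer ({t} : Set S) : Subgroup S) := by
  let g : M →* M :=
    { toFun := fun x => ⟨(x : S) * (t * x * t⁻¹), mul_mem x.2 (hMt x x.2)⟩
      map_one' := by ext; simp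
      map_mul' := fun x y => by
        refine Subtype.ext ?_
        show (x : S) * y * (t * ((x : S) * y) * t⁻¹) = (x : S) * (t * x * t⁻¹) * ((y : S) * (t * y * t⁻¹))
        rw [show t * ((x : S) * y) * t⁻¹ = t * x * t⁻¹ * (t * y * t⁻¹) by group]
        have h := hMc _ (hMt x x.2) _ y.2
        calc (x : S) * y * (t * x * t⁻¹ * (t * y * t⁻¹))
            = (x : S) * ((y : S) * (t * x * t⁻¹)) * (t * y * t⁻¹) := by simp only [mul_assoc]
          _ = (x : S) * ((t * x * t⁻¹) * (y : S)) * (t * y * t⁻¹) := by rw [h]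
          _ = _ := by simp only [mul_assoc] }
  have hinv : ∀ x ∈ M, x⁻¹ = x := fun x hx => inv_eq_of_mul_eq_one_right (hM2 x hx)
  have hfix : ∀ x : S, x ∈ M → t * x * t⁻¹ = x → x ∈ M ⊓ centralizer ({t} : Set S) := fun x hx h =>
    ⟨hx, mem_centralizer_singleton_iff.2 (mul_inv_eq_iff_eq_mul.1 h).symm⟩
  have h1 : Nat.card g.ker ≤ Nat.card (M ⊓ centralizer ({t} : Set S) : Subgroup S) := by
    refine Nat.card_le_card_of_injective
      (fun x : g.ker => (⟨((x : M) : S), hfix _ (x : M).2 ?_⟩ :
        (M ⊓ centralizer ({t} : Set S) : Subgroup S)))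
      (fun x y h => Subtype.ext (Subtype.ext (congrArg
        (fun v : (M ⊓ centralizer ({t} : Set S) : Subgroup S) => (v : S)) h)))
    have h := congrArg Subtype.val (MonoidHom.mem_ker.1 x.2)
    change ((x : M) : S) * (t * ((x : M) : S) * t⁻¹) = 1 at h
    rw [eq_inv_of_mul_eq_one_right h, hinv _ (x : M).2]
  have h2 : Nat.card g.range ≤ Nat.card (M ⊓ centralizer ({t} : Set S) : Subgroup S) := by
    refine Nat.card_le_card_of_injective
      (fun x : g.range => (⟨((x : M) : S), hfix _ (x : M).2 ?_⟩ :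
        (M ⊓ centralizer ({t} : Set S) : Subgroup S)))
      (fun x y h => Subtype.ext (Subtype.ext (congrArg
        (fun v : (M ⊓ centralizer ({t} : Set S) : Subgroup S) => (v : S)) h)))
    obtain ⟨w, hw⟩ := x.2
    rw [← hw]
    show t * ((w : S) * (t * w * t⁻¹)) * t⁻¹ = (w : S) * (t * w * t⁻¹)
    have ti : t⁻¹ = t := inv_eq_of_mul_eq_one_right ht
    rw [show t * ((w : S) * (t * w * t⁻¹)) * t⁻¹ = t * w * t⁻¹ * ((t * t) * w * (t * t)⁻¹) by
      rw [mul_inv_rev]; group, ht, one_mul, inv_one, mul_one, hMc _ (hMt w w.2) _ w.2]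
  rw [card_eq_card_quotient_mul_card_subgroup g.ker,
    Nat.card_congr (QuotientGroup.quotientKerEquivRange g).toEquiv]
  exact Nat.mul_le_mul h2 h1

/-- A subgroup `B` of index two in an elementary abelian group of order eight. -/
theorem adjoin_mem (B : Subgroup S) {t : S} (htt : t * t = 1) (hBt : ∀ x ∈ B, x * t = t * x) :
    ∃ B' : Subgroup S, (∀ x, x ∈ B' ↔ x ∈ B ∨ x * t ∈ B) := by
  refine ⟨{ carrier := {x | x ∈ B ∨ x * t ∈ B}
            one_mem' := Or.inl B.one_mem
            mul_mem' := ?_
            inv_mem' := ?_ }, fun x => Iff.rfl⟩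
  · rintro x y (hx | hx) (hy | hy)
    · exact Or.inl (mul_mem hx hy)
    · exact Or.inr (by rw [mul_assoc]; exact mul_mem hx hy)
    · refine Or.inr ?_
      rw [mul_assoc, hBt y hy, ← mul_assoc]
      exact mul_mem hx hy
    · refine Or.inl ?_
      have h := mul_mem hx hy
      rwa [mul_assoc x t, ← mul_assoc t y t, mul_assoc t y, ← hBt _ hy, mul_assoc y t t, htt, mul_one] at h
  · rintro x (hx | hx)
    · exact Or.inl (inv_mem hx)
    · refine Or.inr ?_
      have h := inv_mem hx
      rw [mul_inv_rev, inv_eq_of_mul_eq_one_right htt] at h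
      have e : x⁻¹ * t = t * (t * x⁻¹) * t := by rw [← mul_assoc, htt, one_mul]
      rw [e, ← hBt _ h, mul_assoc, htt, mul_one]
      exact h

/-- The configuration exists unless the theorem is immediate. -/
theorem exists_data (hP : IsPGroup 2 S) (A : Subgroup S) (hAc : ∀ x ∈ A, ∀ y ∈ A, x * y = y * x)
    (hA2 : ∀ x ∈ A, x * x = 1) (hA8 : Nat.card A = 8) (hC : centralizer (A : Set S) = A)
    (W : Subgroup S) (hWn : W.Normal) (hWc : ∀ x ∈ W, ∀ y ∈ W, x * y = y * x)
    (hW2 : ∀ x ∈ W, x * x = 1) (hW8 : 4 < Nat.card W)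
    (hmax : ∀ B : Subgroup S, B.Normal → IsMulCommutative B → (∀ x ∈ B, x ^ 2 = 1) → W ≤ B → B = W)
    (hWA : ¬ W ≤ A) : Nonempty (Data S) := by
  classical
  haveI : Fact (Nat.Prime 2) := ⟨Nat.prime_two⟩
  have hinvA : ∀ x ∈ A, x⁻¹ = x := fun x hx => inv_eq_of_mul_eq_one_right (hA2 x hx)
  have hWt : ∀ (t : S), ∀ x ∈ W, t * x * t⁻¹ ∈ W := fun t x hx => hWn.conj_mem x hx t
  have memA : ∀ x : S, (∀ y ∈ A, x * y = y * x) → x ∈ A := fun x h =>
    hC ▸ mem_centralizer_iff.2 fun y hy => (h y hy).symm
  obtain ⟨m, hm⟩ := card_pow_two hP W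
  have hWdata : ∀ t : S, t * t = 1 →
      Nat.card (W ⊓ centralizer ({t} : Set S) : Subgroup S) = 4 →
        Nat.card W = 8 ∨ Nat.card W = 16 := by
    intro t ht h4
    have h := card_le_fix_sq W hWc hW2 ht (hWt t)
    rw [h4] at h
    rw [hm] at hW8 h ⊢
    rcases m with _ | _ | _ | _ | _ | m
    · norm_num at hW8
    · norm_num at hW8
    · norm_num at hW8
    · exact Or.inl rfl
    · exact Or.inr rfl
    · rw [pow_succ, pow_succ, pow_succ, pow_succ, pow_succ] at h
      have := Nat.one_le_two_pow (n := m)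
      omega
  set U0 := W ⊓ A with hU0
  obtain ⟨n, hn⟩ := card_pow_two hP U0
  have hU0lt : Nat.card U0 < 8 := by
    by_contra hh
    have : U0 = A := eq_of_le_of_card_ge inf_le_right (by omega)
    exact hWA fun w hw => memA w fun y hy => hWc w hw y (this.symm ▸ hy : y ∈ U0).1
  -- three further elements in general position
  have hgen : ∀ B : Subgroup S, B ≤ A → Nat.card B = 4 → ∀ b' ∈ A, b' ∉ B →
      ∀ x ∈ A, x ∈ B ∨ x * b' ∈ B := by
    intro B hBA hB b' hb' hb'B x hx
    have hi : (B.subgroupOf A).index = 2 := by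
      have h := index_mul_card (B.subgroupOf A)
      rw [Nat.card_congr (subgroupOfEquivOfLe hBA).toEquiv, hB, hA8] at h
      omega
    by_cases hxB : x ∈ B
    · exact Or.inl hxB
    · refine Or.inr ?_
      have := (mul_mem_iff_of_index_two hi (a := (⟨x, hx⟩ : A)) (b := ⟨b', hb'⟩)).2
        (by simp [mem_subgroupOf, hxB, hb'B])
      simpa [mem_subgroupOf] using this
  have hcentA : ∀ B : Subgroup S, B ≤ A → Nat.card B = 4 → ∀ b' ∈ A, b' ∉ B →
      ∀ y : S, (∀ v ∈ B, y * v = v * y) → y * b' = b' * y → y ∈ A := by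
    intro B hBA hB b' hb' hb'B y hy hy'
    refine memA y fun v hv => ?_
    rcases hgen B hBA hB b' hb' hb'B v hv with h | h
    · exact hy v h
    · have e : v = v * b' * b' := by rw [mul_assoc, hA2 b' hb', mul_one]
      rw [e]
      calc y * (v * b' * b') = y * (v * b') * b' := by group
        _ = v * b' * y * b' := by rw [hy _ h]
        _ = v * b' * b' * y := by rw [mul_assoc (v * b'), hy', ← mul_assoc]
  by_cases h4 : Nat.card U0 = 4
  · -- type I
    obtain ⟨a, haA, haU⟩ : ∃ a ∈ A, a ∉ U0 := by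
      by_contra hh
      push Not at hh
      have := card_le_of_le (show A ≤ U0 from hh)
      omega
    have hfix : W ⊓ centralizer ({a} : Set S) = U0 := by
      refine le_antisymm (fun w hw => ⟨hw.1, hcentA U0 inf_le_right h4 a haA haU w
        (fun v hv => hWc w hw.1 v hv.1) (mem_centralizer_singleton_iff.1 hw.2)⟩) fun w hw => ⟨hw.1,
        mem_centralizer_singleton_iff.2 (hAc w hw.2 a haA)⟩
    refine ⟨⟨hP, W, hWn, hWc, hW2, hmax, a, hA2 a haA, by rw [hfix]; exact h4,
      hWdata a (hA2 a haA) (by rw [hfix]; exact h4), fun x hxa hxU => ?_⟩⟩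
    rw [hfix] at hxU ⊢
    exact hgen U0 inf_le_right h4 a haA haU x (hcentA U0 inf_le_right h4 a haA haU x hxU hxa)
  -- type II
  have hU02 : Nat.card U0 ≤ 2 := by
    rw [hn] at hU0lt h4 ⊢
    rcases n with _ | _ | _ | n
    · norm_num
    · norm_num
    · norm_num at h4
    · rw [pow_succ, pow_succ, pow_succ] at hU0lt
      have := Nat.one_le_two_pow (n := n)
      omega
  -- four-subgroups of `A` over `U0`
  have hnested : ∀ b ∈ A, ∀ b' ∈ A, ∀ B : Subgroup S, B ≤ A → Nat.card B = 4 → U0 ≤ B → b' ∉ B →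
      (∀ v ∈ B, ∀ w ∈ W, w * b = b * w → w * v = v * w) →
      Nat.card (W ⊓ centralizer ({b} : Set S) : Subgroup S) = 4 := by
    intro b hb b' hb' B hBA hB hUB hb'B hBcomm
    set F := W ⊓ centralizer ({b} : Set S) with hF
    have h1 := card_le_fix_sq W hWc hW2 (hA2 b hb) (hWt b)
    have hFb' : ∀ x ∈ F, b' * x * b'⁻¹ ∈ F := fun x hx => ⟨hWt b' x hx.1, by
      refine mem_centralizer_singleton_iff.2 ?_
      have e := mem_centralizer_singleton_iff.1 hx.2
      calc b' * x * b'⁻¹ * b = b' * x * (b'⁻¹ * b) := by group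
        _ = b' * x * (b * b'⁻¹) := by rw [hAc _ (inv_mem hb') b hb]
        _ = b' * (x * b) * b'⁻¹ := by group
        _ = b' * (b * x) * b'⁻¹ := by rw [e]
        _ = b' * b * x * b'⁻¹ := by group
        _ = b * b' * x * b'⁻¹ := by rw [hAc b' hb' b hb]
        _ = b * (b' * x * b'⁻¹) := by group⟩
    have h2 := card_le_fix_sq F (fun x hx y hy => hWc x hx.1 y hy.1) (fun x hx => hW2 x hx.1)
      (hA2 b' hb') hFb'
    have h3 : Nat.card (F ⊓ centralizer ({b'} : Set S) : Subgroup S) ≤ 2 := by
      refine le_trans (card_le_of_le ?_) hU02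
      intro w hw
      exact ⟨hw.1.1, hcentA B hBA hB b' hb' hb'B w
        (fun v hv => hBcomm v hv w hw.1.1 (mem_centralizer_singleton_iff.1 hw.1.2))
        (mem_centralizer_singleton_iff.1 hw.2)⟩
    have hF4 : Nat.card F ≤ 4 := h2.trans (Nat.mul_le_mul h3 h3)
    obtain ⟨k, hk⟩ := card_pow_two hP F
    rw [hk] at hF4 h1 ⊢
    rcases k with _ | _ | _ | k
    · norm_num at h1; omega
    · norm_num at h1; omega
    · rfl
    · rw [pow_succ, pow_succ, pow_succ] at hF4
      have := Nat.one_le_two_pow (n := k)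
      omega
  obtain ⟨z, hz, hzall⟩ : ∃ z ∈ U0, ∀ x ∈ U0, x = 1 ∨ x = z := by
    by_cases hall : ∀ x ∈ U0, x = 1
    · exact ⟨1, one_mem _, fun x hx => Or.inl (hall x hx)⟩
    push Not at hall
    obtain ⟨z, hz, hz1⟩ := hall
    refine ⟨z, hz, fun x hx => ?_⟩
    by_contra hh
    rw [not_or] at hh
    let l : Fin 3 → U0 := ![1, ⟨z, hz⟩, ⟨x, hx⟩]
    have hl : Function.Injective l := by
      intro i j h
      fin_cases i <;> fin_cases j <;>
        simp [l, Subtype.ext_iff, hz1, hh.1, hh.2, Ne.symm hz1, Ne.symm hh.1, Ne.symm hh.2] at h ⊢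
    have := Nat.card_le_card_of_injective l hl
    rw [Nat.card_fin] at this
    omega
  obtain ⟨b, hb, hbU⟩ : ∃ b ∈ A, b ∉ U0 := by
    by_contra hh
    push Not at hh
    have := card_le_of_le (show A ≤ U0 from hh)
    omega
  obtain ⟨B, hB⟩ := adjoin_mem U0 (hA2 b hb) (fun x hx => hAc x hx.2 b hb)
  have hBA : B ≤ A := fun x hx => by
    rcases (hB x).1 hx with h | h
    · exact h.2
    · have := A.mul_mem h.2 (A.inv_mem hb); rwa [mul_inv_cancel_right] at this
  have hB4' : Nat.card B ≤ 4 := by
    let g : B → Fin 2 × U0 := fun x => if h : (x : S) ∈ U0 then (0, ⟨x, h⟩)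
      else (1, ⟨(x : S) * b, ((hB x).1 x.2).resolve_left h⟩)
    have hg : Function.Injective g := by
      intro x y h
      simp only [g] at h
      by_cases hx : (x : S) ∈ U0
      · by_cases hy : (y : S) ∈ U0
        · rw [dif_pos hx, dif_pos hy] at h
          exact Subtype.ext (congrArg (fun q : Fin 2 × U0 => (q.2 : S)) h)
        · rw [dif_pos hx, dif_neg hy] at h
          exact absurd (congrArg (fun q : Fin 2 × U0 => q.1) h) (show (0 : Fin 2) ≠ 1 by decide)
      · by_cases hy : (y : S) ∈ U0
        · rw [dif_neg hx, dif_pos hy] at h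
          exact absurd (congrArg (fun q : Fin 2 × U0 => q.1) h) (show (1 : Fin 2) ≠ 0 by decide)
        · rw [dif_neg hx, dif_neg hy] at h
          exact Subtype.ext (mul_right_cancel (congrArg (fun q : Fin 2 × U0 => (q.2 : S)) h))
    have := Nat.card_le_card_of_injective g hg
    rw [Nat.card_prod, Nat.card_fin] at this
    omega
  -- `U0` has order exactly two
  obtain ⟨b', hb', hb'B⟩ : ∃ b' ∈ A, b' ∉ B := by
    by_contra hh
    push Not at hh
    have := card_le_of_le (show A ≤ B from hh)
    omega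
  have hU0two : Nat.card U0 = 2 := by
    by_contra hne
    have hbot : U0 = ⊥ := by
      refine Subgroup.card_eq_one.1 ?_
      rw [hn] at hU02 hne ⊢
      rcases n with _ | _ | n
      · rfl
      · exact absurd rfl hne
      · rw [pow_succ, pow_succ] at hU02
        have := Nat.one_le_two_pow (n := n)
        omega
    -- a central element of `S` inside `W` centralises `A`
    have hne' : (⊥ : Subgroup S) ≠ W := fun h => by rw [← h, card_bot] at hW8; omega
    obtain ⟨K, -, -, hKW, hKcard, hcomm⟩ :=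
      Cfsg.Agent.H24.exists_normal_between (p := 2) hP bot_le hne'
    rw [card_bot, mul_one] at hKcard
    obtain ⟨v, hv, hv1⟩ : ∃ v ∈ K, v ≠ 1 := (Subgroup.bot_or_exists_ne_one K).resolve_left
      fun h => by rw [h, card_bot] at hKcard; omega
    have hvA : v ∈ A := memA v fun y hy => by
      have h := hcomm (commutator_mem_commutator (mem_top y) hv)
      rw [mem_bot, commutatorElement_def, mul_inv_eq_one, mul_inv_eq_iff_eq_mul] at h
      exact h.symm
    exact hv1 (mem_bot.1 (hbot ▸ (⟨hKW hv, hvA⟩ : v ∈ U0)))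
  have hz1 : z ≠ 1 := by
    intro h
    have : U0 = ⊥ := (Subgroup.eq_bot_iff_forall _).2 fun x hx => by
      rcases hzall x hx with e | e
      · exact e
      · exact e.trans h
    rw [this, card_bot] at hU0two
    omega
  have hB4 : ∀ (e : S), e ∈ A → e ∉ U0 → ∀ Be : Subgroup S, (∀ x, x ∈ Be ↔ x ∈ U0 ∨ x * e ∈ U0) →
      Be ≤ A ∧ Nat.card Be = 4 := by
    intro e he heU Be hBe
    have hle : Be ≤ A := fun x hx => by
      rcases (hBe x).1 hx with h | h
      · exact h.2
      · have := A.mul_mem h.2 (A.inv_mem he); rwa [mul_inv_cancel_right] at this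
    refine ⟨hle, ?_⟩
    let g : Bool × U0 → Be := fun q => match q with
      | (false, u) => ⟨u, (hBe _).2 (Or.inl u.2)⟩
      | (true, u) => ⟨(u : S) * e, (hBe _).2 (Or.inr (by rw [mul_assoc, hA2 e he, mul_one]; exact u.2))⟩
    have hg : Function.Bijective g := by
      constructor
      · rintro ⟨i, u⟩ ⟨j, v⟩ h
        have h' := congrArg Subtype.val h
        cases i <;> cases j
        · exact Prod.ext rfl (Subtype.ext h')
        · exfalso
          change (u : S) = (v : S) * e at h'
          refine heU ?_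
          have := U0.mul_mem (U0.inv_mem v.2) u.2
          rwa [h', inv_mul_cancel_left] at this
        · exfalso
          change (u : S) * e = (v : S) at h'
          refine heU ?_
          have := U0.mul_mem (U0.inv_mem u.2) v.2
          rwa [← h', inv_mul_cancel_left] at this
        · exact Prod.ext rfl (Subtype.ext (mul_right_cancel h'))
      · rintro ⟨x, hx⟩
        rcases (hBe x).1 hx with h | h
        · exact ⟨(false, ⟨x, h⟩), rfl⟩
        · exact ⟨(true, ⟨x * e, h⟩), Subtype.ext (show x * e * e = x by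
            rw [mul_assoc, hA2 e he, mul_one])⟩
    rw [← Nat.card_congr (Equiv.ofBijective g hg), Nat.card_prod, Nat.card_eq_fintype_card (α := Bool),
      Fintype.card_bool, hU0two]
  -- the failure of `hcent` at `e` gives an element moving `e'` by `e`
  have hbad : ∀ e ∈ A, e ∉ U0 → ∀ e' ∈ A, e' ∉ U0 → e' * e ∉ U0 → ∀ x : S, x * e = e * x →
      (∀ u ∈ W ⊓ centralizer ({e} : Set S), x * u = u * x) →
      ¬ (x ∈ W ⊓ centralizer ({e} : Set S) ∨ x * e ∈ W ⊓ centralizer ({e} : Set S)) →
      ∃ x : S, x * z = z * x ∧ x * e = e * x ∧ ∃ u ∈ U0, x * e' * x⁻¹ = u * e * e' := by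
    intro e he heU e' he' he'U he'e x0 hx0e hx0U hx0
    obtain ⟨Be, hBe⟩ := adjoin_mem U0 (hA2 e he) (fun v hv => hAc v hv.2 e he)
    obtain ⟨hBeA, hBe4⟩ := hB4 e he heU Be hBe
    have he'Be : e' ∉ Be := fun h => by
      rcases (hBe e').1 h with h' | h'
      · exact he'U h'
      · exact he'e h'
    set F := W ⊓ centralizer ({e} : Set S) with hFdef
    have hFe : ∀ u ∈ F, u * e = e * u := fun u hu => mem_centralizer_singleton_iff.1 hu.2
    have hU0F : U0 ≤ F := fun v hv => ⟨hv.1, mem_centralizer_singleton_iff.2 (hAc v hv.2 e he)⟩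
    have hF4 : Nat.card F = 4 := hnested e he e' he' Be hBeA hBe4 (fun v hv => (hBe v).2 (Or.inl hv))
      he'Be (fun v hv w hw hwe => by
        rcases (hBe v).1 hv with h | h
        · exact hWc w hw v h.1
        · have ev : v = v * e * e := by rw [mul_assoc, hA2 e he, mul_one]
          rw [ev, ← mul_assoc, hWc w hw _ h.1, mul_assoc (v * e), hwe, ← mul_assoc])
    obtain ⟨D, hD⟩ := adjoin_mem F (hA2 e he) hFe
    -- the centraliser `K` of `D`, normalised by `e'`
    set K := centralizer (D : Set S) with hK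
    have hFe' : ∀ u ∈ F, e' * u * e'⁻¹ ∈ F := fun u hu => ⟨hWt e' u hu.1, by
      refine mem_centralizer_singleton_iff.2 ?_
      calc e' * u * e'⁻¹ * e = e' * u * (e'⁻¹ * e) := by group
        _ = e' * u * (e * e'⁻¹) := by rw [hAc _ (inv_mem he') e he]
        _ = e' * (u * e) * e'⁻¹ := by group
        _ = e' * (e * u) * e'⁻¹ := by rw [hFe u hu]
        _ = e' * e * u * e'⁻¹ := by group
        _ = e * e' * u * e'⁻¹ := by rw [hAc e' he' e he]
        _ = e * (e' * u * e'⁻¹) := by group⟩
    have hDc : ∀ v ∈ D, ∀ w ∈ D, v * w = w * v := by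
      have key : ∀ v ∈ D, (∀ u ∈ F, v * u = u * v) ∧ v * e = e * v := by
        intro v hv
        rcases (hD v).1 hv with h | h
        · exact ⟨fun u hu => hWc v h.1 u hu.1, hFe v h⟩
        · have ev : v = v * e * e := by rw [mul_assoc, hA2 e he, mul_one]
          constructor
          · intro u hu
            rw [ev, mul_assoc, ← hFe u hu, ← mul_assoc, hWc _ h.1 u hu.1, mul_assoc]
          · calc v * e = v * e * (e * e) := by rw [hA2 e he, mul_one]
              _ = v * e * e * e := by group
              _ = e * (v * e) * e := by rw [hFe _ h]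
              _ = e * v * (e * e) := by group
              _ = e * v := by rw [hA2 e he, mul_one]
      intro v hv w hw
      rcases (hD w).1 hw with h | h
      · exact (key v hv).1 w h
      · have ev : w = w * e * e := by rw [mul_assoc, hA2 e he, mul_one]
        rw [ev, ← mul_assoc, (key v hv).1 _ h, mul_assoc, (key v hv).2, ← mul_assoc]
    have hDe' : ∀ v ∈ D, e' * v * e'⁻¹ ∈ D := by
      intro v hv
      rcases (hD v).1 hv with h | h
      · exact (hD _).2 (Or.inl (hFe' v h))
      · refine (hD _).2 (Or.inr ?_)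
        have e3 : e' * v * e'⁻¹ * e = e' * (v * e) * e'⁻¹ := by
          rw [mul_assoc _ e'⁻¹, hAc _ (inv_mem he') e he]; group
        rw [e3]; exact hFe' _ h
    have hDK : D ≤ K := fun v hv => mem_centralizer_iff.2 fun w hw => hDc w hw v hv
    have hx0K : x0 ∈ K := mem_centralizer_iff.2 fun w hw => by
      rcases (hD w).1 hw with h | h
      · exact (hx0U w h).symm
      · have ev : w = w * e * e := by rw [mul_assoc, hA2 e he, mul_one]
        rw [ev, mul_assoc, ← hx0e, ← mul_assoc, ← hx0U _ h, mul_assoc]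
    have hx0D : x0 ∉ D := fun h => hx0 ((hD x0).1 h)
    set J := K ⊔ zpowers e' with hJdef
    have hKJ : K ≤ J := le_sup_left
    have hnormK : J ≤ normalizer (K : Set S) := by
      refine sup_le le_normalizer ((zpowers_le).2 (mem_normalizer_iff.2 fun y => ?_))
      have hd : ∀ y, y ∈ K → e' * y * e'⁻¹ ∈ K := fun y hy => mem_centralizer_iff.2 fun w hw => by
        have hw' := mem_centralizer_iff.1 hy _ (hDe' w hw)
        rw [hinvA e' he'] at hw' ⊢
        calc w * (e' * y * e') = e' * e' * w * (e' * y * e') := by rw [hA2 e' he', one_mul]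
          _ = e' * (e' * w * e' * y) * e' := by group
          _ = e' * (y * (e' * w * e')) * e' := by rw [hw']
          _ = e' * y * e' * (w * (e' * e')) := by group
          _ = e' * y * e' * w := by rw [hA2 e' he', mul_one]
      refine ⟨hd y, fun h => ?_⟩
      have := hd _ h
      rw [hinvA e' he'] at this
      rwa [show e' * (e' * y * e') * e' = (e' * e') * y * (e' * e') by group, hA2 e' he', one_mul,
        mul_one] at this
    have hnormD : J ≤ normalizer (D : Set S) := by
      refine sup_le (fun y hy => mem_normalizer_iff.2 fun w => ?_)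
        ((zpowers_le).2 (mem_normalizer_iff.2 fun w => ?_))
      · have h1 : ∀ w ∈ D, y * w * y⁻¹ = w := fun w hw => by
          rw [← mem_centralizer_iff.1 hy w hw, mul_inv_cancel_right]
        refine ⟨fun hw => by rw [h1 w hw]; exact hw, fun hw => ?_⟩
        have h2 : y * w * y⁻¹ = w := by
          have h3 := mem_centralizer_iff.1 hy _ hw
          calc y * w * y⁻¹ = y⁻¹ * (y * (y * w * y⁻¹)) := by group
            _ = y⁻¹ * (y * w * y⁻¹ * y) := by rw [← h3]
            _ = w := by group
        rwa [h2] at hw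
      · refine ⟨hDe' w, fun h => ?_⟩
        have := hDe' _ h
        rw [hinvA e' he'] at this
        rwa [show e' * (e' * w * e') * e' = (e' * e') * w * (e' * e') by group, hA2 e' he', one_mul,
          mul_one] at this
    haveI : (K.subgroupOf J).Normal := normal_subgroupOf_of_le_normalizer hnormK
    haveI : (D.subgroupOf J).Normal := normal_subgroupOf_of_le_normalizer hnormD
    have hne : D.subgroupOf J ≠ K.subgroupOf J := fun h => hx0D (by
      have : (⟨x0, hKJ hx0K⟩ : J) ∈ K.subgroupOf J := hx0K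
      rw [← h] at this; exact this)
    obtain ⟨L, -, hDL, hLK, hLcard, hcomm⟩ := Cfsg.Agent.H24.exists_normal_between (p := 2)
      (hP.to_subgroup J) (fun q hq => hDK hq) hne
    obtain ⟨x, hxL, hxD⟩ : ∃ x ∈ L, x ∉ D.subgroupOf J := by
      by_contra hh
      push Not at hh
      rw [le_antisymm hh hDL] at hLcard
      have : 0 < Nat.card (D.subgroupOf J) := Nat.card_pos
      omega
    have hxK : (x : S) ∈ K := hLK hxL
    have he'J : e' ∈ J := (le_sup_right : zpowers e' ≤ J) (mem_zpowers e')
    have hd : e' * (x : S) * e'⁻¹ * (x : S)⁻¹ ∈ D := by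
      have h := hcomm (commutator_mem_commutator (mem_top (⟨e', he'J⟩ : J)) hxL)
      simpa [mem_subgroupOf, commutatorElement_def] using h
    have hxF : ∀ u ∈ F, (x : S) * u = u * x := fun u hu =>
      (mem_centralizer_iff.1 hxK u ((hD u).2 (Or.inl hu))).symm
    have heD : e ∈ D := (hD e).2 (Or.inr (by rw [hA2 e he]; exact one_mem F))
    have hxe : (x : S) * e = e * x := (mem_centralizer_iff.1 hxK e heD).symm
    set d := e' * (x : S) * e'⁻¹ * (x : S)⁻¹ with hd_def
    have hd2 : d * d = 1 := by
      rcases (hD d).1 hd with h | h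
      · exact hW2 d h.1
      · have ed : d = d * e * e := by rw [mul_assoc, hA2 e he, mul_one]
        rw [ed]
        calc d * e * e * (d * e * e) = d * e * (e * (d * e)) * e := by group
          _ = d * e * ((d * e) * e) * e := by rw [hFe _ h]
          _ = (d * e) * (d * e) * (e * e) := by group
          _ = 1 := by rw [hW2 _ h.1, hA2 e he, mul_one]
    have hxconj : (x : S) * e' * (x : S)⁻¹ = e' * d := by
      rw [hd_def, hinvA e' he', show e' * (e' * (x : S) * e' * (x : S)⁻¹)
        = (e' * e') * ((x : S) * e' * (x : S)⁻¹) by group, hA2 e' he', one_mul]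
    have hde' : d * e' = e' * d := by
      have h2 : e' * d * (e' * d) = 1 := by
        rw [← hxconj, show (x : S) * e' * (x : S)⁻¹ * ((x : S) * e' * (x : S)⁻¹)
          = (x : S) * (e' * e') * (x : S)⁻¹ by group, hA2 e' he', mul_one, mul_inv_cancel]
      calc d * e' = (e' * e') * (d * e') * (d * d) := by rw [hA2 e' he', hd2, one_mul, mul_one]
        _ = e' * ((e' * d) * (e' * d)) * d := by group
        _ = e' * d := by rw [h2, mul_one]
    -- fixed points of `e'` in `F`
    have hfixF : ∀ v ∈ F, v * e' = e' * v → v ∈ U0 := fun v hv hve =>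
      ⟨hv.1, hcentA Be hBeA hBe4 e' he' he'Be v (fun w hw => by
        rcases (hBe w).1 hw with h | h
        · exact hWc v hv.1 w h.1
        · have ew : w = w * e * e := by rw [mul_assoc, hA2 e he, mul_one]
          rw [ew, ← mul_assoc, hWc v hv.1 _ h.1, mul_assoc, hFe v hv, ← mul_assoc]) hve⟩
    have hxz : (x : S) * z = z * x := hxF z (hU0F hz)
    rcases (hD d).1 hd with hdF | hdF
    · exfalso
      have hdU := hfixF d hdF hde'
      -- `x` can be corrected into `A`
      have hfin : ∀ y : S, (∀ u ∈ F, y * u = u * y) → y * e = e * y → y * e' = e' * y → y ∈ D := by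
        intro y hyF hye hye'
        have hyA : y ∈ A := hcentA Be hBeA hBe4 e' he' he'Be y (fun w hw => by
          rcases (hBe w).1 hw with h | h
          · exact hyF w (hU0F h)
          · have ew : w = w * e * e := by rw [mul_assoc, hA2 e he, mul_one]
            rw [ew, ← mul_assoc, hyF _ (hU0F h), mul_assoc, hye, ← mul_assoc]) hye'
        rcases hgen Be hBeA hBe4 e' he' he'Be y hyA with h | h
        · rcases (hBe y).1 h with h' | h'
          · exact (hD y).2 (Or.inl (hU0F h'))
          · exact (hD y).2 (Or.inr (hU0F h'))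
        · exfalso
          -- then `e'` centralises `F`
          have he'F : ∀ u ∈ F, u * e' = e' * u := by
            intro u hu
            have h1 : u * (y * e') = (y * e') * u := by
              rcases (hBe _).1 h with h' | h'
              · exact hWc u hu.1 _ h'.1
              · have ew : y * e' = y * e' * e * e := by rw [mul_assoc (y * e'), hA2 e he, mul_one]
                rw [ew, ← mul_assoc, hWc u hu.1 _ h'.1, mul_assoc, hFe u hu, ← mul_assoc]
            calc u * e' = y⁻¹ * (y * u) * e' := by group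
              _ = y⁻¹ * (u * y) * e' := by rw [hyF u hu]
              _ = y⁻¹ * (u * (y * e')) := by group
              _ = y⁻¹ * ((y * e') * u) := by rw [h1]
              _ = e' * u := by group
          have := card_le_of_le (show F ≤ U0 from fun u hu => hfixF u hu (he'F u hu))
          omega
      rcases hzall d hdU with h1 | h1
      · refine hxD ?_
        refine hfin x hxF hxe ?_
        rw [h1, mul_one] at hxconj
        exact mul_inv_eq_iff_eq_mul.1 hxconj
      · obtain ⟨u, huF, huU⟩ : ∃ u ∈ F, u ∉ U0 := by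
          by_contra hh
          push Not at hh
          have := card_le_of_le (show F ≤ U0 from hh)
          omega
        have huz : u * (e' * u * e'⁻¹) = z := by
          set u' := e' * u * e'⁻¹ with hu'
          have hu'F : u' ∈ F := hFe' u huF
          have hfixed : e' * (u * u') * e'⁻¹ = u * u' := by
            rw [show e' * (u * u') * e'⁻¹ = u' * (e' * u' * e'⁻¹) by rw [hu']; group,
              show e' * u' * e'⁻¹ = e' * e' * u * (e' * e')⁻¹ by rw [hu', mul_inv_rev]; group,
              hA2 e' he', one_mul, inv_one, mul_one, hWc _ hu'F.1 _ huF.1]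
          rcases hzall _ (hfixF _ (mul_mem huF hu'F) (mul_inv_eq_iff_eq_mul.1 hfixed).symm) with h | h
          · exfalso
            refine huU (hfixF u huF ?_)
            have : u' = u := by rw [← inv_eq_of_mul_eq_one_right h, inv_eq_of_mul_eq_one_right (hW2 u huF.1)]
            exact (mul_inv_eq_iff_eq_mul.1 this).symm
          · exact h
        refine hxD ?_
        have hmem : (x : S) * u ∈ D := by
          refine hfin _ (fun v hv => by rw [mul_assoc, hWc u huF.1 v hv.1, ← mul_assoc, hxF v hv, mul_assoc])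
            (by rw [mul_assoc, hFe u huF, ← mul_assoc, hxe, mul_assoc]) ?_
          have hu2 : u * u = 1 := hW2 u huF.1
          have hue : u * e' = z * e' * u := by
            rw [← huz, hinvA e' he']
            calc u * e' = u * e' * (u * ((e' * e') * u)) := by rw [hA2 e' he', one_mul, hu2, mul_one]
              _ = u * (e' * u * e') * e' * u := by group
          rw [h1] at hxconj
          have hxe' : (x : S) * e' = e' * z * x := mul_inv_eq_iff_eq_mul.1 hxconj
          calc (x : S) * u * e' = (x : S) * (z * e' * u) := by rw [mul_assoc, hue]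
            _ = (x : S) * z * e' * u := by group
            _ = z * ((x : S) * e') * u := by rw [hxz]; group
            _ = z * (e' * z * x) * u := by rw [hxe']
            _ = (z * e') * z * x * u := by group
            _ = (e' * z) * z * x * u := by rw [hAc z hz.2 e' he']
            _ = e' * (z * z) * x * u := by group
            _ = e' * ((x : S) * u) := by rw [hA2 z hz.2, mul_one, mul_assoc]
        show (x : S) ∈ D
        have := mul_mem hmem ((hD u).2 (Or.inl huF))
        rwa [mul_assoc, hW2 u huF.1, mul_one] at this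
    · refine ⟨x, hxz, hxe, d * e, hfixF _ hdF ?_, ?_⟩
      · rw [mul_assoc, hAc e he e' he', ← mul_assoc, hde', mul_assoc]
      · rw [hxconj, ← hde', mul_assoc d e e, hA2 e he, mul_one]
  have hbU' : b' ∉ U0 := fun h => hb'B ((hB b').2 (Or.inl h))
  have hb'b : b' * b ∉ U0 := fun h => hb'B ((hB b').2 (Or.inr h))
  have hbb' : b * b' ∉ U0 := by rwa [hAc b hb b' hb']
  -- one of `b`, `b'` is good
  have hgood : ∀ e ∈ A, e ∉ U0 → ∀ e' ∈ A, e' ∉ U0 → e' * e ∉ U0 →
      (∀ x : S, x * e = e * x → (∀ u ∈ W ⊓ centralizer ({e} : Set S), x * u = u * x) →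
        x ∈ W ⊓ centralizer ({e} : Set S) ∨ x * e ∈ W ⊓ centralizer ({e} : Set S)) →
      Nonempty (Data S) := by
    intro e he heU e' he' he'U he'e h
    obtain ⟨Be, hBe⟩ := adjoin_mem U0 (hA2 e he) (fun v hv => hAc v hv.2 e he)
    obtain ⟨hBeA, hBe4⟩ := hB4 e he heU Be hBe
    have he'Be : e' ∉ Be := fun h' => by
      rcases (hBe e').1 h' with h'' | h''
      · exact he'U h''
      · exact he'e h''
    have hF4 : Nat.card (W ⊓ centralizer ({e} : Set S) : Subgroup S) = 4 :=
      hnested e he e' he' Be hBeA hBe4 (fun v hv => (hBe v).2 (Or.inl hv)) he'Be (fun v hv w hw hwe => by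
        rcases (hBe v).1 hv with h' | h'
        · exact hWc w hw v h'.1
        · have ev : v = v * e * e := by rw [mul_assoc, hA2 e he, mul_one]
          rw [ev, ← mul_assoc, hWc w hw _ h'.1, mul_assoc (v * e), hwe, ← mul_assoc])
    exact ⟨⟨hP, W, hWn, hWc, hW2, hmax, e, hA2 e he, hF4, hWdata e (hA2 e he) hF4, h⟩⟩
  by_contra hno
  have h1 : ∃ x : S, x * z = z * x ∧ x * b = b * x ∧ ∃ u ∈ U0, x * b' * x⁻¹ = u * b * b' := by
    by_contra hh
    refine hno (hgood b hb hbU b' hb' hbU' hb'b fun x hx hxU => ?_)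
    by_contra hx'
    exact hh (hbad b hb hbU b' hb' hbU' hb'b x hx hxU hx')
  have h2 : ∃ y : S, y * z = z * y ∧ y * b' = b' * y ∧ ∃ u ∈ U0, y * b * y⁻¹ = u * b' * b := by
    by_contra hh
    refine hno (hgood b' hb' hbU' b hb hbU hbb' fun x hx hxU => ?_)
    by_contra hx'
    exact hh (hbad b' hb' hbU' b hb hbU hbb' x hx hxU hx')
  obtain ⟨x, hxz, hxb, u, hu, hxb'⟩ := h1
  obtain ⟨y, hyz, hyb', v, hv, hyb⟩ := h2
  -- `x * y` permutes the three cosets cyclically
  set g := x * y with hg
  have hfix : ∀ w ∈ U0, g * w * g⁻¹ = w := by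
    intro w hw
    rcases hzall w hw with rfl | rfl
    · simp
    · rw [hg, show x * y * w * (x * y)⁻¹ = x * (y * w) * y⁻¹ * x⁻¹ by group, hyz,
        show x * (w * y) * y⁻¹ * x⁻¹ = x * w * x⁻¹ by group, hxz, mul_inv_cancel_right]
  have hxU : ∀ w ∈ U0, x * w = w * x := by
    intro w hw
    rcases hzall w hw with rfl | rfl
    · simp
    · exact hxz
  have ux : ∀ w1 ∈ U0, ∀ w2 ∈ U0, ∀ q : S, w1 * (w2 * q) = (w1 * w2) * q := fun _ _ _ _ _ =>
    (mul_assoc _ _ _).symm
  have hgb : ∃ w ∈ U0, g * b * g⁻¹ = w * b' := by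
    refine ⟨v * u, mul_mem hv hu, ?_⟩
    calc g * b * g⁻¹ = x * (y * b * y⁻¹) * x⁻¹ := by rw [hg]; group
      _ = x * (v * b' * b) * x⁻¹ := by rw [hyb]
      _ = x * v * x⁻¹ * (x * b' * x⁻¹) * (x * b * x⁻¹) := by group
      _ = v * (u * b * b') * b := by rw [hxU v hv, mul_inv_cancel_right, hxb', hxb, mul_inv_cancel_right]
      _ = v * u * (b * (b' * b)) := by group
      _ = v * u * b' := by rw [hAc b' hb' b hb, ← mul_assoc b, hA2 b hb, one_mul]
  have hgb' : ∃ w ∈ U0, g * b' * g⁻¹ = w * (b * b') := by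
    refine ⟨u, hu, ?_⟩
    calc g * b' * g⁻¹ = x * (y * b') * y⁻¹ * x⁻¹ := by rw [hg]; group
      _ = x * b' * x⁻¹ := by rw [hyb']; group
      _ = u * (b * b') := by rw [hxb', mul_assoc]
  obtain ⟨w1, hw1, e1⟩ := hgb
  obtain ⟨w2, hw2, e2⟩ := hgb'
  let cyc : ℕ → S := fun n => if n % 3 = 0 then b else if n % 3 = 1 then b' else b * b'
  have hstep : ∀ n, ∃ w ∈ U0, g ^ n * b * (g ^ n)⁻¹ = w * cyc n := by
    intro n
    induction n with
    | zero => exact ⟨1, one_mem _, by simp [cyc]⟩
    | succ n ih =>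
      obtain ⟨w, hw, e⟩ := ih
      have e3 : g ^ (n + 1) * b * (g ^ (n + 1))⁻¹ = w * (g * cyc n * g⁻¹) := by
        calc g ^ (n + 1) * b * (g ^ (n + 1))⁻¹ = g * (g ^ n * b * (g ^ n)⁻¹) * g⁻¹ := by
              rw [pow_succ']; group
          _ = g * (w * cyc n) * g⁻¹ := by rw [e]
          _ = g * w * g⁻¹ * (g * cyc n * g⁻¹) := by group
          _ = _ := by rw [hfix w hw]
      have hc : n % 3 = 0 ∨ n % 3 = 1 ∨ n % 3 = 2 := by omega
      rcases hc with h | h | h
      · have h' : (n + 1) % 3 = 1 := by omega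
        refine ⟨w * w1, mul_mem hw hw1, ?_⟩
        rw [e3]
        simp only [cyc, h, h']
        simp [e1, mul_assoc]
      · have h' : (n + 1) % 3 = 2 := by omega
        refine ⟨w * w2, mul_mem hw hw2, ?_⟩
        rw [e3]
        simp only [cyc, h, h']
        simp [e2, mul_assoc]
      · have h' : (n + 1) % 3 = 0 := by omega
        refine ⟨w * (w1 * w2), mul_mem hw (mul_mem hw1 hw2), ?_⟩
        rw [e3]
        simp only [cyc, h, h']
        norm_num
        rw [mul_assoc w (w1 * w2) b]
        congr 1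
        calc g * (b * b') * g⁻¹ = g * b * g⁻¹ * (g * b' * g⁻¹) := by group
          _ = w1 * b' * (w2 * (b * b')) := by rw [e1, e2]
          _ = w1 * (b' * w2) * (b * b') := by group
          _ = w1 * (w2 * b') * (b * b') := by rw [hAc b' hb' w2 hw2.2]
          _ = w1 * w2 * (b' * (b * b')) := by group
          _ = w1 * w2 * b := by rw [hAc b hb b' hb', ← mul_assoc b', hA2 b' hb', one_mul]
  obtain ⟨k, hk⟩ := hP g
  obtain ⟨w, hw, e⟩ := hstep (2 ^ k)
  rw [hk, one_mul, inv_one, mul_one] at e
  have hcyc : cyc (2 ^ k) = b' ∨ cyc (2 ^ k) = b * b' := by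
    have h3 : 2 ^ k % 3 ≠ 0 := fun h =>
      absurd ((Nat.Prime.dvd_of_dvd_pow Nat.prime_three (Nat.dvd_of_mod_eq_zero h))) (by norm_num)
    by_cases h1 : 2 ^ k % 3 = 1
    · exact Or.inl (by simp only [cyc, h1]; simp)
    · exact Or.inr (by simp only [cyc, h3, h1]; simp)
  rcases hcyc with h | h <;> rw [h] at e
  · refine hbb' ?_
    rw [e, mul_assoc, hA2 b' hb', mul_one]
    exact hw
  · refine hbU' ?_
    have e' : b' = b * (w * (b * b')) * w := by
      calc b' = (b * b) * b' * (w * w) := by rw [hA2 b hb, hA2 w hw.2, one_mul, mul_one]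
        _ = b * ((b * b') * w) * w := by group
        _ = b * (w * (b * b')) * w := by rw [hAc _ (mul_mem hb hb') w hw.2]
    rw [e', ← e, hA2 b hb, one_mul]
    exact hw

end Cfsg.Agent.H81.SelfEight
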