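import Cfsg.Agent.H81.SelfEight.Basic

/-!
The case `|W| = 16`.
-/

set_option autoImplicit false
set_option linter.unusedSectionVars false

namespace Cfsg.Agent.H81.SelfEight.Data

open Subgroup
open Cfsg.Agent.H81.MacW (sqSub sq_mem_sqSub comm_mem_sqSub card_split card_pow_two)

variable {S : Type*} [Group S] [Finite S] (d : Data S)

/-- Every displacement in `U` is realised by `W`. -/
theorem lift16 (h16 : Nat.card d.W = 16) {x : S} (h : x * d.a * x⁻¹ * d.a ∈ d.U) :
    ∃ w ∈ d.W, (w * x) * d.a = d.a * (w * x) := by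
  let g : d.W →* d.U :=
    { toFun := fun w => ⟨(w : S) * (d.a * w * d.a⁻¹), d.mem_U.2 ⟨mul_mem w.2 (d.conj_W d.a w.2), by
        rw [d.inv_a]
        have h := d.hWc _ w.2 _ (d.conj_W d.a w.2)
        rw [d.inv_a] at h
        nth_rewrite 1 [h]
        group⟩⟩
      map_one' := by ext; simp
      map_mul' := fun v w => by
        refine Subtype.ext ?_
        show (v : S) * w * (d.a * ((v : S) * w) * d.a⁻¹) = _
        rw [show d.a * ((v : S) * w) * d.a⁻¹ = d.a * v * d.a⁻¹ * (d.a * w * d.a⁻¹) by group]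
        have h := d.hWc _ w.2 _ (d.conj_W d.a v.2)
        show _ = (v : S) * (d.a * v * d.a⁻¹) * ((w : S) * (d.a * w * d.a⁻¹))
        calc (v : S) * w * (d.a * v * d.a⁻¹ * (d.a * w * d.a⁻¹))
            = (v : S) * ((w : S) * (d.a * v * d.a⁻¹)) * (d.a * w * d.a⁻¹) := by simp only [mul_assoc]
          _ = (v : S) * (d.a * v * d.a⁻¹ * w) * (d.a * w * d.a⁻¹) := by rw [h]
          _ = _ := by simp only [mul_assoc] }
  have hker : Nat.card g.ker ≤ 4 := by
    refine le_trans (Nat.card_le_card_of_injective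
      (fun w : g.ker => (⟨((w : d.W) : S), ?_⟩ : d.U))
      (fun v w h => Subtype.ext (Subtype.ext (congrArg (fun q : d.U => (q : S)) h)))) (le_of_eq d.hU)
    have h := congrArg Subtype.val (MonoidHom.mem_ker.1 w.2)
    change ((w : d.W) : S) * (d.a * ((w : d.W) : S) * d.a⁻¹) = 1 at h
    refine d.mem_U.2 ⟨(w : d.W).2, ?_⟩
    have h2 := eq_inv_of_mul_eq_one_right h
    rw [d.inv_W (w : d.W).2, mul_inv_eq_iff_eq_mul] at h2
    exact h2.symm
  have htop : g.range = ⊤ := by
    refine eq_top_of_le_card _ ?_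
    have hs := card_eq_card_quotient_mul_card_subgroup g.ker
    rw [Nat.card_congr (QuotientGroup.quotientKerEquivRange g).toEquiv, h16] at hs
    have := Nat.mul_le_mul_left (Nat.card g.range) hker
    have hU4 : Nat.card d.U = 4 := d.hU
    omega
  obtain ⟨w, hw⟩ : (⟨_, h⟩ : d.U) ∈ g.range := htop ▸ mem_top _
  refine ⟨w, w.2, ?_⟩
  have e : (w : S) * (d.a * w * d.a⁻¹) = x * d.a * x⁻¹ * d.a := congrArg Subtype.val hw
  rw [d.inv_a] at e
  have e1 : x * d.a * x⁻¹ = (w : S) * d.a * w := by
    calc x * d.a * x⁻¹ = x * d.a * x⁻¹ * (d.a * d.a) := by rw [d.ha, mul_one]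
      _ = x * d.a * x⁻¹ * d.a * d.a := by group
      _ = (w : S) * (d.a * w * d.a) * d.a := by rw [e]
      _ = (w : S) * d.a * w * (d.a * d.a) := by group
      _ = (w : S) * d.a * w := by rw [d.ha, mul_one]
  calc (w : S) * x * d.a = (w : S) * (x * d.a * x⁻¹) * x := by group
    _ = (w : S) * ((w : S) * d.a * w) * x := by rw [e1]
    _ = ((w : S) * w) * d.a * ((w : S) * x) := by group
    _ = d.a * ((w : S) * x) := by rw [d.hW2 w w.2, one_mul]

theorem L_eq_W (h16 : Nat.card d.W = 16) : d.L ≤ d.W := by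
  haveI : Fact (Nat.Prime 2) := ⟨Nat.prime_two⟩
  by_contra hne
  have hne' : d.W ≠ d.L := fun h => hne (le_of_eq h.symm)
  obtain ⟨K, -, hWK, hKL, hKcard, hcomm⟩ := Cfsg.Agent.H24.exists_normal_between (p := 2) d.hP d.W_le_L hne'
  obtain ⟨x, hxK, hxW⟩ : ∃ x ∈ K, x ∉ d.W := by
    by_contra hh
    push Not at hh
    rw [le_antisymm hh hWK] at hKcard
    have : 0 < Nat.card d.W := Nat.card_pos
    omega
  have hd : x * d.a * x⁻¹ * d.a ∈ d.U := by
    refine d.delta_mem ?_
    have h := hcomm (commutator_mem_commutator (mem_top d.a) hxK)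
    rw [commutatorElement_def, d.inv_a] at h
    have h' := d.hWn.conj_mem _ h d.a
    rw [d.inv_a, show d.a * (d.a * x * d.a * x⁻¹) * d.a = (d.a * d.a) * (x * d.a * x⁻¹ * d.a) by group,
      d.ha, one_mul] at h'
    exact h'
  obtain ⟨w, hw, hc⟩ := d.lift16 h16 hd
  rcases d.fix_a (mul_mem (d.L_le_X (d.W_le_L hw)) (d.L_le_X (hKL hxK))) hc with h | h
  · exact hxW ((d.W.mul_mem_cancel_left hw).1 h.1)
  · refine d.a_not_L ?_
    have := d.L.mul_mem (d.L.inv_mem (d.L.mul_mem (d.W_le_L hw) (hKL hxK))) (d.W_le_L h.1)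
    rwa [inv_mul_cancel_left] at this

/-- An element commuting with `a` modulo `W`, not in `W`, fixes at most four elements of `W`. -/
theorem fix_le_four (h16 : Nat.card d.W = 16) {x : S} (hxW : x ∉ d.W)
    (hc : d.qW x * d.qW d.a = d.qW d.a * d.qW x) :
    Nat.card (d.W ⊓ centralizer ({x} : Set S) : Subgroup S) ≤ 4 := by
  obtain ⟨w, hw, hxa⟩ := d.lift16 h16 (d.delta_of_comm hc)
  have hU4 : Nat.card d.U = 4 := d.hU
  set t := w * x with ht
  have hsame : ∀ v ∈ d.W, t * v * t⁻¹ = x * v * x⁻¹ := by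
    intro v hv
    rw [ht, show w * x * v * (w * x)⁻¹ = w * (x * v * x⁻¹) * w⁻¹ by group,
      d.hWc w hw _ (d.conj_W x hv), mul_inv_cancel_right]
  set F := d.W ⊓ centralizer ({x} : Set S) with hF
  have hFv : ∀ v ∈ F, t * v * t⁻¹ = v := fun v hv => by
    rw [hsame v hv.1, (mem_centralizer_singleton_iff.1 hv.2).symm, mul_inv_cancel_right]
  by_cases htX : t ∈ d.X
  · refine le_trans (card_le_of_le ?_) (le_of_eq hU4)
    intro v hv
    rcases d.fix_a htX hxa with h | h
    · exfalso
      exact hxW ((d.W.mul_mem_cancel_left hw).1 h.1)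
    · refine d.mem_U.2 ⟨hv.1, ?_⟩
      have e1 : t * v = v * t := mul_inv_eq_iff_eq_mul.1 (hFv v hv)
      have e2 : (t * d.a) * v = v * (t * d.a) := d.hWc _ h.1 v hv.1
      calc v * d.a = t⁻¹ * (t * v) * d.a := by group
        _ = t⁻¹ * (v * (t * d.a)) := by rw [e1]; group
        _ = t⁻¹ * ((t * d.a) * v) := by rw [e2]
        _ = d.a * v := by group
  · obtain ⟨z, u, hz, hu, hz1, hu1, huz, hfix, hall⟩ := d.exists_basis
    have hFa : ∀ v ∈ F, d.a * v * d.a⁻¹ ∈ F := fun v hv => ⟨d.conj_W d.a hv.1, by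
      refine mem_centralizer_singleton_iff.2 (mul_inv_eq_iff_eq_mul.1 ?_).symm
      rw [← hsame _ (d.conj_W d.a hv.1), show t * (d.a * v * d.a⁻¹) * t⁻¹
        = (t * d.a) * v * (t * d.a)⁻¹ by group, hxa,
        show d.a * t * v * (d.a * t)⁻¹ = d.a * (t * v * t⁻¹) * d.a⁻¹ by group, hFv v hv]⟩
    have h2 := card_le_fix_sq F (fun v hv w hw => d.hWc v hv.1 w hw.1) (fun v hv => d.hW2 v hv.1) d.ha hFa
    have h3 : Nat.card (F ⊓ centralizer ({d.a} : Set S) : Subgroup S) ≤ 2 := by
      have hsub : ((F ⊓ centralizer ({d.a} : Set S) : Subgroup S) : Set S) ⊆ ({1, z} : Set S) := by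
        intro v hv
        have hvU : v ∈ d.U := ⟨hv.1.1, hv.2⟩
        have hnu : ∀ e : S, t * e * t⁻¹ = e → t * (z * e) * t⁻¹ = z * e := fun e he => by
          rw [show t * (z * e) * t⁻¹ = t * z * t⁻¹ * (t * e * t⁻¹) by group, hfix, he]
        have hufix : ¬ t * u * t⁻¹ = u := fun h => htX (d.mem_X.2 fun e he =>
          (mul_inv_eq_iff_eq_mul.1 (by
            rcases hall e he with rfl | rfl | rfl | rfl
            · simp
            · exact hfix t
            · exact h
            · exact hnu u h)).symm)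
        rcases hall v hvU with h | h | h | h
        · exact Or.inl h
        · exact Or.inr h
        · exact absurd (h ▸ hFv v hv.1) hufix
        · refine absurd ?_ hufix
          have h' := hnu _ (h ▸ hFv v hv.1)
          rw [show z * (z * u) = u by rw [← mul_assoc, d.hW2 z hz.1, one_mul]] at h'
          exact h'
      have := Set.ncard_le_ncard hsub (Set.toFinite _)
      rw [← Nat.card_coe_set_eq] at this
      exact le_trans this ((Set.ncard_insert_le _ _).trans (by simp))
    have := h2.trans (Nat.mul_le_mul h3 h3)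
    omega

theorem cent_W16 (h16 : Nat.card d.W = 16) :
    Nat.card (centralizer ({d.qW d.a} : Set (S ⧸ d.W))) ≤ 4 := by
  obtain ⟨z, u, hz, hu, hz1, hu1, huz, hfix, hall⟩ := d.exists_basis
  have hU4 : Nat.card d.U = 4 := d.hU
  set K := centralizer ({d.a} : Set S) with hK
  have hconjU : ∀ x ∈ K, ∀ v ∈ d.U, x * v * x⁻¹ ∈ d.U := fun x hx v hv => d.mem_U.2 ⟨d.conj_W x hv.1, by
    have e1 := mem_centralizer_singleton_iff.1 hx
    have e2 := (d.mem_U.1 hv).2
    calc x * v * x⁻¹ * d.a = x * v * (x⁻¹ * d.a) := by group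
      _ = x * v * (d.a * x⁻¹) := by
          congr 1
          rw [eq_mul_inv_iff_mul_eq, mul_assoc, ← e1, inv_mul_cancel_left]
      _ = x * (v * d.a) * x⁻¹ := by group
      _ = x * d.a * v * x⁻¹ := by rw [e2]; group
      _ = d.a * x * v * x⁻¹ := by rw [e1]
      _ = d.a * (x * v * x⁻¹) := by group⟩
  classical
  have hmove : ∀ x ∈ K, x * u * x⁻¹ = u ∨ x * u * x⁻¹ = z * u := by
    intro x hx
    rcases hall _ (hconjU x hx u hu) with h | h | h | h
    · rw [mul_inv_eq_one, mul_eq_left] at h; exact absurd h hu1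
    · rw [← hfix x] at h
      exact absurd (mul_left_cancel (mul_right_cancel h)) huz
    · exact Or.inl h
    · exact Or.inr h
  have hK16 : Nat.card K ≤ 16 := by
    have hX : ∀ x ∈ K, x * u * x⁻¹ = u → x ∈ d.U ∨ x * d.a ∈ d.U := fun x hx h =>
      d.fix_a (d.mem_X.2 fun e he => (mul_inv_eq_iff_eq_mul.1 (by
        rcases hall e he with rfl | rfl | rfl | rfl
        · simp
        · exact hfix x
        · exact h
        · rw [show x * (z * u) * x⁻¹ = x * z * x⁻¹ * (x * u * x⁻¹) by group, hfix, h])).symm)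
        (mem_centralizer_singleton_iff.1 hx)
    by_cases hall' : ∀ x ∈ K, x * u * x⁻¹ = u
    · let f : K → Bool × d.U := fun x => if h : (x : S) ∈ d.U then (false, ⟨x, h⟩)
        else (true, ⟨(x : S) * d.a, (hX x x.2 (hall' x x.2)).resolve_left h⟩)
      have hf : Function.Injective f := by
        intro x y h
        by_cases hx : (x : S) ∈ d.U <;> by_cases hy : (y : S) ∈ d.U
        · simp only [f, dif_pos hx, dif_pos hy] at h
          exact Subtype.ext (congrArg (fun q : Bool × d.U => (q.2 : S)) h)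
        · simp only [f, dif_pos hx, dif_neg hy] at h
          exact absurd (congrArg (fun q : Bool × d.U => q.1) h) (show false ≠ true by decide)
        · simp only [f, dif_neg hx, dif_pos hy] at h
          exact absurd (congrArg (fun q : Bool × d.U => q.1) h) (show true ≠ false by decide)
        · simp only [f, dif_neg hx, dif_neg hy] at h
          exact Subtype.ext (mul_right_cancel (congrArg (fun q : Bool × d.U => (q.2 : S)) h))
      have := Nat.card_le_card_of_injective f hf
      rw [Nat.card_prod, Nat.card_eq_fintype_card (α := Bool), Fintype.card_bool, hU4] at this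
      omega
    · push Not at hall'
      obtain ⟨t, ht, htu⟩ := hall'
      have htu' := (hmove t ht).resolve_left htu
      -- each element, or its product with `t`, fixes `u`
      have hX' : ∀ x : K, (x : S) * u * (x : S)⁻¹ ≠ u →
          t⁻¹ * (x : S) ∈ K ∧ (t⁻¹ * (x : S)) * u * (t⁻¹ * (x : S))⁻¹ = u := by
        intro x hx
        refine ⟨K.mul_mem (K.inv_mem ht) x.2, ?_⟩
        rw [show t⁻¹ * (x : S) * u * (t⁻¹ * (x : S))⁻¹ = t⁻¹ * ((x : S) * u * (x : S)⁻¹) * t by group,
          (hmove x x.2).resolve_left hx, ← htu']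
        group
      let f : K → Bool × Bool × d.U := fun x =>
        if h0 : (x : S) * u * (x : S)⁻¹ = u then
          (if h : (x : S) ∈ d.U then (false, false, ⟨x, h⟩)
          else (false, true, ⟨(x : S) * d.a, (hX x x.2 h0).resolve_left h⟩))
        else
          (if h : t⁻¹ * (x : S) ∈ d.U then (true, false, ⟨_, h⟩)
          else (true, true, ⟨t⁻¹ * (x : S) * d.a, (hX _ (hX' x h0).1 (hX' x h0).2).resolve_left h⟩))
      let back : Bool × Bool × d.U → S := fun q =>
        (if q.1 then t else 1) * (q.2.2 : S) * (if q.2.1 then d.a else 1)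
      have hback : ∀ x : K, back (f x) = x := by
        intro x
        simp only [f]
        split_ifs with h0 h1 h2 <;>
          simp [back, mul_assoc, d.ha]
      have hf : Function.Injective f := fun x y h => Subtype.ext (by rw [← hback x, h, hback y])
      have := Nat.card_le_card_of_injective f hf
      rw [Nat.card_prod, Nat.card_prod, Nat.card_eq_fintype_card (α := Bool), Fintype.card_bool, hU4] at this
      omega
  have himg : centralizer ({d.qW d.a} : Set (S ⧸ d.W)) ≤ K.map d.qW := by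
    intro q hq
    obtain ⟨x, rfl⟩ := QuotientGroup.mk'_surjective d.W q
    obtain ⟨w, hw, hc⟩ := d.lift16 h16 (d.delta_of_comm (mem_centralizer_singleton_iff.1 hq))
    exact ⟨w * x, mem_centralizer_singleton_iff.2 hc, by rw [map_mul, d.qW_one.2 hw, one_mul]⟩
  refine le_trans (card_le_of_le himg) ?_
  have hsplit := card_split d.qW K
  rw [QuotientGroup.ker_mk', inf_comm] at hsplit
  change Nat.card K = Nat.card d.U * Nat.card (K.map d.qW) at hsplit
  rw [hU4] at hsplit
  omega

/-- The bound when `|W| = 16`. -/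
theorem bound16 (h16 : Nat.card d.W = 16) (H : Subgroup S) :
    Nat.card H ≤ 2 ^ 4 * Nat.card (sqSub H) := by
  haveI : Fact (Nat.Prime 2) := ⟨Nat.prime_two⟩
  have hP' : IsPGroup 2 (S ⧸ d.W) := d.hP.to_quotient d.W
  have hC := d.cent_W16 h16
  have hker : d.qW.ker = d.W := QuotientGroup.ker_mk' d.W
  have hk4 : Nat.card (H.map d.qW) ≤ 4 * Nat.card ((sqSub H).map d.qW) := by
    rw [← sqSub_map]; exact sq_bound hP' d.qW_a_sq d.qW_a_ne hC _
  have hD16 : Nat.card (H ⊓ d.W : Subgroup S) ≤ 16 := h16 ▸ card_le_of_le inf_le_right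
  have h1 : 1 ≤ Nat.card (sqSub H ⊓ d.W : Subgroup S) := Nat.card_pos
  have h1' : 1 ≤ Nat.card ((sqSub H).map d.qW) := Nat.card_pos
  by_cases htriv : H ≤ d.W
  · have := card_le_of_le htriv
    have : 1 ≤ Nat.card (sqSub H) := Nat.card_pos
    omega
  obtain ⟨h0, hh0, hh0W⟩ := SetLike.not_le_iff_exists.1 htriv
  by_cases hbig : 2 * Nat.card ((sqSub H).map d.qW) < Nat.card (H.map d.qW)
  · -- a central element of the quotient
    refine bound_of d.qW hker H 4 4 le_rfl ?_ hk4
    have hne : (⊥ : Subgroup (S ⧸ d.W)) ≠ ⊤ := fun h =>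
      d.qW_a_ne (mem_bot.1 (h ▸ mem_top (d.qW d.a)))
    obtain ⟨K, -, -, -, hKcard, hcomm⟩ := Cfsg.Agent.H24.exists_normal_between (p := 2) hP' bot_le hne
    rw [card_bot, mul_one] at hKcard
    obtain ⟨c, hc, hc1⟩ : ∃ v ∈ K, v ≠ 1 := (Subgroup.bot_or_exists_ne_one K).resolve_left
      fun h => by rw [h, card_bot] at hKcard; omega
    have hcc : ∀ g, g * c = c * g := fun g => by
      have h := hcomm (commutator_mem_commutator (mem_top g) hc)
      rw [mem_bot, commutatorElement_def, mul_inv_eq_one, mul_inv_eq_iff_eq_mul] at h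
      exact h
    have hc2 : c * c = 1 := by
      have h : (⟨c, hc⟩ : K) ^ 2 = 1 := by rw [← hKcard]; exact pow_card_eq_one'
      simpa [pow_two] using congrArg Subtype.val h
    have hmem := central_mem hP' d.qW_a_sq d.qW_a_ne hC (K := H.map d.qW)
      (by rw [sqSub_map]; exact hbig) (mem_center_iff.2 hcc) hc2
    obtain ⟨x, hx, rfl⟩ := hmem
    have hfix := d.fix_le_four h16 (fun h => hc1 (d.qW_one.2 h)) (hcc _).symm
    let g : (H ⊓ d.W : Subgroup S) →* (sqSub H ⊓ d.W : Subgroup S) :=
      { toFun := fun w => ⟨x * (w : S) * x⁻¹ * w, d.move_mem w.2.1 w.2.2 hx⟩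
        map_one' := by ext; simp
        map_mul' := fun v w => by
          refine Subtype.ext ?_
          show x * ((v : S) * w) * x⁻¹ * ((v : S) * w) = x * v * x⁻¹ * v * (x * w * x⁻¹ * w)
          rw [show x * ((v : S) * w) * x⁻¹ = x * v * x⁻¹ * (x * w * x⁻¹) by group]
          have h := d.hWc _ v.2.2 _ (d.conj_W x w.2.2)
          calc x * (v : S) * x⁻¹ * (x * (w : S) * x⁻¹) * ((v : S) * w)
              = x * (v : S) * x⁻¹ * (x * (w : S) * x⁻¹ * (v : S)) * w := by simp only [mul_assoc]
            _ = x * (v : S) * x⁻¹ * ((v : S) * (x * (w : S) * x⁻¹)) * w := by rw [h]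
            _ = _ := by simp only [mul_assoc] }
    have hker' : Nat.card g.ker ≤ 4 := by
      refine le_trans (Nat.card_le_card_of_injective
        (fun w : g.ker => (⟨((w : (H ⊓ d.W : Subgroup S)) : S), (w : (H ⊓ d.W : Subgroup S)).2.2, ?_⟩ :
          (d.W ⊓ centralizer ({x} : Set S) : Subgroup S)))
        (fun v w h => Subtype.ext (Subtype.ext (congrArg
          (fun q : (d.W ⊓ centralizer ({x} : Set S) : Subgroup S) => (q : S)) h)))) hfix
      have h := congrArg Subtype.val (MonoidHom.mem_ker.1 w.2)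
      change x * ((w : (H ⊓ d.W : Subgroup S)) : S) * x⁻¹ * ((w : (H ⊓ d.W : Subgroup S)) : S) = 1 at h
      rw [mul_eq_one_iff_eq_inv, d.inv_W (w : (H ⊓ d.W : Subgroup S)).2.2, mul_inv_eq_iff_eq_mul] at h
      exact mem_centralizer_singleton_iff.2 h.symm
    rw [card_eq_card_quotient_mul_card_subgroup g.ker,
      Nat.card_congr (QuotientGroup.quotientKerEquivRange g).toEquiv, mul_comm]
    exact Nat.mul_le_mul hker' g.range.card_le_card_group
  · refine bound_of d.qW hker H 8 2 le_rfl ?_ (le_of_not_gt hbig)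
    obtain ⟨n, hn⟩ := card_pow_two d.hP (H ⊓ d.W)
    by_cases h8 : Nat.card (H ⊓ d.W : Subgroup S) ≤ 8
    · omega
    · have hfull : H ⊓ d.W = d.W := by
        refine eq_of_le_of_card_ge inf_le_right ?_
        rw [hn] at h8 hD16 ⊢
        rcases n with _ | _ | _ | _ | n
        · omega
        · omega
        · omega
        · omega
        · rw [h16, pow_succ, pow_succ, pow_succ, pow_succ]
          have := Nat.one_le_two_pow (n := n)
          omega
      have := d.two_le_of_moved (inf_eq_right.1 hfull) hh0 fun h => hh0W (d.L_eq_W h16 h)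
      omega

end Cfsg.Agent.H81.SelfEight.Data
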